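import Cfsg.Agent.Lib.SpOre.Sum

/-!
The self-adjoint endomorphism `g + g⁻¹ - c` of an isometry `g` of an alternating form, and the
cyclic subspaces over its polynomials.
-/

set_option autoImplicit false
set_option linter.style.haveILetI false
set_option linter.unusedSectionVars false

namespace CfsgLib.SpOre

open Polynomial

variable {F V : Type*} [Field F] [AddCommGroup V] [Module F V]
variable {β : LinearMap.BilinForm F V} {g : V ≃ₗ[F] V} {c : F}

/-- The endomorphism `g + g⁻¹ - c`. -/
def trT (g : V ≃ₗ[F] V) (c : F) : Module.End F V :=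
  (g : V →ₗ[F] V) + (g.symm : V →ₗ[F] V) - c • (1 : Module.End F V)

@[simp] theorem trT_apply (x : V) : trT g c x = g x + g.symm x - c • x := rfl

/-- Evaluation of polynomials at `R`, applied to `v`. -/
noncomputable def kmap (R : Module.End F V) (v : V) : F[X] →ₗ[F] V :=
  (LinearMap.applyₗ v).comp (aeval R).toLinearMap

/-- The cyclic subspace of `v` over the polynomials in `R`. -/
noncomputable def kspan (R : Module.End F V) (v : V) : Submodule F V := LinearMap.range (kmap R v)

theorem mem_kspan {R : Module.End F V} {v x : V} :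
    x ∈ kspan R v ↔ ∃ a : F[X], aeval R a v = x := Iff.rfl

theorem aeval_mem_kspan (R : Module.End F V) (v : V) (a : F[X]) : aeval R a v ∈ kspan R v :=
  mem_kspan.mpr ⟨a, rfl⟩

theorem self_mem_kspan (R : Module.End F V) (v : V) : v ∈ kspan R v := mem_kspan.mpr ⟨1, by simp⟩

theorem aeval_aeval (R : Module.End F V) (a b : F[X]) (v : V) :
    aeval R a (aeval R b v) = aeval R (a * b) v := by simp [map_mul, Module.End.mul_apply]

theorem aeval_mem_of_invariant (R : Module.End F V) {W : Submodule F V}
    (h : ∀ x ∈ W, R x ∈ W) (a : F[X]) {x : V} (hx : x ∈ W) : aeval R a x ∈ W := by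
  induction a using Polynomial.induction_on with
  | C r => simpa [Algebra.algebraMap_eq_smul_one] using W.smul_mem r hx
  | add p q hp hq => simpa using W.add_mem hp hq
  | monomial n r ih =>
    rw [pow_succ', show C r * (X * X ^ n) = X * (C r * X ^ n) by ring, ← aeval_aeval, aeval_X]
    exact h _ ih

theorem kspan_invariant (R : Module.End F V) (v : V) : ∀ x ∈ kspan R v, R x ∈ kspan R v := by
  intro x hx
  obtain ⟨a, rfl⟩ := mem_kspan.mp hx
  exact mem_kspan.mpr ⟨X * a, by rw [← aeval_aeval, aeval_X]⟩

theorem aeval_mem_kspan_of_mem (R : Module.End F V) (a : F[X]) {v x : V} (hx : x ∈ kspan R v) :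
    aeval R a x ∈ kspan R v :=
  aeval_mem_of_invariant R (kspan_invariant R v) a hx

theorem kspan_le {R : Module.End F V} {v : V} {W : Submodule F V} (h : ∀ x ∈ W, R x ∈ W)
    (hv : v ∈ W) : kspan R v ≤ W := by
  intro x hx
  obtain ⟨a, rfl⟩ := mem_kspan.mp hx
  exact aeval_mem_of_invariant R h a hv

theorem sup_invariant {R : Module.End F V} {W W' : Submodule F V} (h : ∀ x ∈ W, R x ∈ W)
    (h' : ∀ x ∈ W', R x ∈ W') : ∀ x ∈ W ⊔ W', R x ∈ W ⊔ W' := by
  intro x hx
  obtain ⟨a, ha, b, hb, rfl⟩ := Submodule.mem_sup.mp hx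
  rw [map_add]
  exact Submodule.add_mem_sup (h a ha) (h' b hb)

theorem aeval_split (R : Module.End F V) (a : F[X]) (v : V) :
    aeval R a v = a.coeff 0 • v + R (aeval R a.divX v) := by
  nth_rewrite 1 [← X_mul_divX_add a]
  rw [map_add, LinearMap.add_apply, map_mul, Module.End.mul_apply, aeval_X, aeval_C,
    Algebra.algebraMap_eq_smul_one, LinearMap.smul_apply, Module.End.one_apply, add_comm]

theorem pow_apply_eq (R : Module.End F V) (n : ℕ) (v : V) : (R ^ n) v = aeval R (X ^ n : F[X]) v := by
  simp

theorem pow_add_apply (R : Module.End F V) (m n : ℕ) (v : V) :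
    (R ^ (m + n)) v = (R ^ m) ((R ^ n) v) := by rw [pow_add, Module.End.mul_apply]

section Isom

variable (hβ : β.IsAlt) (hg : Isom β g)
include hg

theorem Isom.symm_left (x y : V) : β (g.symm x) y = β x (g y) := by
  conv_rhs => rw [← g.apply_symm_apply x, hg]

theorem Isom.symm_right (x y : V) : β x (g.symm y) = β (g x) y := by
  conv_rhs => rw [← g.apply_symm_apply y, hg]

omit hg in
theorem Good.symm_mem [FiniteDimensional F V] {U : Submodule F V} (hU : Good β g U) {x : V}
    (hx : x ∈ U) : g.symm x ∈ U := by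
  obtain ⟨z, hz, rfl⟩ := exists_preimage hU.map_mem hx
  rwa [g.symm_apply_apply]

theorem trT_adj (c : F) (x y : V) : β (trT g c x) y = β x (trT g c y) := by
  simp only [trT_apply, map_add, map_sub, map_smul, LinearMap.add_apply, LinearMap.sub_apply,
    LinearMap.smul_apply, hg.symm_left, hg.symm_right]
  ring

theorem pow_adj (n : ℕ) (x y : V) : β ((trT g c ^ n) x) y = β x ((trT g c ^ n) y) := by
  induction n generalizing y with
  | zero => simp
  | succ n ih =>
    conv_lhs => rw [pow_succ', Module.End.mul_apply, trT_adj hg, ih]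
    rw [pow_succ, Module.End.mul_apply]

theorem aeval_adj (a : F[X]) (x y : V) :
    β (aeval (trT g c) a x) y = β x (aeval (trT g c) a y) := by
  induction a using Polynomial.induction_on' with
  | add p q hp hq => simp [hp, hq]
  | monomial n r => simp [aeval_monomial, Algebra.algebraMap_eq_smul_one, pow_adj hg]

include hβ in
/-- Polynomials in `g + g⁻¹ - c` pair every vector to zero with itself. -/
theorem aeval_self (a : F[X]) (x : V) : β (aeval (trT g c) a x) x = 0 := by
  induction a using Polynomial.induction_on' with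
  | add p q hp hq => simp [hp, hq]
  | monomial n r =>
    have h0 : β ((trT g c ^ n) x) x = 0 := by
      obtain ⟨m, rfl | rfl⟩ := Nat.even_or_odd' n
      · rw [two_mul, pow_add_apply, pow_adj hg]
        exact hβ.self_eq_zero _
      · rw [show 2 * m + 1 = m + (1 + m) by ring, pow_add_apply, pow_adj hg, pow_add_apply, pow_one]
        generalize (trT g c ^ m) x = w
        simp only [trT_apply, map_add, map_sub, map_smul, LinearMap.add_apply, LinearMap.sub_apply,
          LinearMap.smul_apply, hβ.self_eq_zero, smul_zero, sub_zero, hg.symm_left]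
        rw [← hβ.neg_eq w (g w)]
        ring
    simp [aeval_monomial, Algebra.algebraMap_eq_smul_one, h0]

omit hg in
/-- Polynomials in `g + g⁻¹ - c` commute with `g`. -/
theorem aeval_comm (a : F[X]) (x : V) :
    aeval (trT g c) a (g x) = g (aeval (trT g c) a x) := by
  have h : ∀ n : ℕ, (trT g c ^ n) (g x) = g ((trT g c ^ n) x) := by
    intro n
    induction n with
    | zero => simp
    | succ n ih =>
      rw [pow_succ', Module.End.mul_apply, Module.End.mul_apply, ih]
      simp [map_add, map_sub, map_smul]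
  induction a using Polynomial.induction_on' with
  | add p q hp hq => simp [hp, hq]
  | monomial n r => simp [aeval_monomial, Algebra.algebraMap_eq_smul_one, h]

omit hg in
theorem Good.aeval_mem [FiniteDimensional F V] {U : Submodule F V} (hU : Good β g U) (a : F[X])
    {x : V} (hx : x ∈ U) : aeval (trT g c) a x ∈ U :=
  aeval_mem_of_invariant _ (fun z hz => by
    rw [trT_apply]
    exact U.sub_mem (U.add_mem (hU.map_mem z hz) (hU.symm_mem hz)) (U.smul_mem _ hz)) a hx

omit hg in
theorem Good.pow_mem [FiniteDimensional F V] {U : Submodule F V} (hU : Good β g U) (n : ℕ)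
    {x : V} (hx : x ∈ U) : (trT g c ^ n) x ∈ U := by
  rw [pow_apply_eq]; exact hU.aeval_mem _ hx

include hβ

theorem isotropic_kspan (v : V) : Isotropic β (kspan (trT g c) v) := by
  intro x hx y hy
  obtain ⟨a, rfl⟩ := mem_kspan.mp hx
  obtain ⟨b, rfl⟩ := mem_kspan.mp hy
  rw [← aeval_adj hg, aeval_aeval]
  exact aeval_self hβ hg _ _

theorem isotropic_kspan_sup {v w : V} (h : ∀ a : F[X], β (aeval (trT g c) a v) w = 0) :
    Isotropic β (kspan (trT g c) v ⊔ kspan (trT g c) w) := by
  refine isotropic_sup hβ (isotropic_kspan hβ hg v) (isotropic_kspan hβ hg w) fun x hx y hy => ?_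
  obtain ⟨a, rfl⟩ := mem_kspan.mp hx
  obtain ⟨b, rfl⟩ := mem_kspan.mp hy
  rw [← aeval_adj hg, aeval_aeval]
  exact h _

end Isom

/-- A two-sided isotropic splitting of a non-degenerate subspace gives a Gauss product. -/
theorem gaussOn_of (hβ : β.IsAlt) {ε : F} {W W' Z : Submodule F V} (hW : Isotropic β W)
    (hW' : Isotropic β W') (hs : W ⊔ W' = Z) (hZ : ∀ x ∈ Z, (∀ y ∈ Z, β x y = 0) → x = 0)
    (h : ∀ w ∈ W, g w - ε • w ∈ W') : GaussOn β g ε Z := by
  refine ⟨W, W', hW, hW', ?_, hs, h⟩
  rw [eq_bot_iff]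
  rintro x ⟨hx, hx'⟩
  refine hZ x (hs ▸ Submodule.mem_sup_left hx) fun y hy => ?_
  rw [← hs] at hy
  obtain ⟨a, ha, b, hb, rfl⟩ := Submodule.mem_sup.mp hy
  rw [map_add, hW x hx a ha, hW' x hx' b hb, add_zero]

/-- A functional which is non-zero on the socle represents all others. -/
theorem exists_coeff (hg : Isom β g) {x y z : V} {e : ℕ}
    (hx : ∀ i, e ≤ i → (trT g c ^ i) x = 0) (he : β ((trT g c ^ (e - 1)) x) y ≠ 0) :
    ∃ u : F[X], ∀ a : F[X], β (aeval (trT g c) a x) z = β (aeval (trT g c) a x) (aeval (trT g c) u y) := by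
  suffices ∀ m ≤ e, ∃ u : F[X], ∀ i, e - m ≤ i →
      β ((trT g c ^ i) x) z = β ((trT g c ^ i) x) (aeval (trT g c) u y) by
    obtain ⟨u, hu⟩ := this e le_rfl
    refine ⟨u, fun a => ?_⟩
    induction a using Polynomial.induction_on' with
    | add p q hp hq => simp [hp, hq]
    | monomial n r => simp [aeval_monomial, Algebra.algebraMap_eq_smul_one, hu n (by omega)]
  intro m
  induction m with
  | zero => exact fun _ => ⟨0, fun i hi => by simp [hx i (by omega)]⟩
  | succ m ih =>
    intro hm
    obtain ⟨u, hu⟩ := ih (by omega)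
    set φ := β ((trT g c ^ (e - 1)) x) y
    set i₀ := e - (m + 1) with hi₀
    set d := (β ((trT g c ^ i₀) x) z - β ((trT g c ^ i₀) x) (aeval (trT g c) u y)) / φ with hd
    refine ⟨u + C d * X ^ m, fun i hi => ?_⟩
    have e1 : β ((trT g c ^ i) x) (aeval (trT g c) (u + C d * X ^ m) y) =
        β ((trT g c ^ i) x) (aeval (trT g c) u y) + d * β ((trT g c ^ (m + i)) x) y := by
      simp [Algebra.algebraMap_eq_smul_one, pow_add_apply, pow_adj hg m]
    rw [e1]
    rcases (eq_or_lt_of_le hi : i₀ = i ∨ i₀ < i) with rfl | hlt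
    · rw [show m + i₀ = e - 1 by omega, hd, div_mul_cancel₀ _ he]
      ring
    · rw [hx (m + i) (by omega), ← hu i (by omega)]
      simp

end CfsgLib.SpOre
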