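import Cfsg.Agent.Lib.SpOre.ToMatrix

/-!
Over three elements: a plane orthogonal to a plane on which the isometry is `-1` carries a commutator.
-/

set_option autoImplicit false
set_option linter.style.haveILetI false
set_option linter.unusedSectionVars false

namespace CfsgLib.SpOre

open Matrix

/-- The symplectic matrix for four coordinates, in the order `x₀, x₁, y₀, y₁`. -/
def four_J : Matrix (Fin 4) (Fin 4) (ZMod 3) := !![0, 0, 2, 0; 0, 0, 0, 2; 1, 0, 0, 0; 0, 1, 0, 0]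

/-- A plane matrix plus `-1`. -/
def four_target (a b c d : ZMod 3) : Matrix (Fin 4) (Fin 4) (ZMod 3) :=
  !![a, 0, b, 0; 0, 2, 0, 0; c, 0, d, 0; 0, 0, 0, 2]

/-- Witnesses: pairs with commutator a given target. -/
def four_table : List (Matrix (Fin 4) (Fin 4) (ZMod 3) × Matrix (Fin 4) (Fin 4) (ZMod 3)) :=
  [
    (!![2, 2, 2, 1; 0, 2, 1, 0; 1, 2, 2, 2; 1, 0, 0, 1], !![0, 1, 2, 2; 1, 0, 1, 2; 2, 2, 0, 0; 1, 2, 0, 0]),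
    (!![2, 1, 2, 1; 2, 2, 2, 2; 0, 2, 1, 1; 1, 2, 2, 0], !![0, 0, 0, 2; 0, 0, 1, 1; 2, 1, 2, 0; 2, 0, 0, 1]),
    (!![0, 1, 0, 2; 2, 0, 0, 0; 0, 0, 0, 1; 0, 0, 2, 0], !![0, 0, 2, 1; 0, 0, 1, 1; 2, 1, 0, 1; 1, 1, 2, 0]),
    (!![2, 0, 2, 0; 0, 0, 0, 2; 2, 0, 1, 0; 0, 1, 0, 0], !![0, 1, 0, 1; 1, 0, 2, 0; 0, 2, 0, 0; 0, 0, 1, 0]),
    (!![2, 0, 0, 2; 0, 2, 2, 1; 2, 1, 0, 1; 1, 1, 1, 2], !![2, 1, 1, 1; 2, 0, 2, 1; 1, 1, 0, 0; 0, 1, 1, 2]),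
    (!![2, 1, 1, 0; 0, 1, 1, 1; 2, 1, 0, 0; 0, 1, 2, 2], !![1, 1, 2, 2; 1, 0, 0, 2; 0, 0, 0, 1; 0, 0, 1, 2]),
    (!![0, 1, 2, 2; 2, 2, 1, 2; 2, 1, 1, 1; 2, 0, 2, 1], !![1, 1, 2, 0; 0, 0, 1, 2; 2, 2, 0, 2; 1, 2, 2, 0]),
    (!![0, 0, 2, 0; 0, 0, 2, 2; 1, 2, 0, 0; 0, 1, 2, 2], !![1, 1, 1, 2; 2, 1, 0, 1; 2, 2, 1, 0; 1, 2, 1, 1]),
    (!![0, 1, 1, 0; 2, 0, 2, 2; 1, 0, 1, 2; 2, 2, 0, 2], !![2, 2, 1, 2; 2, 1, 2, 0; 1, 2, 2, 1; 1, 1, 0, 0]),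
    (!![2, 0, 0, 1; 2, 0, 0, 0; 2, 2, 0, 2; 1, 1, 2, 2], !![0, 2, 0, 1; 2, 0, 1, 0; 2, 2, 1, 0; 0, 2, 2, 1]),
    (!![2, 1, 0, 2; 0, 0, 2, 2; 0, 0, 0, 1; 1, 0, 1, 1], !![0, 1, 1, 0; 0, 1, 2, 0; 1, 1, 1, 2; 2, 2, 1, 2]),
    (!![2, 0, 0, 2; 2, 2, 2, 0; 2, 0, 2, 0; 1, 1, 1, 2], !![2, 0, 0, 1; 1, 0, 0, 1; 0, 1, 1, 2; 2, 1, 2, 1]),
    (!![1, 1, 1, 2; 1, 1, 2, 1; 1, 0, 1, 1; 0, 1, 1, 1], !![1, 1, 0, 2; 2, 0, 1, 2; 2, 1, 2, 1; 2, 2, 2, 2]),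
    (!![2, 2, 0, 0; 0, 2, 2, 1; 2, 1, 1, 1; 2, 0, 2, 1], !![0, 1, 1, 2; 0, 1, 2, 2; 1, 0, 0, 2; 2, 0, 0, 2]),
    (!![2, 2, 0, 2; 1, 1, 2, 2; 0, 2, 0, 1; 1, 0, 0, 0], !![0, 0, 2, 0; 0, 2, 2, 2; 1, 0, 0, 1; 0, 2, 2, 1]),
    (!![0, 2, 1, 2; 0, 0, 2, 0; 0, 1, 0, 0; 1, 1, 1, 0], !![2, 0, 1, 1; 0, 2, 1, 1; 1, 2, 2, 0; 2, 0, 1, 0]),
    (!![2, 2, 1, 2; 2, 1, 0, 2; 0, 1, 2, 1; 0, 2, 0, 2], !![1, 0, 1, 1; 2, 2, 1, 2; 1, 1, 0, 0; 0, 1, 1, 2]),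
    (!![0, 1, 0, 0; 1, 1, 0, 0; 2, 0, 2, 1; 0, 2, 1, 0], !![2, 1, 2, 1; 1, 1, 1, 1; 1, 1, 2, 0; 2, 1, 1, 0]),
    (!![0, 1, 1, 2; 0, 2, 1, 1; 1, 0, 2, 2; 1, 1, 1, 0], !![1, 1, 2, 0; 1, 2, 0, 2; 0, 1, 0, 1; 2, 0, 1, 0]),
    (!![1, 0, 0, 2; 0, 0, 0, 2; 2, 0, 1, 2; 2, 1, 2, 1], !![0, 1, 0, 0; 2, 0, 1, 0; 0, 2, 0, 1; 1, 0, 1, 0]),
    (!![0, 2, 2, 2; 2, 0, 2, 2; 1, 1, 2, 1; 2, 1, 2, 0], !![2, 0, 0, 2; 1, 1, 1, 2; 0, 0, 2, 1; 2, 2, 2, 2]),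
    (!![2, 0, 2, 2; 2, 1, 0, 2; 2, 0, 1, 1; 2, 1, 0, 0], !![1, 0, 2, 1; 2, 0, 1, 1; 1, 1, 1, 0; 0, 1, 1, 2]),
    (!![1, 1, 1, 2; 0, 2, 0, 1; 2, 1, 0, 2; 1, 1, 2, 1], !![1, 2, 1, 2; 1, 0, 2, 1; 2, 2, 0, 2; 1, 2, 2, 0]),
    (!![2, 2, 2, 1; 1, 1, 0, 0; 0, 2, 2, 1; 0, 2, 0, 1], !![2, 2, 1, 2; 1, 1, 0, 0; 1, 2, 0, 0; 0, 1, 2, 2])]

theorem four_table_ok : ∀ a b c d : ZMod 3, a * d - b * c = 1 → ∃ x ∈ four_table,
    x.1 * four_J * x.1ᵀ = four_J ∧ x.2 * four_J * x.2ᵀ = four_J ∧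
      x.1 * x.2 = four_target a b c d * (x.2 * x.1) := by
  decide +kernel

theorem zmod_three_two : (2 : ZMod 3) = -1 := by decide

variable {F V : Type*} [Field F] [AddCommGroup V] [Module F V] [FiniteDimensional F V]
variable {β : LinearMap.BilinForm F V} {g : V ≃ₗ[F] V} {U : Submodule F V}

/-- The small case over three elements. -/
theorem commOn_four [Fintype F] (hF : Fintype.card F = 3) (hβ : β.IsAlt) (hg : Isom β g)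
    (hU : Good β g U) (x y : Fin 2 → V) (hxU : ∀ i, x i ∈ U) (hyU : ∀ i, y i ∈ U)
    (hspan : U ≤ Submodule.span F (Set.range (Sum.elim x y)))
    (hxx : ∀ i j, β (x i) (x j) = 0) (hyy : ∀ i j, β (y i) (y j) = 0)
    (hxy : ∀ i j, β (x i) (y j) = if i = j then 1 else 0)
    (a b c d : F) (hgx : g (x 0) = a • x 0 + c • y 0) (hgy : g (y 0) = b • x 0 + d • y 0)
    (hx1 : g (x 1) = -x 1) (hy1 : g (y 1) = -y 1) : CommOn β g U := by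
  classical
  have : Fact (Nat.Prime 3) := ⟨Nat.prime_three⟩
  have : CharP F 3 := charP_of_card_eq_prime hF
  let φ := ZMod.castHom (dvd_refl 3) F
  have hφ : Function.Bijective φ := by
    rw [Fintype.bijective_iff_injective_and_card]
    exact ⟨φ.injective, by rw [ZMod.card, hF]⟩
  have hyx : ∀ i j, β (y i) (x j) = -(if j = i then 1 else 0) := fun i j => by
    have := hβ.neg_eq (x j) (y i)
    rw [hxy] at this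
    exact this.symm
  have hM : ∀ k l, β (Sum.elim x y k) (Sum.elim x y l) = (-(J (Fin 2) F)) k l := by
    rintro (i | i) (j | j)
    · simp [J, hxx]
    · simp [J, hxy, Matrix.one_apply]
    · simp [J, hyx, Matrix.one_apply, eq_comm]
    · simp [J, hyy]
  have hdet : a * d - b * c = 1 := by
    have h := hg (x 0) (y 0)
    rw [hgx, hgy, hxy 0 0, if_pos rfl] at h
    simp only [map_add, map_smul, LinearMap.add_apply, LinearMap.smul_apply, smul_eq_mul, hxx, hyy,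
      hxy, hyx, if_true] at h
    linear_combination h
  refine commOn_of_basis hβ hg hU _ (fun k => by rcases k with i | i; exacts [hxU i, hyU i]) hspan hM ?_
  intro G _ hGl
  obtain ⟨a', rfl⟩ := hφ.2 a
  obtain ⟨b', rfl⟩ := hφ.2 b
  obtain ⟨c', rfl⟩ := hφ.2 c
  obtain ⟨d', rfl⟩ := hφ.2 d
  obtain ⟨⟨P, Q⟩, -, hP, hQ, hPQ⟩ := four_table_ok a' b' c' d'
    (hφ.1 (by simpa using hdet))
  let ψ : Matrix (Fin 4) (Fin 4) (ZMod 3) → Matrix (Fin 2 ⊕ Fin 2) (Fin 2 ⊕ Fin 2) F := fun M =>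
    φ.mapMatrix (M.submatrix finSumFinEquiv finSumFinEquiv)
  have hmul : ∀ M N, ψ (M * N) = ψ M * ψ N := fun M N => by
    simp only [ψ]
    rw [← map_mul, Matrix.submatrix_mul_equiv]
  have hJ4 : (four_J.submatrix finSumFinEquiv finSumFinEquiv : Matrix (Fin 2 ⊕ Fin 2) (Fin 2 ⊕ Fin 2) (ZMod 3)) =
      J (Fin 2) (ZMod 3) := by decide +kernel
  have hmem : ∀ M, M * four_J * Mᵀ = four_J → ψ M ∈ Matrix.symplecticGroup (Fin 2) F := fun M hMs => by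
    refine SymplecticGroup.map_mem ?_ φ
    rw [SymplecticGroup.mem_iff, ← hJ4, Matrix.submatrix_mul_equiv, transpose_submatrix,
      Matrix.submatrix_mul_equiv, hMs]
  refine ⟨⟨ψ P, hmem P hP⟩, ⟨ψ Q, hmem Q hQ⟩, ?_⟩
  have hG : G = ψ (four_target a' b' c' d') := by
    have hcoef : ∀ l, g (Sum.elim x y l) =
        ∑ k, ψ (four_target a' b' c' d') k l • Sum.elim x y k := by
      have h2 : φ 2 = -1 := by
        rw [zmod_three_two, map_neg, map_one]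
      rintro (i | i) <;> fin_cases i <;>
        simp [ψ, four_target, hgx, hgy, hx1, hy1, h2, Fin.sum_univ_two, finSumFinEquiv, Fin.castAdd,
          Fin.natAdd, Fin.castLE]
    have key : (-(J (Fin 2) F)) * G = (-(J (Fin 2) F)) * ψ (four_target a' b' c' d') := by
      ext m l
      have h := congrArg (β (Sum.elim x y m)) ((hGl l).symm.trans (hcoef l))
      simp only [map_sum, map_smul, smul_eq_mul, hM] at h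
      simp only [Matrix.mul_apply]
      simpa [mul_comm] using h
    have := congrArg (fun M => J (Fin 2) F * M) key
    simpa [Matrix.neg_mul, ← mul_assoc, J_squared] using this
  rw [hG]
  have hco : ((⟨ψ P, hmem P hP⟩ * ⟨ψ Q, hmem Q hQ⟩ : Matrix.symplecticGroup (Fin 2) F) :
      Matrix (Fin 2 ⊕ Fin 2) (Fin 2 ⊕ Fin 2) F) =
      ψ (four_target a' b' c' d') * ((⟨ψ Q, hmem Q hQ⟩ * ⟨ψ P, hmem P hP⟩ : Matrix.symplecticGroup (Fin 2) F) :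
      Matrix (Fin 2 ⊕ Fin 2) (Fin 2 ⊕ Fin 2) F) := by
    simp only [Submonoid.coe_mul, ← hmul, hPQ]
  rw [mul_assoc (_ * _), ← _root_.mul_inv_rev, Submonoid.coe_mul, hco, mul_assoc, ← Submonoid.coe_mul,
    mul_inv_cancel, Submonoid.coe_one, mul_one]

end CfsgLib.SpOre
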