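import Cfsg.Agent.Lib.SpOre.Basic

/-!
A pair of Jordan blocks of odd size for the eigenvalue `-1` is a commutator of isometries: it is
`(-1) ⊗ u` on a plane tensor a cyclic orthogonal space, and `-1`, `u` are commutators of anticommuting
elements, of involutions respectively.
-/

set_option autoImplicit false
set_option linter.style.haveILetI false
set_option linter.unusedSectionVars false

namespace CfsgLib.SpOre

open Polynomial

variable {F : Type*} [Field F]
variable {V : Type*} [AddCommGroup V] [Module F V] [FiniteDimensional F V]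
variable {β : LinearMap.BilinForm F V} {g : V ≃ₗ[F] V} {U : Submodule F V}

theorem Isom.pow_apply (hg : Isom β g) (m : ℕ) (a b : V) : β ((g ^ m) a) ((g ^ m) b) = β a b := by
  induction m with
  | zero => simp
  | succ m ih => simp [pow_succ', LinearEquiv.mul_apply, hg _ _, ih]

theorem Isom.zpow_apply (hg : Isom β g) (i : ℤ) (a b : V) : β ((g ^ i) a) ((g ^ i) b) = β a b := by
  obtain ⟨m, rfl | rfl⟩ := i.eq_nat_or_neg
  · rw [zpow_natCast]; exact hg.pow_apply m a b
  · have h := hg.pow_apply m ((g ^ (-(m : ℤ))) a) ((g ^ (-(m : ℤ))) b)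
    rw [← h, ← LinearEquiv.mul_apply, ← LinearEquiv.mul_apply, zpow_neg, zpow_natCast, mul_inv_cancel]
    simp

theorem toEnd_pow_apply (n : ℕ) (v : V) : ((g : V →ₗ[F] V) ^ n) v = (g ^ n) v := by
  rw [Module.End.pow_apply, LinearEquiv.pow_apply]
  rfl

theorem exists_linearMap_comp {W : Type*} [AddCommGroup W] [Module F W] (π ψ : W →ₗ[F] V)
    (h : LinearMap.ker π ≤ LinearMap.ker ψ) : ∃ T : V →ₗ[F] V, T ∘ₗ π = ψ := by
  obtain ⟨T, hT⟩ := LinearMap.exists_extend
    (((LinearMap.ker π).liftQ ψ h) ∘ₗ π.quotKerEquivRange.symm.toLinearMap)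
  refine ⟨T, LinearMap.ext fun w => ?_⟩
  have := LinearMap.congr_fun hT ⟨π w, LinearMap.mem_range_self π w⟩
  simpa [LinearMap.quotKerEquivRange_symm_apply_image π w] using this

theorem span_pow_eq_range (x : V) :
    Submodule.span F (Set.range fun i : ℕ => (g ^ i) x) =
      LinearMap.range ((LinearMap.applyₗ x).comp (aeval (g : V →ₗ[F] V)).toLinearMap) := by
  apply le_antisymm
  · rw [Submodule.span_le]
    rintro _ ⟨i, rfl⟩
    exact ⟨X ^ i, by simp [toEnd_pow_apply]⟩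
  · rintro _ ⟨p, rfl⟩
    simp only [LinearMap.comp_apply, AlgHom.toLinearMap_apply, LinearMap.applyₗ_apply_apply,
      aeval_eq_sum_range, LinearMap.sum_apply, LinearMap.smul_apply]
    exact Submodule.sum_mem _ fun i _ => Submodule.smul_mem _ _ (Submodule.subset_span
      ⟨i, by simp [toEnd_pow_apply]⟩)

/-- An odd pair is a commutator. -/
theorem OddPair.commOn [Finite F] (hβ : β.IsAlt) (hg : Isom β g) (hU : Good β g U)
    (hP : OddPair β g U) : CommOn β g U := by
  classical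
  obtain ⟨k, x, y, hk, h2, hxx, hyy, hMx, hMy, hL0, rfl⟩ := hP
  set G : V →ₗ[F] V := (g : V →ₗ[F] V) with hGdef
  set M : V →ₗ[F] V := G + 1 with hMdef
  set π : V → (F[X] →ₗ[F] V) := fun v =>
    (LinearMap.applyₗ v).comp (aeval G).toLinearMap with hπ
  have hπX : ∀ v p, π v (X * p) = g (π v p) := fun v p => by simp [hπ, hGdef, map_mul]
  set SX := Submodule.span F (Set.range fun i : ℕ => (g ^ i) x) with hSX
  set SY := Submodule.span F (Set.range fun i : ℕ => (g ^ i) y) with hSY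
  rw [Submodule.span_union] at hU ⊢
  rw [← hSX, ← hSY] at hU ⊢
  have hSXr : SX = LinearMap.range (π x) := span_pow_eq_range x
  have hSYr : SY = LinearMap.range (π y) := span_pow_eq_range y
  have iso : ∀ v : V, (∀ i : ℕ, β ((g ^ i) v) v = 0) →
      Isotropic β (Submodule.span F (Set.range fun i : ℕ => (g ^ i) v)) := by
    intro v hv a ha b hb
    induction ha, hb using Submodule.span_induction₂ with
    | mem_mem a b ha hb =>
      obtain ⟨i, rfl⟩ := ha
      obtain ⟨j, rfl⟩ := hb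
      rcases Nat.le_total j i with h | h
      · obtain ⟨d, rfl⟩ := Nat.exists_eq_add_of_le h
        simp only [pow_add, LinearEquiv.mul_apply, hg.pow_apply, hv]
      · obtain ⟨d, rfl⟩ := Nat.exists_eq_add_of_le h
        simp only [pow_add, LinearEquiv.mul_apply, hg.pow_apply]
        exact hβ.isRefl _ _ (hv d)
    | zero_left => simp
    | zero_right => simp
    | add_left _ _ _ _ _ _ h h' => simp [h, h']
    | add_right _ _ _ _ _ _ h h' => simp [h, h']
    | smul_left _ _ _ _ _ h => simp [h]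
    | smul_right _ _ _ _ _ h => simp [h]
  have hIX : Isotropic β SX := iso x hxx
  have hIY : Isotropic β SY := iso y hyy
  have hk1 : 1 ≤ k := hk.pos
  have hG : ∀ v, G v = g v := fun v => rfl
  have hπpow : ∀ v m, π v ((X + 1) ^ m) = (M ^ m) v := fun v m => by
    simp [hπ, hMdef, hGdef]
  -- the kernel of evaluation at a vector killed exactly by `M ^ k`
  have hker : ∀ v p, (M ^ k) v = 0 → (M ^ (k - 1)) v ≠ 0 → π v p = 0 → (X + 1) ^ k ∣ p := by
    intro v p hv hv' hp
    have hp1 : Prime (X + 1 : F[X]) := by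
      rw [← C_1]; exact prime_of_degree_eq_one (degree_X_add_C 1)
    obtain ⟨r, s, hrs⟩ := exists_gcd_eq_mul_add_mul p ((X + 1) ^ k)
    obtain ⟨i, hi, hass⟩ := (dvd_prime_pow hp1 k).mp (gcd_dvd_right p ((X + 1) ^ k))
    rcases hi.lt_or_eq with h | h
    · exfalso
      have h0 : π v (gcd p ((X + 1) ^ k)) = 0 := by
        rw [hrs, map_add, mul_comm p, mul_comm ((X + 1) ^ k)]
        simp only [hπ, LinearMap.comp_apply, AlgHom.toLinearMap_apply, map_mul,
          LinearMap.applyₗ_apply_apply, Module.End.mul_apply] at hp ⊢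
        rw [hp, show aeval G ((X + 1) ^ k : F[X]) v = 0 by simpa [hMdef] using hv]
        simp
      obtain ⟨w, hw⟩ := hass.dvd
      have : (X + 1) ^ (k - 1) = gcd p ((X + 1) ^ k) * w * (X + 1) ^ (k - 1 - i) := by
        rw [← hw, ← pow_add, Nat.add_sub_cancel' (by omega)]
      apply hv'
      rw [← hπpow, this, mul_assoc, mul_comm]
      simp only [hπ, LinearMap.comp_apply, AlgHom.toLinearMap_apply, map_mul,
        LinearMap.applyₗ_apply_apply, Module.End.mul_apply] at h0 ⊢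
      rw [h0, map_zero, map_zero]
    · subst h
      exact hass.symm.dvd.trans (gcd_dvd_left _ _)
  have hx0 : (M ^ (k - 1)) x ≠ 0 := fun h => hL0 (by rw [h]; simp)
  -- the reflection of the cyclic space
  have hginv : ∀ i : ℕ, (((g⁻¹ : V ≃ₗ[F] V) : V →ₗ[F] V) + 1) ^ i =
      (((g⁻¹ : V ≃ₗ[F] V) : V →ₗ[F] V)) ^ i * M ^ i := by
    intro i
    have h1 : ((g⁻¹ : V ≃ₗ[F] V) : V →ₗ[F] V) * G = 1 := by
      ext v; exact g.symm_apply_apply v
    have h2 : G * ((g⁻¹ : V ≃ₗ[F] V) : V →ₗ[F] V) = 1 := by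
      ext v; exact g.apply_symm_apply v
    have hc : Commute ((g⁻¹ : V ≃ₗ[F] V) : V →ₗ[F] V) M :=
      (show Commute _ G from h1.trans h2.symm).add_right (Commute.one_right _)
    rw [← hc.mul_pow, hMdef, mul_add, mul_one, h1, add_comm]
  let ψ : F[X] →ₗ[F] V := (LinearMap.applyₗ x).comp
    (aeval ((g⁻¹ : V ≃ₗ[F] V) : V →ₗ[F] V)).toLinearMap
  obtain ⟨τ, hτ'⟩ := exists_linearMap_comp (π x) ψ (by
    intro p hp
    obtain ⟨q, rfl⟩ := hker x p hMx hx0 hp
    rw [LinearMap.mem_ker]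
    simp only [ψ, LinearMap.comp_apply, AlgHom.toLinearMap_apply, LinearMap.applyₗ_apply_apply]
    rw [mul_comm, map_mul, map_pow, map_add, aeval_X, map_one, hginv]
    simp [Module.End.mul_apply, hMx])
  have hτ : ∀ i : ℕ, τ ((g ^ i) x) = (g ^ (-(i : ℤ))) x := fun i => by
    have h := LinearMap.congr_fun hτ' (X ^ i)
    simp only [LinearMap.comp_apply, ψ, hπ, AlgHom.toLinearMap_apply, map_pow, aeval_X,
      LinearMap.applyₗ_apply_apply, hGdef, toEnd_pow_apply] at h
    rw [h, zpow_neg, zpow_natCast, inv_pow]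
  -- powers of `g` preserve the cyclic spaces and `g` has finite order
  have : Finite (V →ₗ[F] V) := Module.finite_of_finite F
  have : Finite (V ≃ₗ[F] V) := Finite.of_injective (fun e => (e : V →ₗ[F] V))
    LinearEquiv.toLinearMap_injective
  have hnat : ∀ i : ℤ, ∃ n : ℕ, g ^ i = g ^ n := fun i => by
    obtain ⟨n, hn⟩ := (isOfFinOrder_of_finite g).mem_powers_iff_mem_zpowers.mpr ⟨i, rfl⟩
    exact ⟨n, hn.symm⟩
  have hzmem : ∀ (i : ℤ), (g ^ i) x ∈ SX := fun i => by
    obtain ⟨n, hn⟩ := hnat i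
    rw [hn]; exact Submodule.subset_span ⟨n, rfl⟩
  have hτz : ∀ i : ℤ, τ ((g ^ i) x) = (g ^ (-i)) x := fun i => by
    obtain ⟨n, hn⟩ := hnat i
    rw [hn, hτ, zpow_neg g i, hn, zpow_neg, zpow_natCast]
  have hτmem : ∀ p ∈ SX, τ p ∈ SX := by
    intro p hp
    refine (Submodule.span_le (p := SX.comap τ)).mpr ?_ hp
    rintro _ ⟨i, rfl⟩
    show τ ((g ^ i) x) ∈ SX
    rw [hτ]; exact hzmem _
  -- the new generator of the second space
  have hdual : ∀ (A B : Submodule F V), Isotropic β B → A ⊔ B = SX ⊔ SY →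
      Function.Injective ((β.flip.domRestrict B).compl₂ A.subtype) := by
    intro A B hB hAB
    rw [← LinearMap.ker_eq_bot, LinearMap.ker_eq_bot']
    intro q hq
    refine Subtype.ext (hU.nondeg q (hAB ▸ Submodule.mem_sup_right q.2) fun u hu => ?_)
    rw [← hAB] at hu
    obtain ⟨a, ha, b, hb, rfl⟩ := Submodule.mem_sup.mp hu
    rw [map_add, hB q q.2 b hb, add_zero]
    exact hβ.isRefl a q (LinearMap.congr_fun hq ⟨a, ha⟩)
  have hd1 := LinearMap.finrank_le_finrank_of_injective (hdual SX SY hIY rfl)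
  have hd2 := LinearMap.finrank_le_finrank_of_injective (hdual SY SX hIX (sup_comm _ _))
  rw [Subspace.dual_finrank_eq] at hd1 hd2
  have hsurj := (LinearMap.injective_iff_surjective_of_finrank_eq_finrank
    (by rw [Subspace.dual_finrank_eq]; omega)).mp (hdual SX SY hIY rfl)
  obtain ⟨⟨y', hy'⟩, hy'Λ⟩ := hsurj ((β.flip y).comp SX.subtype + ((β.flip y).comp τ).comp SX.subtype)
  have hΛ : ∀ i : ℤ, β ((g ^ i) x) y' = β ((g ^ i) x) y + β ((g ^ (-i)) x) y := fun i => by
    have h := LinearMap.congr_fun hy'Λ ⟨_, hzmem i⟩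
    simpa [hτz] using h
  have hΛsym : ∀ i : ℤ, β ((g ^ (-i)) x) y' = β ((g ^ i) x) y' := fun i => by
    rw [hΛ, hΛ, neg_neg, add_comm]
  have hy'k : (M ^ k) y' = 0 := by
    rw [hSYr] at hy'
    obtain ⟨p, rfl⟩ := hy'
    rw [← hπpow]
    simp only [hπ, LinearMap.comp_apply, AlgHom.toLinearMap_apply, LinearMap.applyₗ_apply_apply]
    rw [← Module.End.mul_apply, ← map_mul, mul_comm, map_mul, Module.End.mul_apply,
      show aeval G ((X + 1) ^ k : F[X]) y = 0 by simpa [hMdef] using hMy, map_zero]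
  obtain ⟨J, hJ'⟩ := exists_linearMap_comp (π x) (π y') (by
    intro p hp
    obtain ⟨q, rfl⟩ := hker x p hMx hx0 hp
    rw [LinearMap.mem_ker, hπ]
    simp only [LinearMap.comp_apply, AlgHom.toLinearMap_apply, LinearMap.applyₗ_apply_apply]
    rw [mul_comm, map_mul, map_pow, map_add, aeval_X, map_one, Module.End.mul_apply,
      show ((G + 1) ^ k) y' = 0 from hy'k, map_zero])
  have hJ : ∀ i : ℕ, J ((g ^ i) x) = (g ^ i) y' := fun i => by
    have h := LinearMap.congr_fun hJ' (X ^ i)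
    simpa [hπ, hGdef, toEnd_pow_apply] using h
  have hJz : ∀ i : ℤ, J ((g ^ i) x) = (g ^ i) y' := fun i => by
    obtain ⟨n, hn⟩ := hnat i
    rw [hn, hJ]
  have hgY : ∀ (i : ℕ), ∀ v ∈ SY, (g ^ i) v ∈ SY := by
    intro i v hv
    refine (Submodule.span_le (p := SY.comap ((g ^ i : V ≃ₗ[F] V) : V →ₗ[F] V))).mpr ?_ hv
    rintro _ ⟨j, rfl⟩
    show (g ^ i) ((g ^ j) y) ∈ SY
    rw [← LinearEquiv.mul_apply, ← pow_add]
    exact Submodule.subset_span ⟨i + j, rfl⟩
  have hJmem : ∀ p ∈ SX, J p ∈ SY := by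
    intro p hp
    refine (Submodule.span_le (p := SY.comap J)).mpr ?_ hp
    rintro _ ⟨i, rfl⟩
    show J ((g ^ i) x) ∈ SY
    rw [hJ]; exact hgY i y' hy'
  have hy'0 : (M ^ (k - 1)) y' ≠ 0 := by
    obtain ⟨j, hj⟩ := hk
    have hev : M (( M ^ (k - 1)) x) = 0 := by
      rw [← Module.End.mul_apply, ← pow_succ', Nat.sub_add_cancel hk1, hMx]
    have hgv : g ((M ^ (k - 1)) x) = -((M ^ (k - 1)) x) := eq_neg_of_add_eq_zero_left hev
    have hτv : τ ((M ^ (k - 1)) x) = (M ^ (k - 1)) x := by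
      rw [← hπpow, ← LinearMap.comp_apply, hτ', hπpow]
      simp only [ψ, LinearMap.comp_apply, AlgHom.toLinearMap_apply, LinearMap.applyₗ_apply_apply,
        map_pow, map_add, aeval_X, map_one, hginv, Module.End.mul_apply]
      have hgi : (g⁻¹ : V ≃ₗ[F] V) ((M ^ (k - 1)) x) = -((M ^ (k - 1)) x) := by
        have := congrArg g.symm hgv
        rw [LinearEquiv.symm_apply_apply, map_neg] at this
        rw [eq_neg_iff_add_eq_zero, add_comm] at this
        exact eq_neg_of_add_eq_zero_left this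
      rw [show k - 1 = j + j by omega] at hgi ⊢
      have : ∀ n : ℕ, (((g⁻¹ : V ≃ₗ[F] V) : V →ₗ[F] V) ^ n) ((M ^ (j + j)) x) =
          (-1 : F) ^ n • (M ^ (j + j)) x := by
        intro n
        induction n with
        | zero => simp
        | succ n ih => rw [pow_succ', Module.End.mul_apply, ih, map_smul, LinearEquiv.coe_coe, hgi,
            smul_neg, pow_succ', neg_one_mul, neg_smul]
      rw [this, Even.neg_one_pow ⟨j, rfl⟩, one_smul]
    intro h
    have hmem : (M ^ (k - 1)) x ∈ SX := by rw [hSXr, ← hπpow]; exact LinearMap.mem_range_self _ _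
    have h1 := LinearMap.congr_fun hy'Λ ⟨_, hmem⟩
    replace h1 : β ((M ^ (k - 1)) x) y' = β ((M ^ (k - 1)) x) y + β (τ ((M ^ (k - 1)) x)) y := h1
    rw [hτv] at h1
    have hzero : β ((M ^ (k - 1)) x) y' = 0 := by
      -- move `M ^ (k - 1)` to the other side
      have adj : ∀ (m : ℕ) (a b : V), (M ^ m) b = 0 → β ((M ^ m) a) b = 0 := by
        intro m
        induction m with
        | zero => intro a b hb; simp only [pow_zero, Module.End.one_apply] at hb; simp [hb]
        | succ m ih =>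
          intro a b hb
          rw [pow_succ', Module.End.mul_apply]
          have hMb : β (M ((M ^ m) a)) b = β ((M ^ m) a) (M ((g⁻¹ : V ≃ₗ[F] V) b)) := by
            rw [hMdef]
            simp only [LinearMap.add_apply, Module.End.one_apply, map_add, hG]
            rw [show g ((g⁻¹ : V ≃ₗ[F] V) b) = b from g.apply_symm_apply b]
            conv_lhs => rw [show β (g ((M ^ m) a)) b = β (g ((M ^ m) a)) (g ((g⁻¹ : V ≃ₗ[F] V) b)) by
              rw [show g ((g⁻¹ : V ≃ₗ[F] V) b) = b from g.apply_symm_apply b], hg]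
            ring
          rw [hMb]
          refine ih _ _ ?_
          have hcomm : Commute ((g⁻¹ : V ≃ₗ[F] V) : V →ₗ[F] V) M :=
            (show Commute _ G from LinearMap.ext fun v =>
              (g.symm_apply_apply v).trans (g.apply_symm_apply v).symm).add_right (Commute.one_right _)
          rw [← Module.End.mul_apply, ← pow_succ, show (g⁻¹ : V ≃ₗ[F] V) b =
            ((g⁻¹ : V ≃ₗ[F] V) : V →ₗ[F] V) b from rfl, ← Module.End.mul_apply,
            ← (hcomm.pow_right (m + 1)).eq, Module.End.mul_apply, hb, map_zero]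
      exact adj _ _ _ h
    rw [hzero] at h1
    exact hL0 ((mul_eq_zero.mp (show (2 : F) * β ((M ^ (k - 1)) x) y = 0 by
      linear_combination -h1)).resolve_left h2)
  have hJinj : ∀ p ∈ SX, J p = 0 → p = 0 := by
    intro p hp h
    rw [hSXr] at hp
    obtain ⟨q, rfl⟩ := hp
    rw [← LinearMap.comp_apply, hJ'] at h
    obtain ⟨r, rfl⟩ := hker y' q hy'k hy'0 h
    simp only [hπ, LinearMap.comp_apply, AlgHom.toLinearMap_apply, LinearMap.applyₗ_apply_apply]
    rw [mul_comm, map_mul, Module.End.mul_apply,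
      show aeval G ((X + 1) ^ k : F[X]) x = 0 by simpa [hMdef] using hMx, map_zero]
  have hJsurj : ∀ q ∈ SY, ∃ p ∈ SX, J p = q := by
    intro q hq
    have hle : SX.map J ≤ SY := Submodule.map_le_iff_le_comap.mpr hJmem
    have hinj : Function.Injective (J.domRestrict SX) := by
      rw [← LinearMap.ker_eq_bot, LinearMap.ker_eq_bot']
      exact fun p hp => Subtype.ext (hJinj p p.2 hp)
    have hfr : Module.finrank F (SX.map J) = Module.finrank F SX := by
      rw [← LinearMap.range_domRestrict]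
      exact LinearMap.finrank_range_of_inj hinj
    rw [← Submodule.eq_of_le_of_finrank_eq hle (by omega)] at hq
    obtain ⟨p, hp, rfl⟩ := hq
    exact ⟨p, hp, rfl⟩
  have hBsym : ∀ p ∈ SX, ∀ q ∈ SX, β p (J q) = β q (J p) := by
    intro p hp q hq
    induction hp, hq using Submodule.span_induction₂ with
    | mem_mem a b ha hb =>
      obtain ⟨i, rfl⟩ := ha
      obtain ⟨j, rfl⟩ := hb
      show β ((g ^ i) x) (J ((g ^ j) x)) = β ((g ^ j) x) (J ((g ^ i) x))
      rw [hJ, hJ, ← zpow_natCast, ← zpow_natCast, ← hg.zpow_apply (-(j : ℤ)) ((g ^ (i : ℤ)) x),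
        ← hg.zpow_apply (-(i : ℤ)) ((g ^ (j : ℤ)) x)]
      simp only [← LinearEquiv.mul_apply, ← zpow_add, neg_add_cancel, zpow_zero, LinearEquiv.coe_one,
        id_eq]
      rw [← hΛsym (-(i : ℤ) + j)]
      congr 3
      ring
    | zero_left => simp
    | zero_right => simp
    | add_left _ _ _ _ _ _ h h' => simp [h, h']
    | add_right _ _ _ _ _ _ h h' => simp [h, h']
    | smul_left _ _ _ _ _ h => simp [h]
    | smul_right _ _ _ _ _ h => simp [h]
  -- the square root of `-g` on the cyclic space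
  obtain ⟨c, hc⟩ : ∃ c : ℕ, ∀ p ∈ SX, (g ^ (2 * c)) p = -g p := by
    obtain ⟨p0, hchar⟩ := CharP.exists F
    have hp0 : p0.Prime := (CharP.char_is_prime_or_zero F p0).resolve_right
      (CharP.char_ne_zero_of_finite F p0)
    have hp2 : p0 ≠ 2 := by
      rintro rfl
      exact h2 (CharTwo.two_eq_zero)
    have : Fact p0.Prime := ⟨hp0⟩
    obtain ⟨c, hc⟩ : ∃ c, p0 ^ k + 1 = 2 * c := by
      have : Odd (p0 ^ k) := (hp0.odd_of_ne_two hp2).pow
      obtain ⟨j, hj⟩ := this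
      exact ⟨j + 1, by omega⟩
    refine ⟨c, fun p hp => ?_⟩
    rw [hSXr] at hp
    obtain ⟨q, rfl⟩ := hp
    have hodd : Odd (p0 ^ k) := (hp0.odd_of_ne_two hp2).pow
    have h3 : (X + 1 : F[X]) ^ k ∣ X ^ (2 * c) + X := by
      have e : (X : F[X]) ^ (2 * c) + X = (X + 1) ^ (p0 ^ k) * X := by
        rw [← hc, add_pow_char_pow, one_pow]; ring
      rw [e]
      exact (pow_dvd_pow _ (Nat.lt_pow_self hp0.one_lt).le).mul_right _
    obtain ⟨r, hr⟩ := h3
    have h4 : aeval G ((X : F[X]) ^ (2 * c) + X) (π x q) = 0 := by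
      simp only [hπ, LinearMap.comp_apply, AlgHom.toLinearMap_apply, LinearMap.applyₗ_apply_apply]
      rw [← Module.End.mul_apply, ← map_mul, hr, mul_comm, mul_comm _ r, ← mul_assoc, map_mul,
        Module.End.mul_apply, show aeval G ((X + 1) ^ k : F[X]) x = 0 by simpa [hMdef] using hMx,
        map_zero]
    rw [map_add, map_pow, aeval_X, LinearMap.add_apply, hGdef, toEnd_pow_apply] at h4
    exact eq_neg_of_add_eq_zero_left h4
  set C : V →ₗ[F] V := ((g ^ c : V ≃ₗ[F] V) : V →ₗ[F] V) with hCdef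
  have hCmem : ∀ p ∈ SX, C p ∈ SX := by
    intro p hp
    refine (Submodule.span_le (p := SX.comap C)).mpr ?_ hp
    rintro _ ⟨i, rfl⟩
    show (g ^ c) ((g ^ i) x) ∈ SX
    rw [← LinearEquiv.mul_apply, ← pow_add]
    exact Submodule.subset_span ⟨c + i, rfl⟩
  have hspanX : ∀ (P : V → Prop), (∀ i : ℕ, P ((g ^ i) x)) → P 0 → (∀ a b, P a → P b → P (a + b)) →
      (∀ (r : F) a, P a → P (r • a)) → ∀ p ∈ SX, P p := by
    intro P h1 h2 h3 h4 p hp
    induction hp using Submodule.span_induction with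
    | mem a ha => obtain ⟨i, rfl⟩ := ha; exact h1 i
    | zero => exact h2
    | add a b _ _ ha hb => exact h3 a b ha hb
    | smul r a _ ha => exact h4 r a ha
  have hττ : ∀ p ∈ SX, τ (τ p) = p := hspanX _
    (fun i => by rw [hτ, hτz, neg_neg, zpow_natCast]) (by simp)
    (fun a b ha hb => by simp [ha, hb]) (fun r a ha => by simp [ha])
  have hτC : ∀ p ∈ SX, C (τ (C p)) = τ p := hspanX _
    (fun i => by
      show (g ^ c) (τ ((g ^ c) ((g ^ i) x))) = _
      rw [← LinearEquiv.mul_apply (g ^ c), ← pow_add, hτ, hτ, ← zpow_natCast g c,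
        ← LinearEquiv.mul_apply, ← zpow_add]
      congr 2
      push_cast
      ring) (by simp)
    (fun a b ha hb => by simp [ha, hb]) (fun r a ha => by simp [ha])
  have hCJ : ∀ p ∈ SX, J (C p) = C (J p) := hspanX _
    (fun i => by
      show J ((g ^ c) ((g ^ i) x)) = (g ^ c) (J ((g ^ i) x))
      rw [hJ, ← LinearEquiv.mul_apply, ← pow_add, hJ, pow_add, LinearEquiv.mul_apply]) (by simp)
    (fun a b ha hb => by simp [ha, hb]) (fun r a ha => by simp [ha])
  have hgJ : ∀ p ∈ SX, J (g p) = g (J p) := hspanX _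
    (fun i => by rw [← LinearEquiv.mul_apply g, ← pow_succ', hJ, hJ, pow_succ', LinearEquiv.mul_apply])
    (by simp) (fun a b ha hb => by simp [ha, hb]) (fun r a ha => by simp [ha])
  have hτB : ∀ p ∈ SX, ∀ q ∈ SX, β (τ p) (J (τ q)) = β p (J q) := by
    intro p hp q hq
    induction hp, hq using Submodule.span_induction₂ with
    | mem_mem a b ha hb =>
      obtain ⟨i, rfl⟩ := ha
      obtain ⟨j, rfl⟩ := hb
      show β (τ ((g ^ i) x)) (J (τ ((g ^ j) x))) = β ((g ^ i) x) (J ((g ^ j) x))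
      rw [hτ, hτ, hJz, hJ, ← zpow_natCast g i, ← zpow_natCast g j,
        ← hg.zpow_apply (j : ℤ) ((g ^ (-(i : ℤ))) x),
        ← hg.zpow_apply (-(j : ℤ)) ((g ^ (i : ℤ)) x)]
      simp only [← LinearEquiv.mul_apply, ← zpow_add, neg_add_cancel, add_neg_cancel, zpow_zero,
        LinearEquiv.coe_one, id_eq]
      rw [← hΛsym ((j : ℤ) + -(i : ℤ))]
      congr 3
      ring
    | zero_left => simp
    | zero_right => simp
    | add_left _ _ _ _ _ _ h h' => simp [h, h']
    | add_right _ _ _ _ _ _ h h' => simp [h, h']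
    | smul_left _ _ _ _ _ h => simp [h]
    | smul_right _ _ _ _ _ h => simp [h]
  have hCB : ∀ p ∈ SX, ∀ q ∈ SX, β (C p) (J (C q)) = β p (J q) := fun p _ q hq => by
    rw [hCJ q hq]; exact hg.pow_apply c p (J q)
  set σ : V →ₗ[F] V := τ ∘ₗ C with hσ
  have hσmem : ∀ p ∈ SX, σ p ∈ SX := fun p hp => hτmem _ (hCmem p hp)
  have hσB : ∀ p ∈ SX, ∀ q ∈ SX, β (σ p) (J (σ q)) = β p (J q) := fun p hp q hq => by
    rw [hσ]
    simp only [LinearMap.comp_apply]
    rw [hτB _ (hCmem p hp) _ (hCmem q hq), hCB p hp q hq]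
  -- projections onto the two summands
  let Ψ : SX →ₗ[F] Module.Dual F SX := ((β.compl₂ J).domRestrict SX).compl₂ SX.subtype
  have hΨinj : Function.Injective Ψ := by
    rw [← LinearMap.ker_eq_bot, LinearMap.ker_eq_bot']
    intro p hp
    refine Subtype.ext (hU.nondeg p (Submodule.mem_sup_left p.2) fun u hu => ?_)
    obtain ⟨a, ha, b, hb, rfl⟩ := Submodule.mem_sup.mp hu
    obtain ⟨q, hq, rfl⟩ := hJsurj b hb
    rw [map_add, hIX p p.2 a ha, zero_add]
    exact LinearMap.congr_fun hp ⟨q, hq⟩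
  let Ψe := LinearEquiv.ofBijective Ψ ⟨hΨinj,
    (LinearMap.injective_iff_surjective_of_finrank_eq_finrank
      Subspace.dual_finrank_eq.symm).mp hΨinj⟩
  let P1 : V →ₗ[F] V := SX.subtype ∘ₗ Ψe.symm.toLinearMap ∘ₗ (β.compl₂ (J ∘ₗ SX.subtype))
  let P2 : V →ₗ[F] V := -(SX.subtype ∘ₗ Ψe.symm.toLinearMap ∘ₗ (β.compl₂ SX.subtype))
  have hP1m : ∀ v, P1 v ∈ SX := fun v => (Ψe.symm _).2
  have hP2m : ∀ v, P2 v ∈ SX := fun v => SX.neg_mem (Ψe.symm _).2
  have hP1 : ∀ v, ∀ q ∈ SX, β (P1 v) (J q) = β v (J q) := fun v q hq => by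
    have h := LinearMap.congr_fun (Ψe.apply_symm_apply (β.compl₂ (J ∘ₗ SX.subtype) v)) ⟨q, hq⟩
    exact h
  have hP2 : ∀ v, ∀ q ∈ SX, β (J (P2 v)) q = β v q := fun v q hq => by
    have h : β (Ψe.symm (β.compl₂ SX.subtype v) : V) (J q) = β v q :=
      LinearMap.congr_fun (Ψe.apply_symm_apply (β.compl₂ SX.subtype v)) ⟨q, hq⟩
    rw [hBsym _ (Ψe.symm _).2 q hq] at h
    rw [show P2 v = -(Ψe.symm (β.compl₂ SX.subtype v) : V) from rfl, map_neg, map_neg,
      LinearMap.neg_apply, ← h]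
    exact hβ.neg_eq _ _
  have hperp : ∀ v, ∀ u ∈ SX ⊔ SY, β (v - P1 v - J (P2 v)) u = 0 := by
    intro v u hu
    obtain ⟨a, ha, b, hb, rfl⟩ := Submodule.mem_sup.mp hu
    obtain ⟨q, hq, rfl⟩ := hJsurj b hb
    simp only [map_sub, map_add, LinearMap.sub_apply, hP1 v q hq, hP2 v a ha,
      hIX _ (hP1m v) a ha, hIY _ (hJmem _ (hP2m v)) _ hb]
    ring
  have hproj : ∀ p ∈ SX, ∀ q ∈ SX, P1 (p + J q) = p ∧ P2 (p + J q) = q := by
    intro p hp q hq
    have h0 : ∀ u ∈ SX ⊔ SY, β ((p - P1 (p + J q)) + J (q - P2 (p + J q))) u = 0 := by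
      intro u hu
      have := hperp (p + J q) u hu
      rw [map_sub J]
      convert this using 3
      abel
    have hz := hU.nondeg _ (Submodule.add_mem_sup (SX.sub_mem hp (hP1m _))
      (hJmem _ (SX.sub_mem hq (hP2m _)))) h0
    have h1 : p - P1 (p + J q) = 0 := by
      refine hU.nondeg _ (Submodule.mem_sup_left (SX.sub_mem hp (hP1m _))) fun u hu => ?_
      obtain ⟨a, ha, b, hb, rfl⟩ := Submodule.mem_sup.mp hu
      rw [map_add, hIX _ (SX.sub_mem hp (hP1m _)) a ha, zero_add, eq_neg_of_add_eq_zero_left hz,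
        map_neg, LinearMap.neg_apply, hIY _ (hJmem _ (SX.sub_mem hq (hP2m _))) b hb, neg_zero]
    rw [h1, zero_add] at hz
    exact ⟨(sub_eq_zero.mp h1).symm,
      (sub_eq_zero.mp (hJinj _ (SX.sub_mem hq (hP2m _)) hz)).symm⟩
  -- operators `K ⊗ O`
  let ten : (V →ₗ[F] V) → F → F → F → F → (V →ₗ[F] V) := fun O a b d e =>
    (LinearMap.id - P1 - J ∘ₗ P2) + O ∘ₗ (a • P1 + b • P2) + J ∘ₗ O ∘ₗ (d • P1 + e • P2)
  have tenIso : ∀ O : V →ₗ[F] V, (∀ p ∈ SX, O p ∈ SX) →
      (∀ p ∈ SX, ∀ q ∈ SX, β (O p) (J (O q)) = β p (J q)) → ∀ a b d e : F, a * e - b * d = 1 →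
      ∀ v w, β (ten O a b d e v) (ten O a b d e w) = β v w := by
    intro O hOm hOB a b d e hdet v w
    have split : ∀ (v0 w0 : V), (∀ u ∈ SX ⊔ SY, β v0 u = 0) → (∀ u ∈ SX ⊔ SY, β w0 u = 0) →
        ∀ p ∈ SX, ∀ q ∈ SX, ∀ p' ∈ SX, ∀ q' ∈ SX,
        β (v0 + p + J q) (w0 + p' + J q') = β v0 w0 + β p (J q') - β p' (J q) := by
      intro v0 w0 hv0 hw0 p hp q hq p' hp' q' hq'
      have z1 : ∀ z ∈ SX ⊔ SY, β z w0 = 0 := fun z hz => hβ.isRefl _ _ (hw0 z hz)
      have z2 : β (J q) p' = -β p' (J q) := by rw [← hβ.neg_eq]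
      simp only [map_add, LinearMap.add_apply, hv0 _ (Submodule.mem_sup_left hp'),
        hv0 _ (Submodule.mem_sup_right (hJmem _ hq')), z1 _ (Submodule.mem_sup_left hp),
        z1 _ (Submodule.mem_sup_right (hJmem _ hq)), hIX p hp p' hp',
        hIY _ (hJmem _ hq) _ (hJmem _ hq'), z2]
      ring
    have mem : ∀ (r s : F) (z : V), r • P1 z + s • P2 z ∈ SX := fun r s z =>
      SX.add_mem (SX.smul_mem _ (hP1m z)) (SX.smul_mem _ (hP2m z))
    have ev : ∀ z, ten O a b d e z = (z - P1 z - J (P2 z)) + O (a • P1 z + b • P2 z) +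
        J (O (d • P1 z + e • P2 z)) := fun z => rfl
    rw [ev, ev, split _ _ (hperp v) (hperp w) _ (hOm _ (mem _ _ v)) _ (hOm _ (mem _ _ v)) _
      (hOm _ (mem _ _ w)) _ (hOm _ (mem _ _ w)), hOB _ (mem _ _ v) _ (mem _ _ w),
      hOB _ (mem _ _ w) _ (mem _ _ v)]
    have e0 := split (v - P1 v - J (P2 v)) (w - P1 w - J (P2 w)) (hperp v) (hperp w) (P1 v) (hP1m v)
      (P2 v) (hP2m v) (P1 w) (hP1m w) (P2 w) (hP2m w)
    rw [show v - P1 v - J (P2 v) + P1 v + J (P2 v) = v by abel,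
      show w - P1 w - J (P2 w) + P1 w + J (P2 w) = w by abel] at e0
    rw [e0]
    simp only [map_add, map_smul, LinearMap.add_apply, LinearMap.smul_apply, smul_eq_mul,
      hBsym (P2 v) (hP2m v) (P1 w) (hP1m w), hBsym (P2 w) (hP2m w) (P1 v) (hP1m v),
      hBsym (P1 v) (hP1m v) (P1 w) (hP1m w), hBsym (P2 v) (hP2m v) (P2 w) (hP2m w)]
    linear_combination (β (P1 v) (J (P2 w)) - β (P1 w) (J (P2 v))) * hdet
  have tenEq : ∀ O : V →ₗ[F] V, (∀ p ∈ SX, O p ∈ SX) →
      (∀ p ∈ SX, ∀ q ∈ SX, β (O p) (J (O q)) = β p (J q)) → ∀ a b d e : F, a * e - b * d = 1 →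
      ∃ A : V ≃ₗ[F] V, Isom β A ∧ (∀ z ∈ SX ⊔ SY, A z ∈ SX ⊔ SY) ∧
        (∀ z, (∀ u ∈ SX ⊔ SY, β u z = 0) → A z = z) ∧
        ∀ p ∈ SX, ∀ q ∈ SX, A (p + J q) = O (a • p + b • q) + J (O (d • p + e • q)) := by
    intro O hOm hOB a b d e hdet
    have hiso := tenIso O hOm hOB a b d e hdet
    have hinj : Function.Injective (ten O a b d e) := by
      rw [← LinearMap.ker_eq_bot, LinearMap.ker_eq_bot']
      intro z hz
      have hzU : ∀ w, β z w = 0 := fun w => by rw [← hiso z w, hz]; simp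
      have hp : P1 z = 0 ∧ P2 z = 0 := by
        have h1 : ∀ v : V, (∀ w, β v w = 0) → P1 v = 0 ∧ P2 v = 0 := fun v hv => by
          have e1 : β.compl₂ (J ∘ₗ SX.subtype) v = 0 := LinearMap.ext fun q => hv _
          have e2 : β.compl₂ SX.subtype v = 0 := LinearMap.ext fun q => hv _
          constructor
          · show ((Ψe.symm (β.compl₂ (J ∘ₗ SX.subtype) v) : SX) : V) = 0
            rw [e1, map_zero]; rfl
          · show -((Ψe.symm (β.compl₂ SX.subtype v) : SX) : V) = 0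
            rw [e2, map_zero]; simp
        exact h1 z hzU
      simpa [ten, hp.1, hp.2] using hz
    refine ⟨LinearEquiv.ofBijective _ ⟨hinj, (LinearMap.injective_iff_surjective).mp hinj⟩, hiso,
      fun z hz => ?_, fun z hz => ?_, fun p hp q hq => ?_⟩
    · show ten O a b d e z ∈ SX ⊔ SY
      obtain ⟨p, hp, r, hr, rfl⟩ := Submodule.mem_sup.mp hz
      obtain ⟨q, hq, rfl⟩ := hJsurj r hr
      obtain ⟨e1, e2⟩ := hproj p hp q hq
      simp only [ten, LinearMap.add_apply, LinearMap.sub_apply, LinearMap.id_apply,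
        LinearMap.comp_apply, LinearMap.smul_apply, e1, e2]
      rw [show p + J q - p - J q = 0 by abel, zero_add]
      exact Submodule.add_mem_sup (hOm _ (SX.add_mem (SX.smul_mem _ hp) (SX.smul_mem _ hq)))
        (hJmem _ (hOm _ (SX.add_mem (SX.smul_mem _ hp) (SX.smul_mem _ hq))))
    · show ten O a b d e z = z
      have e1 : β.compl₂ (J ∘ₗ SX.subtype) z = 0 := LinearMap.ext fun q =>
        hβ.isRefl _ _ (hz _ (Submodule.mem_sup_right (hJmem _ q.2)))
      have e2 : β.compl₂ SX.subtype z = 0 := LinearMap.ext fun q =>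
        hβ.isRefl _ _ (hz _ (Submodule.mem_sup_left q.2))
      have f1 : P1 z = 0 := by
        show ((Ψe.symm (β.compl₂ (J ∘ₗ SX.subtype) z) : SX) : V) = 0
        rw [e1, map_zero]; rfl
      have f2 : P2 z = 0 := by
        show -((Ψe.symm (β.compl₂ SX.subtype z) : SX) : V) = 0
        rw [e2, map_zero]; simp
      simp [ten, f1, f2]
    · show ten O a b d e (p + J q) = _
      obtain ⟨e1, e2⟩ := hproj p hp q hq
      simp only [ten, LinearMap.add_apply, LinearMap.sub_apply, LinearMap.id_apply,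
        LinearMap.comp_apply, LinearMap.smul_apply, e1, e2]
      rw [show p + J q - p - J q = 0 by abel, zero_add]
  obtain ⟨α, γ, hαγ⟩ : ∃ α γ : F, α ^ 2 + γ ^ 2 = -1 := by
    have := Fintype.ofFinite F
    obtain ⟨p0, hchar⟩ := CharP.exists F
    have : Fact p0.Prime := ⟨(CharP.char_is_prime_or_zero F p0).resolve_right
      (CharP.char_ne_zero_of_finite F p0)⟩
    have : NeZero p0 := ⟨(Fact.out : p0.Prime).ne_zero⟩
    obtain ⟨α, γ, h⟩ := CharP.sq_add_sq F p0 (-1)
    exact ⟨(α : F), (γ : F), by simpa using h⟩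
  obtain ⟨A, hA, hAm, hAfix, hAe⟩ := tenEq τ hτmem hτB 0 1 (-1) 0 (by ring)
  obtain ⟨B, hB, hBm, hBfix, hBe⟩ := tenEq σ hσmem hσB α γ γ (-α) (by linear_combination -hαγ)
  refine ⟨A, B, hA, hB, hAm, hBm, fun z hz => ⟨hAfix z hz, hBfix z hz⟩, ?_⟩
  have main : ∀ z ∈ SX ⊔ SY, A (B z) = g (B (A z)) := by
    intro z hz
    obtain ⟨p, hp, r, hr, rfl⟩ := Submodule.mem_sup.mp hz
    obtain ⟨q, hq, rfl⟩ := hJsurj r hr
    have m1 : ∀ r s : F, r • p + s • q ∈ SX := fun r s =>
      SX.add_mem (SX.smul_mem _ hp) (SX.smul_mem _ hq)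
    rw [hAe p hp q hq, hBe p hp q hq, hAe _ (hσmem _ (m1 _ _)) _ (hσmem _ (m1 _ _)),
      hBe _ (hτmem _ (m1 _ _)) _ (hτmem _ (m1 _ _))]
    have key : ∀ w ∈ SX, g (σ (τ w)) = -(τ (σ w)) := by
      intro w hw
      have h1 : τ (σ w) = C w := hττ _ (hCmem w hw)
      have h2 : C (σ (τ w)) = w := by
        rw [hσ, LinearMap.comp_apply, hτC _ (hτmem w hw), hττ w hw]
      have h3 := hc _ (hσmem _ (hτmem w hw))
      rw [pow_mul, pow_two] at h3
      rw [h1]
      have h4 : (g ^ c) ((g ^ c) (σ (τ w))) = C (C (σ (τ w))) := rfl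
      have h5 : (g ^ (2 * c)) (σ (τ w)) = C (C (σ (τ w))) := by
        rw [two_mul, pow_add, LinearEquiv.mul_apply]; exact h4
      rw [h2] at h5
      rw [← h5, hc _ (hσmem _ (hτmem w hw)), neg_neg]
    have kp := key p hp
    have kq := key q hq
    have jp : g (J (σ (τ p))) = -J (τ (σ p)) := by
      rw [← hgJ _ (hσmem _ (hτmem _ hp)), kp, map_neg]
    have jq : g (J (σ (τ q))) = -J (τ (σ q)) := by
      rw [← hgJ _ (hσmem _ (hτmem _ hq)), kq, map_neg]
    simp only [map_add, map_smul, map_neg, map_zero, smul_zero, zero_smul, one_smul, smul_add, smul_neg, smul_smul,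
      neg_smul, kp, kq, jp, jq]
    module
  intro z hz
  have hz' : (A⁻¹ * B⁻¹) z ∈ SX ⊔ SY := by
    have pre : ∀ (E : V ≃ₗ[F] V), (∀ z ∈ SX ⊔ SY, E z ∈ SX ⊔ SY) →
        ∀ z ∈ SX ⊔ SY, E⁻¹ z ∈ SX ⊔ SY := by
      intro E hE z hz
      have hmap : (SX ⊔ SY).map (E : V →ₗ[F] V) = SX ⊔ SY :=
        Submodule.eq_of_le_of_finrank_eq (Submodule.map_le_iff_le_comap.mpr hE)
          (LinearEquiv.finrank_map_eq E _)
      rw [← hmap] at hz
      obtain ⟨w, hw, rfl⟩ := hz
      rwa [show E⁻¹ ((E : V →ₗ[F] V) w) = E.symm (E w) from rfl, E.symm_apply_apply]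
    exact pre A hAm _ (pre B hBm z hz)
  have hmain := main _ hz'
  simp only [LinearEquiv.mul_apply] at hmain ⊢
  rw [hmain]
  rw [show A (A⁻¹ (B⁻¹ z)) = B⁻¹ z from A.apply_symm_apply _,
    show B (B⁻¹ z) = z from B.apply_symm_apply _]

end CfsgLib.SpOre
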