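import Cfsg.Agent.Lib.SpOre.Gauss

/-!
A Gauss isometry of an alternating space is a commutator of isometries, given a frame.
-/

set_option autoImplicit false
set_option linter.style.haveILetI false
set_option linter.unusedSectionVars false

namespace CfsgLib.SpOre

open Matrix

variable {F : Type*} [Field F]

/-- A symplectic matrix with scalar upper left block is lower times scalar times upper. -/
theorem exists_blocks {ι : Type*} [Fintype ι] [DecidableEq ι] {ε : F} (hε : ε * ε = 1)
    {G : Matrix (ι ⊕ ι) (ι ⊕ ι) F} (hG : G ∈ Matrix.symplecticGroup ι F)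
    (hA : G.toBlocks₁₁ = ε • 1) :
    ∃ B C : Matrix ι ι F, Bᵀ = B ∧ Cᵀ = C ∧
      G = fromBlocks 1 0 C 1 * (ε • 1) * fromBlocks 1 B 0 1 := by
  obtain ⟨A, B, C, D, rfl⟩ : ∃ A B C D, G = fromBlocks A B C D :=
    ⟨_, _, _, _, (fromBlocks_toBlocks G).symm⟩
  rw [toBlocks_fromBlocks₁₁] at hA
  subst hA
  have h1 := SymplecticGroup.mem_iff.mp hG
  have h2 := SymplecticGroup.mem_iff'.mp hG
  simp [J, fromBlocks_transpose, fromBlocks_multiply, fromBlocks_inj] at h1 h2
  obtain ⟨hB, -, -, -⟩ := h1
  obtain ⟨hC, hD, -, -⟩ := h2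
  have hε0 : ε ≠ 0 := fun h => by simp [h] at hε
  have hB' : Bᵀ = B := by
    refine smul_right_injective _ hε0 ?_
    linear_combination (norm := module) -hB
  have hC' : Cᵀ = C := by
    refine smul_right_injective _ hε0 ?_
    linear_combination (norm := module) hC
  refine ⟨ε • B, ε • C, by rw [transpose_smul, hB'], by rw [transpose_smul, hC'], ?_⟩
  simp only [fromBlocks_multiply, fromBlocks_smul, Matrix.mul_smul, mul_one, one_mul,
    Matrix.mul_zero, Matrix.zero_mul, add_zero, zero_add, Matrix.smul_mul, smul_smul, hε, one_smul,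
    smul_zero]
  rw [hC'] at hD
  have : ε • D = 1 + C * B := by linear_combination (norm := module) -hD
  congr 1
  calc D = (ε * ε) • D := by rw [hε, one_smul]
    _ = ε • (1 + C * B) := by rw [← smul_smul, this]
    _ = _ := by module

variable {V : Type*} [AddCommGroup V] [Module F V] [FiniteDimensional F V]
variable {β : LinearMap.BilinForm F V} {g : V ≃ₗ[F] V} {U : Submodule F V}

/-- A symplectic basis of `U` transports commutators of matrices to commutators of isometries. -/
theorem commOn_of_basis (hβ : β.IsAlt) (hg : Isom β g) (hU : Good β g U) {ι : Type*} [Fintype ι]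
    [DecidableEq ι] (e : ι ⊕ ι → V) (heU : ∀ k, e k ∈ U) (hspan : U ≤ Submodule.span F (Set.range e))
    (hM : ∀ k l, β (e k) (e l) = (-(J ι F)) k l)
    (hcomm : ∀ G ∈ Matrix.symplecticGroup ι F, (∀ l, g (e l) = ∑ k, G k l • e k) →
      ∃ P Q : Matrix.symplecticGroup ι F,
        ((P * Q * P⁻¹ * Q⁻¹ : Matrix.symplecticGroup ι F) : Matrix (ι ⊕ ι) (ι ⊕ ι) F) = G) :
    CommOn β g U := by
  classical
  let E : (ι ⊕ ι → F) →ₗ[F] V := Fintype.linearCombination F e
  let c : V →ₗ[F] (ι ⊕ ι → F) :=
    LinearMap.pi fun k => ∑ l, (J ι F) k l • β (e l)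
  have hEE : ∀ u v, β (E u) (E v) = u ⬝ᵥ ((-(J ι F)) *ᵥ v) := by
    intro u v
    simp only [E, Fintype.linearCombination_apply, map_sum, map_smul, LinearMap.sum_apply,
      LinearMap.smul_apply, smul_eq_mul, hM, dotProduct, mulVec, Finset.mul_sum]
    rw [Finset.sum_comm]
    exact Finset.sum_congr rfl fun k _ => Finset.sum_congr rfl fun l _ => by ring
  have hcx : ∀ x, c x = J ι F *ᵥ fun l => β (e l) x := fun x => by
    ext k; simp [c, mulVec, dotProduct]
  have hcE : ∀ v, c (E v) = v := by
    intro v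
    have : (fun l => β (e l) (E v)) = (-(J ι F)) *ᵥ v := by
      ext l
      simp only [E, Fintype.linearCombination_apply, map_sum, map_smul, smul_eq_mul, hM, mulVec,
        dotProduct]
      exact Finset.sum_congr rfl fun k _ => mul_comm _ _
    rw [hcx, this, mulVec_mulVec, Matrix.mul_neg, J_squared, neg_neg, one_mulVec]
  have hEU : ∀ v, E v ∈ U := fun v => by
    rw [show E v = ∑ k, v k • e k from Fintype.linearCombination_apply ..]
    exact Submodule.sum_mem _ fun k _ => Submodule.smul_mem _ _ (heU k)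
  have horth : ∀ x y, β (x - E (c x)) (E y) = 0 := by
    intro x y
    have h : ∀ l, β (e l) (x - E (c x)) = 0 := by
      have h2 : c (x - E (c x)) = 0 := by rw [map_sub, hcE, sub_self]
      rw [hcx] at h2
      have h3 := congrArg (fun v => J ι F *ᵥ v) h2
      rw [mulVec_mulVec, J_squared, neg_mulVec, one_mulVec, mulVec_zero, neg_eq_zero] at h3
      exact congrFun h3
    refine hβ.isRefl _ _ ?_
    rw [show E y = ∑ k, y k • e k from Fintype.linearCombination_apply .., map_sum, LinearMap.sum_apply]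
    exact Finset.sum_eq_zero fun l _ => by rw [map_smul, LinearMap.smul_apply, h, smul_zero]
  have hUE : ∀ x ∈ U, E (c x) = x := by
    intro x hx
    symm
    rw [← sub_eq_zero]
    have hsurj : ∀ u ∈ U, ∃ v, E v = u := by
      intro u hu
      have hu' := hspan hu
      rwa [← Fintype.range_linearCombination F e] at hu'
    refine hU.nondeg _ (U.sub_mem hx (hEU _)) fun u hu => ?_
    obtain ⟨v, rfl⟩ := hsurj u hu
    exact horth x v
  let T : Matrix (ι ⊕ ι) (ι ⊕ ι) F →* (V →ₗ[F] V) :=
    { toFun := fun P => LinearMap.id + E ∘ₗ (P - 1).mulVecLin ∘ₗ c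
      map_one' := by ext x; simp
      map_mul' := fun P Q => by
        ext x
        simp [Matrix.sub_mulVec, hcE, mulVec_sub, mulVec_mulVec, map_sub]
        abel }
  have hT : ∀ P x, T P x = (x - E (c x)) + E (P *ᵥ c x) := fun P x => by
    simp [T, Matrix.sub_mulVec, map_sub]; abel
  let Φ : Matrix.symplecticGroup ι F →* (V ≃ₗ[F] V) :=
    (LinearMap.GeneralLinearGroup.generalLinearEquiv F V).toMonoidHom.comp
      (T.comp (Matrix.symplecticGroup ι F).subtype).toHomUnits
  have hΦ : ∀ P x, Φ P x = T (P : Matrix _ _ F) x := fun P x => rfl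
  have hTE : ∀ P v, T P (E v) = E (P *ᵥ v) := fun P v => by rw [hT, hcE, sub_self, zero_add]
  let G : Matrix (ι ⊕ ι) (ι ⊕ ι) F := LinearMap.toMatrix' (c ∘ₗ g ∘ₗ E)
  have hGE : ∀ v, E (G *ᵥ v) = g (E v) := fun v => by
    rw [LinearMap.toMatrix'_mulVec]
    exact hUE _ (hU.map_mem _ (hEU v))
  have key : ∀ (P : Matrix (ι ⊕ ι) (ι ⊕ ι) F), P ∈ Matrix.symplecticGroup ι F →
      ∀ u v, β (E (P *ᵥ u)) (E (P *ᵥ v)) = β (E u) (E v) := by
    intro P hP u v
    rw [hEE, hEE, ← vecMul_transpose P u, ← dotProduct_mulVec, mulVec_mulVec, mulVec_mulVec,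
      Matrix.mul_neg, Matrix.neg_mul, SymplecticGroup.mem_iff'.mp hP]
  have hG : G ∈ Matrix.symplecticGroup ι F := by
    rw [SymplecticGroup.mem_iff']
    have : Gᵀ * (-(J ι F)) * G = -(J ι F) := by
      ext k l
      have := hg (E (Pi.single k 1)) (E (Pi.single l 1))
      rw [← hGE, ← hGE, hEE, hEE, ← vecMul_transpose G (Pi.single k 1), ← dotProduct_mulVec,
        mulVec_mulVec, mulVec_mulVec] at this
      simpa using this
    rw [Matrix.mul_neg, Matrix.neg_mul, neg_inj] at this
    exact this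
  have hGl : ∀ l, g (e l) = ∑ k, G k l • e k := by
    intro l
    have h := hGE (Pi.single l 1)
    rw [show E (Pi.single l 1) = e l by simp [E, Fintype.linearCombination_apply, Pi.single_apply]] at h
    rw [← h, show E (G *ᵥ Pi.single l 1) = ∑ k, (G *ᵥ Pi.single l 1) k • e k from
      Fintype.linearCombination_apply ..]
    simp [mulVec_single]
  obtain ⟨P, Q, hPQ⟩ := hcomm G hG hGl
  have hiso : ∀ P : Matrix.symplecticGroup ι F, Isom β (Φ P) := fun P x y => by
    have hs : ∀ z w, β z w = β (z - E (c z)) (w - E (c w)) + β (E (c z)) (E (c w)) := fun z w => by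
      conv_lhs => rw [← sub_add_cancel z (E (c z)), ← sub_add_cancel w (E (c w))]
      simp only [map_add, LinearMap.add_apply, horth, hβ.isRefl _ _ (horth w (c z))]
      ring
    rw [hΦ, hΦ, hT, hT, hs x y]
    simp only [map_add, LinearMap.add_apply, horth, hβ.isRefl _ _ (horth y _), key _ P.2]
    ring
  refine ⟨Φ P, Φ Q, hiso P, hiso Q, ?_, ?_, fun x hx => ?_, fun x hx => ?_⟩
  · intro x hx
    rw [← hUE x hx, hΦ, hTE]; exact hEU _
  · intro x hx
    rw [← hUE x hx, hΦ, hTE]; exact hEU _
  · have hc0 : c x = 0 := by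
      rw [hcx, show (fun l => β (e l) x) = 0 from funext fun l => hx _ (heU l), mulVec_zero]
    simp [hΦ, hT, hc0]
  · rw [← map_inv, ← map_inv, ← map_mul, ← map_mul, ← map_mul, hΦ, hPQ, ← hUE x hx, hTE,
      hGE]


/-- A Gauss element is a commutator on its subspace. -/
theorem GaussOn.commOn [Finite F] (hβ : β.IsAlt) (hg : Isom β g) (hU : Good β g U) {ε : F}
    (hε : ε * ε = 1) (hGa : GaussOn β g ε U) {n : ℕ} (hn : Module.finrank F U = n + n)
    (hF : Frame F (Fin n) ε) : CommOn β g U := by
  classical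
  obtain ⟨W, W', hW, hW', hd, hs, hWg⟩ := hGa
  have hWU : W ≤ U := hs ▸ le_sup_left
  have hW'U : W' ≤ U := hs ▸ le_sup_right
  have orth : ∀ {A B : Submodule F V}, A ⊔ B = U → Isotropic β B → B ≤ U → ∀ y ∈ B,
      (∀ x ∈ A, β x y = 0) → y = 0 := by
    intro A B hAB hB hBU y hy h
    refine hU.nondeg y (hBU hy) fun u hu => ?_
    rw [← hAB] at hu
    obtain ⟨a, ha, b, hb, rfl⟩ := Submodule.mem_sup.mp hu
    rw [map_add, hβ.isRefl a y (h a ha), hB y hy b hb, add_zero]
  let pair : ∀ (A B : Submodule F V), B →ₗ[F] Module.Dual F A := fun A B =>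
    (β.flip.domRestrict B).compl₂ A.subtype
  have pinj : ∀ {A B : Submodule F V}, A ⊔ B = U → Isotropic β B → B ≤ U →
      Function.Injective (pair A B) := by
    intro A B hAB hB hBU
    rw [← LinearMap.ker_eq_bot, LinearMap.ker_eq_bot']
    intro y hy
    exact Subtype.ext (orth hAB hB hBU y y.2 fun x hx => LinearMap.congr_fun hy ⟨x, hx⟩)
  have hr1 := LinearMap.finrank_le_finrank_of_injective (pinj hs hW' hW'U)
  have hr2 := LinearMap.finrank_le_finrank_of_injective (pinj (by rw [sup_comm, hs]) hW hWU)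
  rw [Subspace.dual_finrank_eq] at hr1 hr2
  have hsum := Submodule.finrank_sup_add_finrank_inf_eq W W'
  rw [hs, hd, finrank_bot, add_zero, hn] at hsum
  have hWn : Module.finrank F W = n := by omega
  let w := Module.finBasisOfFinrankEq F W hWn
  let φ : W' →ₗ[F] (Fin n → F) :=
    LinearMap.pi fun i => ((pair W W').flip (w i))
  have hφi : Function.Injective φ := by
    rw [← LinearMap.ker_eq_bot, LinearMap.ker_eq_bot']
    intro y hy
    refine pinj hs hW' hW'U ?_
    rw [map_zero]
    exact w.ext fun i => congrFun hy i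
  have hφs : Function.Surjective φ :=
    (LinearMap.injective_iff_surjective_of_finrank_eq_finrank (by
      rw [Module.finrank_fin_fun]; omega)).mp hφi
  choose w' hw' using fun j => hφs (Pi.single j 1)
  let e : Fin n ⊕ Fin n → V := Sum.elim (fun i => (w i : V)) fun j => (w' j : V)
  have hpair : ∀ i j, β (w i : V) (w' j : V) = if i = j then 1 else 0 := fun i j => by
    have := congrFun (hw' j) i
    simpa [φ, pair, Pi.single_apply] using this
  have hM : ∀ k l, β (e k) (e l) = (-(J (Fin n) F)) k l := by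
    rintro (i | i) (j | j)
    · simpa [e, J] using hW _ (w i).2 _ (w j).2
    · simpa [e, J, Matrix.one_apply] using hpair i j
    · have := hβ.neg_eq (w j : V) (w' i)
      rw [hpair] at this
      simp [e, J, Matrix.one_apply, ← this, eq_comm]
    · simpa [e, J] using hW' _ (w' i).2 _ (w' j).2
  have heU : ∀ k, e k ∈ U := by
    rintro (i | i)
    · exact hWU (w i).2
    · exact hW'U (w' i).2
  have hspan : U ≤ Submodule.span F (Set.range e) := by
    intro u hu
    rw [← Fintype.range_linearCombination]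
    let E : (Fin n ⊕ Fin n → F) →ₗ[F] V := Fintype.linearCombination F e
    show u ∈ LinearMap.range E
    rw [← hs] at hu
    obtain ⟨a, ha, b, hb, rfl⟩ := Submodule.mem_sup.mp hu
    refine ⟨Sum.elim (w.repr ⟨a, ha⟩) (φ ⟨b, hb⟩), ?_⟩
    have h1 := congrArg Subtype.val (w.sum_repr ⟨a, ha⟩)
    have h2 : (⟨b, hb⟩ : W') = ∑ j, φ ⟨b, hb⟩ j • w' j := hφi (by
      rw [map_sum]; simp [hw', ← Pi.single_smul, Finset.univ_sum_single])
    have h3 := congrArg Subtype.val h2
    push_cast at h1 h3
    simp [E, Fintype.linearCombination_apply, e, Fintype.sum_sum_type, h1, ← h3]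
  refine commOn_of_basis hβ hg hU e heU hspan hM fun G hG hGl => ?_
  have hA : G.toBlocks₁₁ = ε • 1 := by
    ext i j
    have h3 : β (w' i : V) (g (w j)) = -(if i = j then ε else 0) := by
      have h4 := hW' _ (w' i).2 _ (hWg _ (w j).2)
      have h5 := hβ.neg_eq (w j : V) (w' i)
      rw [hpair] at h5
      rw [map_sub, map_smul, sub_eq_zero] at h4
      rw [h4, smul_eq_mul, ← h5]
      rcases eq_or_ne i j with rfl | hij
      · rw [if_pos rfl, if_pos rfl]; ring
      · rw [if_neg (Ne.symm hij), if_neg hij]; ring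
    have h6 := congrArg (β (w' i : V)) (hGl (Sum.inl j))
    rw [show e (Sum.inl j) = (w j : V) from rfl, h3, map_sum] at h6
    simp only [map_smul, smul_eq_mul] at h6
    rw [show (w' i : V) = e (Sum.inr i) from rfl] at h6
    simp only [hM, Fintype.sum_sum_type, J, Matrix.neg_apply, fromBlocks_apply₂₁, fromBlocks_apply₂₂,
      Matrix.zero_apply, Matrix.one_apply, neg_zero, mul_zero, Finset.sum_const_zero, add_zero,
      mul_neg, mul_ite, mul_one, Finset.sum_neg_distrib, Finset.sum_ite_eq, Finset.mem_univ, if_true,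
      neg_inj] at h6
    simp [toBlocks₁₁, ← h6, Matrix.one_apply]
  obtain ⟨B, C, hB, hC, hGeq⟩ := exists_blocks hε hG hA
  obtain ⟨P, Q, hPQ⟩ := exists_comm_of_blocks hε hF B C hB hC
  exact ⟨P, Q, hPQ.trans hGeq.symm⟩

end CfsgLib.SpOre
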