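import Cfsg.Agent.Lib.SpOre.Sum
import Cfsg.Agent.Lib.SpOre.ToMatrix
import Cfsg.Agent.Lib.SpOre.Tensor
import Cfsg.Agent.Lib.SpOre.Frames
import Cfsg.Agent.Lib.SpOre.Small

/-!
Assembly: every element of a symplectic group is a commutator.
-/

set_option autoImplicit false
set_option linter.style.haveILetI false
set_option linter.unusedSectionVars false

namespace CfsgLib.SpOre

open Matrix

variable {F V : Type*} [Field F] [AddCommGroup V] [Module F V] [FiniteDimensional F V]
variable {β : LinearMap.BilinForm F V} {g : V ≃ₗ[F] V}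

/-- An orthogonal sum of odd pairs. -/
inductive Pairs (β : LinearMap.BilinForm F V) (g : V ≃ₗ[F] V) : Submodule F V → Prop
  | nil : Pairs β g ⊥
  | cons {Z R : Submodule F V} : Good β g Z → OddPair β g Z → Z ≠ ⊥ → Pairs β g R →
      (∀ x ∈ Z, ∀ y ∈ R, β x y = 0) → Pairs β g (Z ⊔ R)

theorem commOn_bot : CommOn β g (⊥ : Submodule F V) :=
  ⟨1, 1, fun _ _ => rfl, fun _ _ => rfl, fun x h => h, fun x h => h, fun _ _ => ⟨rfl, rfl⟩, fun x h => by
    rw [Submodule.mem_bot] at h; subst h; simp⟩

theorem commOn_of_fixed {U : Submodule F V} (h : ∀ x ∈ U, g x = x) : CommOn β g U :=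
  ⟨1, 1, fun _ _ => rfl, fun _ _ => rfl, fun x h => h, fun x h => h, fun _ _ => ⟨rfl, rfl⟩, fun x hx => by
    simp [h x hx]⟩

theorem Pairs.commOn [Finite F] (hβ : β.IsAlt) (hg : Isom β g) {R : Submodule F V}
    (hR : Pairs β g R) : CommOn β g R := by
  induction hR with
  | nil => exact commOn_bot
  | cons hZ hZp _ _ hor ih => exact (hZp.commOn hβ hg hZ).sup hβ ih hor

theorem GaussOn.exists_finrank (hβ : β.IsAlt) {U : Submodule F V} (hU : Good β g U) {ε : F}
    (h : GaussOn β g ε U) : ∃ n, Module.finrank F U = n + n := by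
  obtain ⟨W, W', hW, hW', hd, hs, -⟩ := h
  have key : ∀ {A B : Submodule F V}, A ⊔ B = U → Isotropic β B →
      Module.finrank F B ≤ Module.finrank F A := by
    intro A B hAB hB
    have hinj : Function.Injective ((β.flip.domRestrict B).compl₂ A.subtype) := by
      rw [← LinearMap.ker_eq_bot, LinearMap.ker_eq_bot']
      intro q hq
      refine Subtype.ext (hU.nondeg q (hAB ▸ Submodule.mem_sup_right q.2) fun u hu => ?_)
      rw [← hAB] at hu
      obtain ⟨a, ha, b, hb, rfl⟩ := Submodule.mem_sup.mp hu
      rw [map_add, hB q q.2 b hb, add_zero]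
      exact hβ.isRefl a q (LinearMap.congr_fun hq ⟨a, ha⟩)
    have := LinearMap.finrank_le_finrank_of_injective hinj
    rwa [Subspace.dual_finrank_eq] at this
  have h1 := key hs hW'
  have h2 := key (A := W') (B := W) (by rw [sup_comm, hs]) hW
  refine ⟨Module.finrank F W, ?_⟩
  have := Submodule.finrank_sup_add_finrank_inf_eq W W'
  rw [hs, hd, finrank_bot] at this
  omega

theorem good_sup (hβ : β.IsAlt) {P Q : Submodule F V} (hP : Good β g P) (hQ : Good β g Q)
    (hor : ∀ x ∈ P, ∀ y ∈ Q, β x y = 0) : Good β g (P ⊔ Q) ∧ P ⊓ Q = ⊥ := by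
  refine ⟨⟨fun x hx => ?_, fun x hx h => ?_⟩, ?_⟩
  · obtain ⟨a, ha, b, hb, rfl⟩ := Submodule.mem_sup.mp hx
    rw [map_add]
    exact Submodule.add_mem_sup (hP.map_mem a ha) (hQ.map_mem b hb)
  · obtain ⟨a, ha, b, hb, rfl⟩ := Submodule.mem_sup.mp hx
    have ha0 : a = 0 := hP.nondeg a ha fun y hy => by
      have := h y (Submodule.mem_sup_left hy)
      rwa [map_add, LinearMap.add_apply, hβ.isRefl y b (hor y hy b hb), add_zero] at this
    have hb0 : b = 0 := hQ.nondeg b hb fun y hy => by
      have := h y (Submodule.mem_sup_right hy)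
      rwa [ha0, zero_add] at this
    rw [ha0, hb0, add_zero]
  · rw [eq_bot_iff]
    rintro x ⟨hxP, hxQ⟩
    exact hP.nondeg x hxP fun y hy => hβ.isRefl y x (hor y hy x hxQ)

/-- The decomposition theorem, as used below. -/
def DecompThm (β : LinearMap.BilinForm F V) : Prop :=
  ∀ h : V ≃ₗ[F] V, Isom β h → ∀ U : Submodule F V, Good β h U →
    GaussOn β h 1 U ∨ ∃ Z ≤ U, OddPair β h Z ∧ Good β h Z ∧ Z ≠ ⊥

theorem exists_gauss_pairs (hβ : β.IsAlt) (hg : Isom β g) (hdec : DecompThm β) :
    ∀ (d : ℕ) (U : Submodule F V), Module.finrank F U ≤ d → Good β g U →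
      ∃ G R : Submodule F V, Good β g G ∧ GaussOn β g 1 G ∧ Pairs β g R ∧
        (∀ x ∈ G, ∀ y ∈ R, β x y = 0) ∧ G ⊔ R = U := by
  intro d
  induction d with
  | zero =>
    intro U hd hU
    refine ⟨U, ⊥, hU, ⟨⊥, ⊥, ?_, ?_, by simp, ?_, ?_⟩, .nil, fun x _ y hy => ?_, sup_bot_eq U⟩
    · intro x hx y _; simp [(Submodule.mem_bot F).mp hx]
    · intro x hx y _; simp [(Submodule.mem_bot F).mp hx]
    · rw [sup_bot_eq, eq_comm]; exact Submodule.finrank_eq_zero.mp (by omega)
    · intro w hw; simp [(Submodule.mem_bot F).mp hw]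
    · simp [(Submodule.mem_bot F).mp hy]
  | succ d ih =>
    intro U hd hU
    rcases hdec g hg U hU with h | ⟨Z, hZU, hZp, hZ, hZne⟩
    · exact ⟨U, ⊥, hU, h, .nil, fun x _ y hy => by simp [(Submodule.mem_bot F).mp hy], sup_bot_eq U⟩
    · obtain ⟨hC, hdis, hsup⟩ := Good.compl_good hβ hg hU hZ hZU
      have hlt : Module.finrank F (compl β U Z) < Module.finrank F U := by
        have h1 := Submodule.finrank_sup_add_finrank_inf_eq Z (compl β U Z)
        rw [hsup, hdis, finrank_bot] at h1
        have h2 : Module.finrank F Z ≠ 0 := fun h => hZne (Submodule.finrank_eq_zero.mp h)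
        omega
      obtain ⟨G, R, hG, hGa, hR, hor, hGR⟩ := ih _ (by omega) hC
      have hsub : ∀ y ∈ G ⊔ R, ∀ x ∈ Z, β x y = 0 := fun y hy x hx => by
        rw [hGR] at hy; exact (mem_compl.mp hy).2 x hx
      refine ⟨G, Z ⊔ R, hG, hGa, .cons hZ hZp hZne hR fun x hx y hy =>
        hsub y (Submodule.mem_sup_right hy) x hx, fun x hx y hy => ?_, ?_⟩
      · obtain ⟨z, hz, r, hr, rfl⟩ := Submodule.mem_sup.mp hy
        rw [map_add, hor x hx r hr, hβ.isRefl z x (hsub x (Submodule.mem_sup_left hx) z hz), add_zero]
      · rw [sup_left_comm, hGR, hsup]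

theorem finrank_plane_pair {G : Submodule F V} (hβ : β.IsAlt) (hG : Good β g G)
    (h2 : Module.finrank F G = 2) : ∃ x ∈ G, ∃ y ∈ G, β x y = 1 ∧ G = Submodule.span F {x, y} := by
  have : ∃ x ∈ G, x ≠ 0 := by
    by_contra! h
    have : G = ⊥ := (Submodule.eq_bot_iff G).mpr h
    rw [this, finrank_bot] at h2
    omega
  obtain ⟨x, hx, hx0⟩ := this
  obtain ⟨y, hy, hxy⟩ : ∃ y ∈ G, β x y ≠ 0 := by
    by_contra! h
    exact hx0 (hG.nondeg x hx h)
  refine ⟨x, hx, (β x y)⁻¹ • y, G.smul_mem _ hy, by simp [hxy], ?_⟩
  symm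
  refine Submodule.eq_of_le_of_finrank_eq ?_ ?_
  · rw [Submodule.span_le]
    rintro v (rfl | rfl)
    · exact hx
    · exact G.smul_mem _ hy
  · have hli : LinearIndependent F ![x, (β x y)⁻¹ • y] := by
      rw [LinearIndependent.pair_iff]
      intro s t h
      have h1 := congrArg (β x) h
      simp [hβ.self_eq_zero, hxy] at h1
      subst h1
      simpa [hx0] using h
    have := finrank_span_eq_card hli
    rw [show ({x, (β x y)⁻¹ • y} : Set V) = Set.range ![x, (β x y)⁻¹ • y] by
      simp [Matrix.range_cons, Matrix.range_empty, Set.union_singleton, Set.pair_comm]]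
    rw [this, h2]
    simp

theorem oddPair_neg_one (hβ : β.IsAlt) (h2 : (2 : F) ≠ 0) {x y : V} (hxy : β x y = 1)
    (hx : g x = -x) (hy : g y = -y) : OddPair β g (Submodule.span F {x, y}) := by
  have hpow : ∀ (v : V), g v = -v → ∀ i : ℕ, (g ^ i) v = (-1 : F) ^ i • v := by
    intro v hv i
    induction i with
    | zero => simp
    | succ i ih =>
      rw [pow_succ', LinearEquiv.mul_apply, ih, map_smul, hv, smul_neg, pow_succ', neg_one_mul, neg_smul]
  refine ⟨1, x, y, odd_one, h2, fun i => by simp [hpow x hx, hβ.self_eq_zero],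
    fun i => by simp [hpow y hy, hβ.self_eq_zero], by simp [hx], by simp [hy], by simp [hxy], ?_⟩
  refine le_antisymm ?_ ?_
  · rw [Submodule.span_le]
    rintro v (rfl | rfl)
    · exact Submodule.subset_span (Or.inl ⟨0, by simp⟩)
    · exact Submodule.subset_span (Or.inr ⟨0, by simp⟩)
  · rw [Submodule.span_le]
    rintro v (⟨i, rfl⟩ | ⟨i, rfl⟩)
    · simp only [hpow x hx]
      exact Submodule.smul_mem _ _ (Submodule.subset_span (Or.inl rfl))
    · simp only [hpow y hy]
      exact Submodule.smul_mem _ _ (Submodule.subset_span (Or.inr rfl))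

/-- The odd pair has dimension twice its block size. -/
theorem OddPair.finrank (hβ : β.IsAlt) (hg : Isom β g) {Z : Submodule F V}
    (hZ : Good β g Z) (h : OddPair β g Z) :
    ∃ k, Odd k ∧ Module.finrank F Z = k + k ∧
      (∀ v ∈ Z, (((g : V →ₗ[F] V) + 1) ^ k) v = 0) := by
  obtain ⟨k, x, y, hk, -, hxx, hyy, hMx, hMy, hL, rfl⟩ := h
  set M : V →ₗ[F] V := (g : V →ₗ[F] V) + 1 with hMdef
  have hkill : ∀ (v : V), (M ^ k) v = 0 → ∀ i : ℕ, (M ^ k) ((g ^ i) v) = 0 := by
    intro v hv i
    have hc : Commute ((g : V →ₗ[F] V) ^ i) (M ^ k) :=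
      (((Commute.refl (g : V →ₗ[F] V)).add_right (Commute.one_right _)).pow_pow _ _)
    rw [← toEnd_pow_apply, ← Module.End.mul_apply, ← hc.eq, Module.End.mul_apply, hv, map_zero]
  have hkz : ∀ v ∈ Submodule.span F (Set.range (fun i : ℕ => (g ^ i) x) ∪
      Set.range (fun i : ℕ => (g ^ i) y)), (M ^ k) v = 0 := by
    intro v hv
    induction hv using Submodule.span_induction with
    | mem a ha =>
      rcases ha with ⟨i, rfl⟩ | ⟨i, rfl⟩
      · exact hkill x hMx i
      · exact hkill y hMy i
    | zero => simp
    | add a b _ _ ha hb => simp [ha, hb]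
    | smul r a _ ha => simp [ha]
  refine ⟨k, hk, ?_, hkz⟩
  have hk1 : 1 ≤ k := hk.pos
  have hx0 : (M ^ (k - 1)) x ≠ 0 := fun h => hL (by rw [h]; simp)
  -- each cyclic space has dimension k
  have hdim : ∀ v : V, (M ^ k) v = 0 → (M ^ (k - 1)) v ≠ 0 →
      Module.finrank F (Submodule.span F (Set.range fun i : ℕ => (g ^ i) v)) = k := by
    intro v hv hv'
    have hli : LinearIndependent F (fun i : Fin k => (M ^ (i : ℕ)) v) := by
      rw [Fintype.linearIndependent_iff]
      intro c hc i
      induction i using Fin.strong_induction_on with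
      | _ i ih =>
        have := congrArg (M ^ (k - 1 - i : ℕ)) hc
        rw [map_sum, map_zero, Finset.sum_eq_single i] at this
        · rw [map_smul, ← Module.End.mul_apply, ← pow_add,
            show k - 1 - (i : ℕ) + i = k - 1 by omega] at this
          exact (smul_eq_zero.mp this).resolve_right hv'
        · intro j _ hj
          rcases lt_or_gt_of_ne hj with h | h
          · simp [ih j h]
          · have : (j : ℕ) > i := h
            rw [map_smul, ← Module.End.mul_apply, ← pow_add,
              show k - 1 - (i : ℕ) + j = (j - i - 1) + k by omega, pow_add, Module.End.mul_apply, hv,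
              map_zero, smul_zero]
        · simp
    have hspan : Submodule.span F (Set.range fun i : ℕ => (g ^ i) v) =
        Submodule.span F (Set.range fun i : Fin k => (M ^ (i : ℕ)) v) := by
      apply le_antisymm <;> rw [Submodule.span_le]
      · rintro _ ⟨i, rfl⟩
        show (g ^ i) v ∈ _
        induction i with
        | zero =>
          exact Submodule.subset_span ⟨⟨0, by omega⟩, by simp⟩
        | succ i ih =>
          have hstep : ∀ w ∈ Submodule.span F (Set.range fun i : Fin k => (M ^ (i : ℕ)) v),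
              M w ∈ Submodule.span F (Set.range fun i : Fin k => (M ^ (i : ℕ)) v) := by
            intro w hw
            induction hw using Submodule.span_induction with
            | mem a ha =>
              obtain ⟨j, rfl⟩ := ha
              by_cases hj : (j : ℕ) + 1 < k
              · exact Submodule.subset_span ⟨⟨j + 1, hj⟩, by simp [pow_succ', Module.End.mul_apply]⟩
              · have : (j : ℕ) + 1 = k := by omega
                simp only
                rw [← Module.End.mul_apply, ← pow_succ', this, hv]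
                exact zero_mem _
            | zero => simp
            | add a b _ _ ha hb => rw [map_add]; exact add_mem ha hb
            | smul r a _ ha => rw [map_smul]; exact Submodule.smul_mem _ r ha
          have : (g ^ (i + 1)) v = M ((g ^ i) v) - (g ^ i) v := by
            rw [pow_succ', LinearEquiv.mul_apply, hMdef]
            simp
          rw [this]
          exact sub_mem (hstep _ ih) ih
      · rintro _ ⟨i, rfl⟩
        have : ∀ j : ℕ, (M ^ j) v ∈ Submodule.span F (Set.range fun i : ℕ => (g ^ i) v) := by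
          intro j
          induction j with
          | zero => exact Submodule.subset_span ⟨0, by simp⟩
          | succ j ih =>
            rw [pow_succ', Module.End.mul_apply, hMdef, LinearMap.add_apply, Module.End.one_apply]
            refine add_mem ?_ ih
            refine (Submodule.span_le (p := Submodule.comap (g : V →ₗ[F] V)
              (Submodule.span F (Set.range fun i : ℕ => (g ^ i) v)))).mpr ?_ ih
            rintro _ ⟨l, rfl⟩
            exact Submodule.subset_span ⟨l + 1, by simp [pow_succ', LinearEquiv.mul_apply]⟩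
        exact this _
    rw [hspan, finrank_span_eq_card hli, Fintype.card_fin]
  have hy0 : (M ^ (k - 1)) y ≠ 0 := by
    intro h
    -- move `M ^ (k - 1)` across the form
    have adj : ∀ (m : ℕ) (a b : V), (M ^ m) b = 0 → β ((M ^ m) a) b = 0 := by
      intro m
      induction m with
      | zero => intro a b hb; simp only [pow_zero, Module.End.one_apply] at hb; simp [hb]
      | succ m ih =>
        intro a b hb
        rw [pow_succ', Module.End.mul_apply]
        have hMb : β (M ((M ^ m) a)) b = β ((M ^ m) a) (M (g.symm b)) := by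
          rw [hMdef]
          simp only [LinearMap.add_apply, Module.End.one_apply, map_add, LinearEquiv.coe_coe,
            LinearEquiv.apply_symm_apply]
          conv_lhs => rw [show β (g ((M ^ m) a)) b = β ((M ^ m) a) (g.symm b) by
            conv_lhs => rw [← g.apply_symm_apply b]
            exact hg _ _]
          ring
        rw [hMb]
        refine ih _ _ ?_
        have hc : Commute (g.symm : V →ₗ[F] V) M :=
          (show Commute _ (g : V →ₗ[F] V) from LinearMap.ext fun v =>
            (g.symm_apply_apply v).trans (g.apply_symm_apply v).symm).add_right (Commute.one_right _)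
        rw [← Module.End.mul_apply, ← pow_succ, show g.symm b = (g.symm : V →ₗ[F] V) b from rfl,
          ← Module.End.mul_apply, ← (hc.pow_right (m + 1)).eq, Module.End.mul_apply, hb, map_zero]
    exact hL (adj _ _ _ h)
  have hiso : ∀ v : V, (∀ i : ℕ, β ((g ^ i) v) v = 0) →
      Isotropic β (Submodule.span F (Set.range fun i : ℕ => (g ^ i) v)) := by
    intro v hv a ha b hb
    induction ha, hb using Submodule.span_induction₂ with
    | mem_mem a b ha hb =>
      obtain ⟨i, rfl⟩ := ha
      obtain ⟨j, rfl⟩ := hb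
      rcases Nat.le_total j i with h | h
      · obtain ⟨d, rfl⟩ := Nat.exists_eq_add_of_le h
        simp only [pow_add, LinearEquiv.mul_apply, hg.pow_apply, hv]
      · obtain ⟨d, rfl⟩ := Nat.exists_eq_add_of_le h
        simp only [pow_add, LinearEquiv.mul_apply, hg.pow_apply]
        exact hβ.isRefl _ _ (hv d)
    | zero_left => simp
    | zero_right => simp
    | add_left _ _ _ _ _ _ h h' => simp [h, h']
    | add_right _ _ _ _ _ _ h h' => simp [h, h']
    | smul_left _ _ _ _ _ h => simp [h]
    | smul_right _ _ _ _ _ h => simp [h]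
  rw [Submodule.span_union] at hZ ⊢
  have hinter : (Submodule.span F (Set.range fun i : ℕ => (g ^ i) x)) ⊓
      (Submodule.span F (Set.range fun i : ℕ => (g ^ i) y)) = ⊥ := by
    rw [eq_bot_iff]
    rintro v ⟨hvx, hvy⟩
    refine hZ.nondeg v (Submodule.mem_sup_left hvx) fun u hu => ?_
    obtain ⟨a, ha, b, hb, rfl⟩ := Submodule.mem_sup.mp hu
    rw [map_add, hiso x hxx v hvx a ha, hiso y hyy v hvy b hb, add_zero]
  have := Submodule.finrank_sup_add_finrank_inf_eq (Submodule.span F (Set.range fun i : ℕ => (g ^ i) x))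
    (Submodule.span F (Set.range fun i : ℕ => (g ^ i) y))
  rw [hinter, finrank_bot, hdim x hMx hx0, hdim y hMy hy0] at this
  omega

/-- Over three elements: a plane which is neither `1` nor `-1`, plus an odd pair. -/
theorem commOn_plane_pair [Fintype F] (hF : Fintype.card F = 3) (hβ : β.IsAlt) (hg : Isom β g)
    (hdec : DecompThm β) {G Z : Submodule F V} (hG : Good β g G) (h2 : Module.finrank F G = 2)
    (hZ : Good β g Z) (hZp : OddPair β g Z) (hor : ∀ x ∈ G, ∀ y ∈ Z, β x y = 0)
    (hnot : ¬ ∀ x ∈ G, g x = -x) (hnot1 : ¬ ∀ x ∈ G, g x = x) : CommOn β g (G ⊔ Z) := by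
  obtain ⟨hGZ, hdis⟩ := good_sup hβ hG hZ hor
  obtain ⟨k, hk, hdimZ, hkill⟩ := hZp.finrank hβ hg hZ
  obtain ⟨x, hx, y, hy, hxy, hspanG⟩ := finrank_plane_pair hβ hG h2
  have h2F : (2 : F) ≠ 0 := by
    intro h
    have : CharP F 3 := by
      have : Fact (Nat.Prime 3) := ⟨Nat.prime_three⟩
      exact charP_of_card_eq_prime hF
    have h' : ((2 : ℕ) : F) = 0 := by exact_mod_cast h
    rw [CharP.cast_eq_zero_iff F 3] at h'
    omega
  have hsum : Module.finrank F (G ⊔ Z : Submodule F V) = (1 + k) + (1 + k) := by
    have := Submodule.finrank_sup_add_finrank_inf_eq G Z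
    rw [hdis, finrank_bot, h2, hdimZ] at this
    omega
  rcases Nat.lt_or_ge k 3 with hk3 | hk3
  · obtain rfl : k = 1 := by obtain ⟨j, rfl⟩ := hk; omega
    obtain ⟨u, hu, v, hv, huv, hspanZ⟩ := finrank_plane_pair hβ hZ hdimZ
    have hneg : ∀ w ∈ Z, g w = -w := fun w hw => by
      have := hkill w hw
      rw [pow_one, LinearMap.add_apply, Module.End.one_apply] at this
      exact eq_neg_of_add_eq_zero_left this
    obtain ⟨a, c, hgx⟩ := Submodule.mem_span_pair.mp (hspanG ▸ hG.map_mem x hx : g x ∈ _)
    obtain ⟨b, d, hgy⟩ := Submodule.mem_span_pair.mp (hspanG ▸ hG.map_mem y hy : g y ∈ _)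
    refine commOn_four hF hβ hg hGZ ![x, u] ![y, v] ?_ ?_ ?_ ?_ ?_ ?_ a b c d hgx.symm hgy.symm
      (hneg u hu) (hneg v hv)
    · intro i; fin_cases i
      · exact Submodule.mem_sup_left hx
      · exact Submodule.mem_sup_right hu
    · intro i; fin_cases i
      · exact Submodule.mem_sup_left hy
      · exact Submodule.mem_sup_right hv
    · rw [hspanG, hspanZ, ← Submodule.span_union]
      refine Submodule.span_mono ?_
      rintro w ((rfl | rfl) | (rfl | rfl))
      · exact ⟨Sum.inl 0, rfl⟩
      · exact ⟨Sum.inr 0, rfl⟩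
      · exact ⟨Sum.inl 1, rfl⟩
      · exact ⟨Sum.inr 1, rfl⟩
    · intro i j; fin_cases i <;> fin_cases j <;>
        simp [hβ.self_eq_zero, hor x hx u hu, hβ.isRefl x u (hor x hx u hu)]
    · intro i j; fin_cases i <;> fin_cases j <;>
        simp [hβ.self_eq_zero, hor y hy v hv, hβ.isRefl y v (hor y hy v hv)]
    · intro i j; fin_cases i <;> fin_cases j <;>
        simp [hxy, huv, hor x hx v hv, hβ.isRefl y u (hor y hy u hu)]
  · have hGn : GaussOn β g (-1) G := by
      by_contra hcon
      refine hnot fun w hw => ?_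
      -- every vector of the plane is an eigenvector
      have heig : ∀ w ∈ G, g w - (-1 : F) • w ∈ Submodule.span F {w} := by
        intro w hw
        by_contra h
        refine hcon ⟨Submodule.span F {w}, Submodule.span F {g w - (-1 : F) • w}, ?_, ?_, ?_, ?_, ?_⟩
        · intro a ha b hb
          obtain ⟨s, rfl⟩ := Submodule.mem_span_singleton.mp ha
          obtain ⟨t, rfl⟩ := Submodule.mem_span_singleton.mp hb
          simp [hβ.self_eq_zero]
        · intro a ha b hb
          obtain ⟨s, rfl⟩ := Submodule.mem_span_singleton.mp ha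
          obtain ⟨t, rfl⟩ := Submodule.mem_span_singleton.mp hb
          simp only [map_smul, LinearMap.smul_apply, hβ.self_eq_zero, smul_zero]
        · rw [eq_bot_iff]
          rintro v ⟨hv, hv'⟩
          obtain ⟨s, rfl⟩ := Submodule.mem_span_singleton.mp hv
          obtain ⟨t, ht⟩ := Submodule.mem_span_singleton.mp hv'
          by_cases ht0 : t = 0
          · simp [← ht, ht0]
          · exfalso
            refine h (Submodule.mem_span_singleton.mpr ⟨t⁻¹ * s, ?_⟩)
            rw [← smul_smul, ← ht, smul_smul, inv_mul_cancel₀ ht0, one_smul]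
        · have hw0 : w ≠ 0 := by rintro rfl; exact h (by simp)
          refine Submodule.eq_of_le_of_finrank_eq ?_ ?_
          · rw [← Submodule.span_union, Submodule.span_le]
            rintro v (rfl | rfl)
            · exact hw
            · exact G.sub_mem (hG.map_mem w hw) (G.smul_mem _ hw)
          · rw [← Submodule.span_union, Set.singleton_union]
            have hli : LinearIndependent F ![w, g w - (-1 : F) • w] := by
              rw [LinearIndependent.pair_iff]
              intro s t hst
              by_cases ht0 : t = 0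
              · subst ht0; simpa [hw0] using hst
              · exfalso
                refine h (Submodule.mem_span_singleton.mpr ⟨-(t⁻¹ * s), ?_⟩)
                have := congrArg (t⁻¹ • ·) hst
                simp only [smul_add, smul_smul, inv_mul_cancel₀ ht0, one_smul, smul_zero] at this
                rw [neg_smul]
                exact neg_eq_of_add_eq_zero_right this
            have h3 := finrank_span_eq_card hli
            rw [show Set.range ![w, g w - (-1 : F) • w] = {w, g w - (-1 : F) • w} by
              simp [Matrix.range_cons, Matrix.range_empty, Set.union_singleton, Set.pair_comm]] at h3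
            rw [h3, h2]; simp
        · intro v hv
          obtain ⟨s, rfl⟩ := Submodule.mem_span_singleton.mp hv
          refine Submodule.mem_span_singleton.mpr ⟨s, ?_⟩
          rw [map_smul, smul_sub, smul_comm]
      -- so it is scalar, and of determinant one
      obtain ⟨a, ha⟩ := Submodule.mem_span_singleton.mp (heig x hx)
      obtain ⟨b, hb⟩ := Submodule.mem_span_singleton.mp (heig y hy)
      obtain ⟨c, hc⟩ := Submodule.mem_span_singleton.mp (heig (x + y) (G.add_mem hx hy))
      have e1 : g x = (a - 1) • x := by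
        rw [sub_smul, one_smul, ha, neg_one_smul]; abel
      have e2 : g y = (b - 1) • y := by
        rw [sub_smul, one_smul, hb, neg_one_smul]; abel
      have hcx : (c - a) • x + (c - b) • y = 0 := by
        rw [map_add, smul_add, smul_add] at hc
        rw [sub_smul, sub_smul, ha, hb]
        linear_combination (norm := module) hc
      have hca : c = a := by
        have := congrArg (fun v => β v y) hcx
        simp [hxy, hβ.self_eq_zero] at this
        exact sub_eq_zero.mp this
      have hcb : c = b := by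
        have := congrArg (β x) hcx
        simp [hxy, hβ.self_eq_zero] at this
        exact sub_eq_zero.mp this
      have hdet := hg x y
      rw [e1, e2] at hdet
      simp [hxy] at hdet
      have hab : a = b := hca.symm.trans hcb
      subst hab
      have : a * (a - 2) = 0 := by linear_combination hdet
      rcases mul_eq_zero.mp this with h | h
      · obtain ⟨s, t, rfl⟩ := Submodule.mem_span_pair.mp (hspanG ▸ hw : w ∈ _)
        rw [map_add, map_smul, map_smul, e1, e2, h]
        module
      · exfalso
        refine hnot1 fun v hv => ?_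
        obtain ⟨s, t, rfl⟩ := Submodule.mem_span_pair.mp (hspanG ▸ hv : v ∈ _)
        rw [map_add, map_smul, map_smul, e1, e2, show a - 1 = 1 by linear_combination h, one_smul,
          one_smul]
    have hZn : GaussOn β g (-1) Z := by
      let h : V ≃ₗ[F] V := g.trans (LinearEquiv.neg F)
      have hh : ∀ v, h v = -g v := fun v => rfl
      have hhiso : Isom β h := fun v w => by simp [hh, hg v w]
      have hZ' : Good β h Z := ⟨fun v hv => by rw [hh]; exact Z.neg_mem (hZ.map_mem v hv), hZ.nondeg⟩
      rcases hdec h hhiso Z hZ' with hga | ⟨Z', hZ'Z, ⟨k', x', y', -, -, -, -, hx', -, hL, hZ'eq⟩, -, -⟩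
      · obtain ⟨W, W', hW, hW', hd, hs, hWg⟩ := hga
        refine ⟨W, W', hW, hW', hd, hs, fun w hw => ?_⟩
        have := W'.neg_mem (hWg w hw)
        rw [hh, one_smul] at this
        convert this using 1
        module
      · exfalso
        have hxZ : x' ∈ Z := hZ'Z (hZ'eq ▸ Submodule.subset_span (Or.inl ⟨0, by simp⟩))
        set M : V →ₗ[F] V := (g : V →ₗ[F] V) + 1
        have hN : ((h : V →ₗ[F] V) + 1) = (2 : F) • 1 - M := by
          ext v
          simp [hh, M, two_smul]
          abel
        have h1 : Commute ((2 : F) • (1 : V →ₗ[F] V) - M) M :=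
          ((Commute.one_left M).smul_left _).sub_left (Commute.refl M)
        -- `2 - M` is injective on the kernel of `M ^ k`
        have inj : ∀ v : V, (M ^ k) v = 0 → ((2 : F) • (1 : V →ₗ[F] V) - M) v = 0 → v = 0 := by
          intro v hv h0
          have hMv : M v = (2 : F) • v := by
            simp only [LinearMap.sub_apply, LinearMap.smul_apply, Module.End.one_apply] at h0
            exact (sub_eq_zero.mp h0).symm
          have hpow : ∀ j : ℕ, (M ^ j) v = (2 : F) ^ j • v := by
            intro j
            induction j with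
            | zero => simp
            | succ j ih => rw [pow_succ', Module.End.mul_apply, ih, map_smul, hMv, smul_smul, pow_succ]
          rw [hpow] at hv
          exact (smul_eq_zero.mp hv).resolve_left (pow_ne_zero _ h2F)
        have injpow : ∀ (j : ℕ) (v : V), (M ^ k) v = 0 →
            (((2 : F) • (1 : V →ₗ[F] V) - M) ^ j) v = 0 → v = 0 := by
          intro j
          induction j with
          | zero => intro v _ h; simpa using h
          | succ j ih =>
            intro v hv h
            rw [pow_succ', Module.End.mul_apply] at h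
            refine ih v hv (inj _ ?_ h)
            rw [← Module.End.mul_apply, ← ((h1.pow_pow j k)).eq, Module.End.mul_apply, hv, map_zero]
        rw [hN] at hx' hL
        have hx0 : x' = 0 := injpow k' x' (hkill x' hxZ) hx'
        apply hL
        rw [hx0, map_zero]; simp
    have hn : Frame F (Fin (1 + k)) (-1) := frame_three_neg hF _ (by omega)
      (by obtain ⟨j, rfl⟩ := hk; exact ⟨j + 1, by ring⟩)
    exact (hGn.sup hβ hZn hdis hor).commOn hβ hg hGZ (by ring) hsum hn

theorem commOn_top [Fintype F] (hβ : β.IsAlt) (hg : Isom β g) (hdec : DecompThm β)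
    (hU : Good β g ⊤) (m : ℕ) (hm : Module.finrank F V = m + m)
    (h1 : m = 1 → 4 ≤ Fintype.card F) (h2 : m = 2 → 3 ≤ Fintype.card F) : CommOn β g ⊤ := by
  obtain ⟨G, R, hG, hGa, hR, hor, hGR⟩ := exists_gauss_pairs hβ hg hdec _ ⊤ le_rfl hU
  obtain ⟨n, hn⟩ := hGa.exists_finrank hβ hG
  have hGm : n ≤ m := by
    have := Submodule.finrank_le G
    omega
  have done : Frame F (Fin n) 1 → CommOn β g ⊤ := fun h =>
    hGR ▸ (hGa.commOn hβ hg hG (one_mul 1) hn h).sup hβ (hR.commOn hβ hg) hor
  by_cases h4 : 4 ≤ Fintype.card F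
  · exact done (frame_of_four h4 n)
  have hcard : Fintype.card F = 2 ∨ Fintype.card F = 3 := by
    have := Fintype.one_lt_card (α := F)
    omega
  by_cases hn0 : n = 0
  · subst hn0
    have : G = ⊥ := Submodule.finrank_eq_zero.mp hn
    rw [← hGR, this, bot_sup_eq]
    exact hR.commOn hβ hg
  rcases hcard with hc | hc
  · -- two elements: there are no odd pairs
    have htwo : (2 : F) = 0 := by
      have : CharP F 2 := charP_of_card_eq_prime hc
      exact CharTwo.two_eq_zero
    have hRb : R = ⊥ := by
      cases hR with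
      | nil => rfl
      | cons _ hp _ _ _ =>
        obtain ⟨_, _, _, -, h, -⟩ := hp
        exact absurd htwo h
    rw [hRb, sup_bot_eq] at hGR
    have hnm : n = m := by
      rw [hGR, finrank_top, hm] at hn
      omega
    subst hnm
    rcases (by omega : n = 1 ∨ n = 2 ∨ 3 ≤ n) with rfl | rfl | h
    · exact absurd (h1 rfl) h4
    · exact absurd (h2 rfl) (by omega)
    · exact done (frame_two hc n h)
  · rcases Nat.lt_or_ge n 2 with hn2 | hn2
    swap
    · exact done (frame_three hc n hn2)
    obtain rfl : n = 1 := by omega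
    cases hR with
    | nil =>
      rw [sup_bot_eq] at hGR
      rw [hGR, finrank_top, hm] at hn
      exact absurd (h1 (by omega)) h4
    | @cons Z R' hZ hZp hZne hR' hZR =>
      have hGZ : ∀ x ∈ G, ∀ y ∈ Z, β x y = 0 := fun x hx y hy => hor x hx y (Submodule.mem_sup_left hy)
      have hGZR : ∀ x ∈ G ⊔ Z, ∀ y ∈ R', β x y = 0 := by
        intro x hx y hy
        obtain ⟨a, ha, b, hb, rfl⟩ := Submodule.mem_sup.mp hx
        rw [map_add, LinearMap.add_apply, hor a ha y (Submodule.mem_sup_right hy), hZR b hb y hy,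
          add_zero]
      rw [← hGR, ← sup_assoc]
      refine CommOn.sup hβ ?_ (hR'.commOn hβ hg) hGZR
      by_cases hneg : ∀ x ∈ G, g x = -x
      · obtain ⟨x, hx, y, hy, hxy, hsp⟩ := finrank_plane_pair hβ hG hn
        have h2F : (2 : F) ≠ 0 := by
          obtain ⟨_, _, _, -, h, -⟩ := hZp
          exact h
        have hp : OddPair β g G := hsp ▸ oddPair_neg_one hβ h2F hxy (hneg x hx) (hneg y hy)
        exact (hp.commOn hβ hg hG).sup hβ (hZp.commOn hβ hg hZ) hGZ
      by_cases hpos : ∀ x ∈ G, g x = x
      · exact (commOn_of_fixed hpos).sup hβ (hZp.commOn hβ hg hZ) hGZ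
      exact commOn_plane_pair hc hβ hg hdec hG hn hZ hZp hGZ hneg hpos

/-- Every symplectic matrix is a commutator, given the decomposition theorem. -/
theorem symplectic_commutator [Fintype F] (m : ℕ) (h1 : m = 1 → 4 ≤ Fintype.card F)
    (h2 : m = 2 → 3 ≤ Fintype.card F)
    (hdec : ∀ β : LinearMap.BilinForm F (Fin m ⊕ Fin m → F), β.IsAlt → DecompThm β)
    (A : Matrix.symplecticGroup (Fin m) F) :
    ∃ a b : Matrix.symplecticGroup (Fin m) F, A = a * b * a⁻¹ * b⁻¹ := by
  classical
  set β : LinearMap.BilinForm F (Fin m ⊕ Fin m → F) := Matrix.toBilin' (J (Fin m) F) with hβdef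
  have hβ : β.IsAlt := fun v => by
    simp [hβdef, Matrix.toBilin'_apply', J, mulVec, dotProduct, Fintype.sum_sum_type, Matrix.one_apply,
      Finset.sum_add_distrib, mul_comm]
  have hiso : ∀ P : Matrix.symplecticGroup (Fin m) F, ∀ u v : Fin m ⊕ Fin m → F,
      β ((P : Matrix _ _ F) *ᵥ u) ((P : Matrix _ _ F) *ᵥ v) = β u v := fun P u v => by
    have hP := SymplecticGroup.mem_iff'.mp P.2
    set M : Matrix (Fin m ⊕ Fin m) (Fin m ⊕ Fin m) F := P.1 with hM
    show β (M *ᵥ u) (M *ᵥ v) = β u v
    rw [hβdef, Matrix.toBilin'_apply', Matrix.toBilin'_apply', ← vecMul_transpose M u,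
      ← dotProduct_mulVec, mulVec_mulVec, mulVec_mulVec, hP]
  let Ψ : Matrix.symplecticGroup (Fin m) F →*
      ((Fin m ⊕ Fin m → F) ≃ₗ[F] (Fin m ⊕ Fin m → F)) :=
    (LinearMap.GeneralLinearGroup.generalLinearEquiv F _).toMonoidHom.comp
      ((Matrix.toLinAlgEquiv' (R := F) (n := Fin m ⊕ Fin m)).toMonoidHom.comp
        (Matrix.symplecticGroup (Fin m) F).subtype).toHomUnits
  have hΨ : ∀ P v, Ψ P v = (P : Matrix _ _ F) *ᵥ v := fun P v => rfl
  have hg : Isom β (Ψ A) := fun u v => by rw [hΨ, hΨ]; exact hiso A u v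
  have hU : Good β (Ψ A) ⊤ := by
    refine ⟨fun _ _ => trivial, fun v _ h => ?_⟩
    have h0 : v ᵥ* J (Fin m) F = 0 := funext fun l => by
      have := h (Pi.single l 1) trivial
      rw [hβdef, Matrix.toBilin'_apply', dotProduct_mulVec, dotProduct_single, mul_one] at this
      exact this
    have := congrArg (fun w => w ᵥ* J (Fin m) F) h0
    simpa [vecMul_vecMul, J_squared, vecMul_neg, neg_eq_zero] using this
  obtain ⟨a, b, ha, hb, -, -, -, hab⟩ := commOn_top hβ hg (hdec β hβ) hU m (by simp) h1 h2
  have back : ∀ a : (Fin m ⊕ Fin m → F) ≃ₗ[F] (Fin m ⊕ Fin m → F), Isom β a →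
      ∃ P : Matrix.symplecticGroup (Fin m) F, Ψ P = a := by
    intro a ha
    refine ⟨⟨LinearMap.toMatrix' (a : (Fin m ⊕ Fin m → F) →ₗ[F] (Fin m ⊕ Fin m → F)), ?_⟩,
      LinearEquiv.ext fun v => ?_⟩
    · rw [SymplecticGroup.mem_iff']
      ext k l
      have := ha (Pi.single k 1) (Pi.single l 1)
      rw [hβdef, Matrix.toBilin'_apply', Matrix.toBilin'_apply'] at this
      simp only [← LinearEquiv.coe_coe, ← LinearMap.toMatrix'_mulVec] at this
      rw [← vecMul_transpose _ (Pi.single k (1 : F)), ← dotProduct_mulVec, mulVec_mulVec, mulVec_mulVec]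
        at this
      simpa using this
    · rw [hΨ]
      exact LinearMap.toMatrix'_mulVec _ v
  obtain ⟨P, rfl⟩ := back a ha
  obtain ⟨Q, rfl⟩ := back b hb
  refine ⟨P, Q, ?_⟩
  apply Subtype.ext
  apply (Matrix.toLinAlgEquiv' (R := F) (n := Fin m ⊕ Fin m)).injective
  refine LinearMap.ext fun v => ?_
  have := hab v trivial
  rw [← map_inv, ← map_inv, ← map_mul, ← map_mul, ← map_mul, hΨ, hΨ] at this
  exact this.symm

end CfsgLib.SpOre
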