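import Mathlib

/-!
Commutators in symplectic groups (every element of `Sp (2m, q)` is a commutator): shared vocabulary.

An isometry `g` is *Gauss* for a sign `ε` on a subspace `U` if `U` is the sum of two disjoint totally
isotropic subspaces `W`, `W'` with `(g - ε) W ≤ W'`; then `g` is `lower * ε * upper` for the pair.
-/

set_option autoImplicit false
set_option linter.style.haveILetI false
set_option linter.unusedSectionVars false

namespace CfsgLib.SpOre

variable {F V : Type*} [Field F] [AddCommGroup V] [Module F V]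

/-- `W` is totally isotropic. -/
def Isotropic (β : LinearMap.BilinForm F V) (W : Submodule F V) : Prop :=
  ∀ x ∈ W, ∀ y ∈ W, β x y = 0

/-- `g` preserves `β`. -/
def Isom (β : LinearMap.BilinForm F V) (g : V ≃ₗ[F] V) : Prop :=
  ∀ x y, β (g x) (g y) = β x y

/-- `U` is invariant under `g` and non-degenerate. -/
structure Good (β : LinearMap.BilinForm F V) (g : V ≃ₗ[F] V) (U : Submodule F V) : Prop where
  map_mem : ∀ x ∈ U, g x ∈ U
  nondeg : ∀ x ∈ U, (∀ y ∈ U, β x y = 0) → x = 0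

/-- `g` is a Gauss product with middle factor `ε` on `U`. -/
def GaussOn (β : LinearMap.BilinForm F V) (g : V ≃ₗ[F] V) (ε : F) (U : Submodule F V) : Prop :=
  ∃ W W' : Submodule F V, Isotropic β W ∧ Isotropic β W' ∧ W ⊓ W' = ⊥ ∧ W ⊔ W' = U ∧
    ∀ w ∈ W, g w - ε • w ∈ W'

/-- A pair of Jordan blocks of odd size `k` for the eigenvalue `-1`, in two isotropic cyclic
subspaces which pair perfectly. -/
def OddPair (β : LinearMap.BilinForm F V) (g : V ≃ₗ[F] V) (U : Submodule F V) : Prop :=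
  ∃ (k : ℕ) (x y : V), Odd k ∧ (2 : F) ≠ 0 ∧
    (∀ i : ℕ, β ((g ^ i) x) x = 0) ∧ (∀ i : ℕ, β ((g ^ i) y) y = 0) ∧
    (((g : V →ₗ[F] V) + 1) ^ k) x = 0 ∧ (((g : V →ₗ[F] V) + 1) ^ k) y = 0 ∧
    β ((((g : V →ₗ[F] V) + 1) ^ (k - 1)) x) y ≠ 0 ∧
    U = Submodule.span F (Set.range (fun i : ℕ => (g ^ i) x) ∪ Set.range (fun i : ℕ => (g ^ i) y))

/-- The isometry `g` acts on `U` as a commutator of isometries. -/
def CommOn (β : LinearMap.BilinForm F V) (g : V ≃ₗ[F] V) (U : Submodule F V) : Prop :=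
  ∃ a b : V ≃ₗ[F] V, Isom β a ∧ Isom β b ∧ (∀ x ∈ U, a x ∈ U) ∧ (∀ x ∈ U, b x ∈ U) ∧
    (∀ x, (∀ u ∈ U, β u x = 0) → a x = x ∧ b x = x) ∧
    ∀ x ∈ U, (a * b * a⁻¹ * b⁻¹) x = g x

end CfsgLib.SpOre
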