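import Cfsg.Agent.Lib.SpOre.OddMinus

/-!
An isometry of an alternating form is a Gauss product, or has an odd pair for the eigenvalue `-1`
splitting off.
-/

set_option autoImplicit false
set_option linter.style.haveILetI false
set_option linter.unusedSectionVars false

namespace CfsgLib.SpOre

open Polynomial

variable {F V : Type*} [Field F] [AddCommGroup V] [Module F V] [FiniteDimensional F V]
variable {β : LinearMap.BilinForm F V} {g : V ≃ₗ[F] V} {U : Submodule F V}

/-- Some good piece is a Gauss product or an odd pair. -/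
def HasPiece (β : LinearMap.BilinForm F V) (g : V ≃ₗ[F] V) (U : Submodule F V) : Prop :=
  ∃ Z ≤ U, Z ≠ ⊥ ∧ Good β g Z ∧ (GaussOn β g 1 Z ∨ OddPair β g Z)

theorem exists_mul_eq_socle {p d : F[X]} (hp : Irreducible p) {e : ℕ} (hd : ¬ p ^ e ∣ d) (a : F[X]) :
    ∃ b w : F[X], b * d = p ^ (e - 1) * a + w * p ^ e := by
  have hd0 : d ≠ 0 := fun h => hd (h ▸ dvd_zero _)
  obtain ⟨k, r, hr, rfl⟩ := WfDvdMonoid.max_power_factor hd0 hp
  have hk : k < e := by
    by_contra hk
    exact hd ((pow_dvd_pow p (not_lt.mp hk)).trans (dvd_mul_right _ _))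
  obtain ⟨u, w, huw⟩ := ((hp.coprime_iff_not_dvd.mpr hr).symm.pow_right (n := e))
  refine ⟨u * p ^ (e - 1 - k) * a, -(p ^ (e - 1) * a * w), ?_⟩
  have he : p ^ (e - 1) = p ^ (e - 1 - k) * p ^ k := by rw [← pow_add]; congr 1; omega
  linear_combination (p ^ (e - 1) * a) * huw - (u * r * a) * he

theorem aeval_of_dvd {R : Module.End F V} {f d : F[X]} {x : V} (h : f ∣ d) (hx : aeval R f x = 0) :
    aeval R d x = 0 := by
  obtain ⟨r, rfl⟩ := h
  rw [mul_comm, ← aeval_aeval, hx, map_zero]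

theorem exists_primary (hg : Isom β g) (hU : Good β g U) (hne : U ≠ ⊥) :
    ∃ (p : F[X]) (e : ℕ) (U₁ : Submodule F V), p.Monic ∧ Irreducible p ∧ 1 ≤ e ∧ U₁ ≤ U ∧ Good β g U₁ ∧
      (∀ x ∈ U₁, aeval (trT g 0) (p ^ e) x = 0) ∧ ∃ x ∈ U₁, aeval (trT g 0) (p ^ (e - 1)) x ≠ 0 := by
  classical
  set S := trT g (0 : F)
  suffices ∀ n, ∀ f : F[X], f.natDegree = n → f ≠ 0 → (∀ x ∈ U, aeval S f x = 0) →
      ∃ (p : F[X]) (k : ℕ) (U₁ : Submodule F V), p.Monic ∧ Irreducible p ∧ U₁ ≤ U ∧ Good β g U₁ ∧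
        U₁ ≠ ⊥ ∧ ∀ x ∈ U₁, aeval S (p ^ k) x = 0 by
    obtain ⟨p, k, U₁, hpm, hp, hle, hgood, hne₁, hk⟩ := this _ (minpoly F S) rfl
      (minpoly.ne_zero (IsIntegral.of_finite F S)) fun x _ => by rw [minpoly.aeval]; simp
    have hex : ∃ j, ∀ x ∈ U₁, aeval S (p ^ j) x = 0 := ⟨k, hk⟩
    have he1 : 1 ≤ Nat.find hex := by
      by_contra h0
      refine hne₁ ((Submodule.eq_bot_iff _).mpr fun x hx => ?_)
      have := Nat.find_spec hex x hx
      rw [show Nat.find hex = 0 by omega] at this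
      simpa using this
    refine ⟨p, Nat.find hex, U₁, hpm, hp, he1, hle, hgood, Nat.find_spec hex, ?_⟩
    have h := Nat.find_min hex (show Nat.find hex - 1 < Nat.find hex by omega)
    push Not at h
    exact h
  intro n
  induction n using Nat.strong_induction_on with
  | _ n ih =>
    intro f hn hf hkill
    have hfu : ¬ IsUnit f := fun hu => by
      obtain ⟨r, hr, rfl⟩ := Polynomial.isUnit_iff.mp hu
      refine hne ((Submodule.eq_bot_iff _).mpr fun x hx => ?_)
      have := hkill x hx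
      rw [aeval_C, Algebra.algebraMap_eq_smul_one] at this
      simpa [hr.ne_zero] using this
    obtain ⟨p, hpm, hp, hpf⟩ := Polynomial.exists_monic_irreducible_factor f hfu
    obtain ⟨k, r, hr, hfr⟩ := WfDvdMonoid.max_power_factor hf hp
    have hk0 : k ≠ 0 := fun h => hr (by rwa [hfr, h, pow_zero, one_mul] at hpf)
    obtain ⟨u, w, huw⟩ := ((hp.coprime_iff_not_dvd.mpr hr).pow_left (m := k))
    set U₁ := U ⊓ LinearMap.ker (aeval S (p ^ k))
    have hmem : ∀ x ∈ U, aeval S r x ∈ U₁ := fun x hx => ⟨hU.aeval_mem _ hx, by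
      rw [SetLike.mem_coe, LinearMap.mem_ker, aeval_aeval, ← hfr]; exact hkill x hx⟩
    have hgood : Good β g U₁ := by
      refine ⟨fun x hx => ⟨hU.map_mem x hx.1, ?_⟩, fun x hx horth => hU.nondeg x hx.1 fun y hy => ?_⟩
      · rw [SetLike.mem_coe, LinearMap.mem_ker, aeval_comm, LinearMap.mem_ker.mp hx.2, map_zero]
      · have e1 : y = aeval S (u * p ^ k) y + aeval S r (aeval S w y) := by
          rw [aeval_aeval, ← LinearMap.add_apply, ← map_add, show u * p ^ k + r * w = 1 by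
            rw [mul_comm r]; exact huw]
          simp
        rw [e1, map_add, horth _ (hmem _ (hU.aeval_mem _ hy)), add_zero, ← aeval_adj hg, ← aeval_aeval,
          LinearMap.mem_ker.mp hx.2, map_zero, map_zero, LinearMap.zero_apply]
    by_cases hbot : U₁ = ⊥
    · refine ih r.natDegree ?_ r rfl (fun h => hr (by rw [h]; exact dvd_zero _)) fun x hx => ?_
      · rw [← hn, hfr, Polynomial.natDegree_mul (pow_ne_zero _ hp.ne_zero) (fun h => hr (by rw [h]; exact dvd_zero _)),
          Polynomial.natDegree_pow]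
        have : 0 < p.natDegree := hp.natDegree_pos
        have := Nat.mul_pos (Nat.pos_of_ne_zero hk0) this
        omega
      · have := hmem x hx
        rw [hbot] at this
        exact (Submodule.mem_bot F).mp this
    · exact ⟨p, k, U₁, hpm, hp, inf_le_left, hgood, hbot, fun x hx => LinearMap.mem_ker.mp hx.2⟩

/-- The free case: `v` and `g v` pair on the socle. -/
theorem piece_of_free (hβ : β.IsAlt) (hg : Isom β g) (hU : Good β g U) {p a : F[X]} (hp : Irreducible p)
    {e : ℕ} (hkill : ∀ x ∈ U, aeval (trT g 0) (p ^ e) x = 0) {v : V} (hv : v ∈ U)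
    (hL : β (aeval (trT g 0) (p ^ (e - 1) * a) v) (g v) ≠ 0) : HasPiece β g U := by
  set S := trT g (0 : F)
  set v₁ := g v - v with hv₁
  set Z := kspan S v ⊔ kspan S v₁
  have hgv : g v ∈ Z := by
    rw [show g v = v + v₁ by rw [hv₁]; abel]
    exact Submodule.add_mem_sup (self_mem_kspan S v) (self_mem_kspan S v₁)
  have hinv : ∀ z ∈ Z, S z ∈ Z := sup_invariant (kspan_invariant S v) (kspan_invariant S v₁)
  have hgv₁ : g v₁ ∈ Z := by
    rw [show g v₁ = (S (g v) - v) - g v by simp [hv₁, S]]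
    exact Z.sub_mem (Z.sub_mem (hinv _ hgv) (Submodule.mem_sup_left (self_mem_kspan S v))) hgv
  have hgZ : ∀ z ∈ Z, g z ∈ Z := by
    intro z hz
    obtain ⟨b, c, rfl⟩ := mem_pair.mp hz
    rw [map_add, ← aeval_comm, ← aeval_comm]
    exact Z.add_mem (aeval_mem_of_invariant S hinv b hgv) (aeval_mem_of_invariant S hinv c hgv₁)
  have hvU : ∀ b : F[X], aeval S b v ∈ U := fun b => hU.aeval_mem b hv
  have hv₁U : v₁ ∈ U := U.sub_mem (hU.map_mem v hv) hv
  have hkills : ∀ b : F[X], (∀ c : F[X], β (aeval S (c * b) v) (g v) = 0) → p ^ e ∣ b := by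
    intro b hb
    by_contra hd
    obtain ⟨c, w, hcw⟩ := exists_mul_eq_socle hp hd a
    refine hL ?_
    have := hb c
    rw [hcw, map_add, LinearMap.add_apply, map_add, LinearMap.add_apply, ← aeval_aeval S w,
      hkill v hv, map_zero, map_zero, LinearMap.zero_apply, add_zero] at this
    exact this
  have hself : ∀ b : F[X], β (aeval S b v) v = 0 := fun b => aeval_self hβ hg b v
  have hnd : ∀ z ∈ Z, (∀ y ∈ Z, β z y = 0) → z = 0 := by
    intro z hz horth
    obtain ⟨b, c, rfl⟩ := mem_pair.mp hz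
    have hb : p ^ e ∣ c := by
      refine hkills c fun d => ?_
      have h1 := horth _ (Submodule.mem_sup_left (aeval_mem_kspan S v d))
      rw [LinearMap.map_add₂, ← aeval_adj hg, aeval_aeval, hself, zero_add, ← aeval_adj hg, aeval_aeval,
        hv₁, map_sub, LinearMap.map_sub₂, hself, sub_zero, aeval_adj hg, ← hβ.neg_eq, neg_eq_zero] at h1
      exact h1
    have hc0 : aeval S c v₁ = 0 := aeval_of_dvd hb (hkill _ hv₁U)
    rw [hc0, add_zero] at horth ⊢
    refine aeval_of_dvd (hkills b fun d => ?_) (hkill _ hv)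
    have h1 := horth _ (Submodule.mem_sup_right (aeval_mem_kspan S v₁ d))
    rw [← aeval_adj hg, aeval_aeval, hv₁, map_sub, hself, sub_zero] at h1
    exact h1
  refine ⟨Z, sup_le ?_ ?_, ?_, ⟨hgZ, hnd⟩, Or.inl (gaussOn_of hβ (isotropic_kspan hβ hg v)
    (isotropic_kspan hβ hg v₁) rfl hnd fun w hw => ?_)⟩
  · exact kspan_le (fun z hz => by
    have := hU.aeval_mem (c := (0 : F)) (X : F[X]) hz; rwa [aeval_X] at this) hv
  · exact kspan_le (fun z hz => by
    have := hU.aeval_mem (c := (0 : F)) (X : F[X]) hz; rwa [aeval_X] at this) hv₁U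
  · intro hbot
    have : v ∈ Z := Submodule.mem_sup_left (self_mem_kspan S v)
    rw [hbot, Submodule.mem_bot] at this
    exact hL (by rw [this]; simp)
  · obtain ⟨b, rfl⟩ := mem_kspan.mp hw
    rw [one_smul, ← aeval_comm, ← map_sub]
    exact aeval_mem_kspan S v₁ b

/-- Two vectors for characteristic two. -/
theorem piece_of_two (hβ : β.IsAlt) (hg : Isom β g) (h2 : (2 : F) = 0) (hU : Good β g U) {e : ℕ}
    (he : 1 ≤ e) (hkill : ∀ z ∈ U, (trT g (2 * (1 : F)) ^ e) z = 0)
    (hpol : ∀ z ∈ U, β ((trT g (2 * (1 : F)) ^ (e - 1)) z) (g z) = 0)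
    {x y : V} (hx : x ∈ U) (hy : y ∈ U)
    (hne : β ((trT g (2 * (1 : F)) ^ (e - 1)) x) (g y - y) ≠ 0) : HasPiece β g U := by
  set T := trT g (2 * (1 : F))
  have hge : ∀ z ∈ U, ∀ i, e ≤ i → (T ^ i) z = 0 := fun z hz i hi => by
    rw [← Nat.sub_add_cancel hi, pow_add_apply, hkill z hz, map_zero]
  have hTg : ∀ z, g (g z) = T (g z) - z := fun z => by simp [T, h2]
  have hTT : ∀ u w, u ∈ U → β ((T ^ (e - 1)) u) (T w) = 0 := fun u w hu => by
    rw [← trT_adj hg, ← Module.End.mul_apply, ← pow_succ', hge u hu _ (by omega)]; simp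
  -- make the pairing with `y` vanish
  obtain ⟨y, hy, hxy, hQ⟩ : ∃ y' ∈ U, (∀ a : F[X], β (aeval T a x) y' = 0) ∧
      β ((T ^ (e - 1)) x) (g y') ≠ 0 := by
    obtain ⟨y', hy', hQ', hPQ⟩ : ∃ y' ∈ U, β ((T ^ (e - 1)) x) (g y') ≠ 0 ∧
        β ((T ^ (e - 1)) x) y' ≠ β ((T ^ (e - 1)) x) (g y') := by
      rw [map_sub, sub_ne_zero] at hne
      by_cases hQ : β ((T ^ (e - 1)) x) (g y) = 0
      · refine ⟨g y, hU.map_mem y hy, ?_, ?_⟩
        · rw [hTg, map_sub, hTT x _ hx, zero_sub, neg_ne_zero]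
          exact fun h => hne (by rw [hQ, h])
        · rw [hTg, map_sub, hTT x _ hx, zero_sub, hQ]
          exact fun h => hne (by rw [hQ]; linear_combination -h)
      · exact ⟨y, hy, hQ, Ne.symm hne⟩
    set P := β ((T ^ (e - 1)) x) y' with hP
    set Q := β ((T ^ (e - 1)) x) (g y') with hQdef
    obtain ⟨u, hu⟩ := exists_coeff hg (z := y') (fun i hi => hge x hx i hi) hQ'
    have hu0 : u.coeff 0 * Q = P := by
      have h1 := hu (X ^ (e - 1))
      rw [← pow_apply_eq, aeval_split _ u, map_add, map_smul, hTT x _ hx, add_zero, smul_eq_mul] at h1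
      exact h1.symm
    refine ⟨y' - aeval T u (g y'), U.sub_mem hy' (hU.aeval_mem _ (hU.map_mem _ hy')), fun a => ?_, ?_⟩
    · rw [map_sub, hu a, sub_self]
    · intro h
      rw [map_sub g, ← aeval_comm, aeval_split T u, map_sub, map_add, map_smul, hTT x _ hx, add_zero,
        hTg, map_sub, hTT x _ hx, smul_eq_mul] at h
      refine hPQ ?_
      have : (Q - P) * (Q - P) = 0 := by
        linear_combination Q * h - P * hu0 + (-(P * Q)) * h2
      linear_combination -(mul_self_eq_zero.mp this)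
  set Q := β ((T ^ (e - 1)) x) (g y) with hQdef
  have hε : (1 : F) * 1 = 1 := one_mul 1
  set x₁ := g x - (1 : F) • x with hx₁
  set y₁ := g y - (1 : F) • y with hy₁
  have hx₁U : x₁ ∈ U := U.sub_mem (hU.map_mem x hx) (U.smul_mem _ hx)
  have hy₁U : y₁ ∈ U := U.sub_mem (hU.map_mem y hy) (U.smul_mem _ hy)
  have hself : ∀ v, β ((T ^ (e - 1)) v) v = 0 := fun v => by
    rw [pow_apply_eq]; exact aeval_self hβ hg _ v
  have hxy0 : β ((T ^ (e - 1)) x) y = 0 := by rw [pow_apply_eq]; exact hxy _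
  have hyx0 : β ((T ^ (e - 1)) y) x = 0 := by rw [pow_adj hg, ← hβ.neg_eq, hxy0, neg_zero]
  have hyx : β ((T ^ (e - 1)) y) (g x) = Q := by
    rw [← hβ.neg_eq, ← hg.symm_right,
      show g.symm ((T ^ (e - 1)) y) = (T ^ (e - 1)) (g.symm y) by
        rw [g.symm_apply_eq, pow_apply_eq, pow_apply_eq, ← aeval_comm, g.apply_symm_apply],
      ← pow_adj hg, show g.symm y = T y - g y by simp [T, h2], map_sub, hTT x _ hx, zero_sub, neg_neg]
  have hN : ∀ u w, u ∈ U → β ((T ^ (e - 1)) (g u - (1 : F) • u)) (g w - (1 : F) • w) = 0 := by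
    intro u w hu
    rw [pow_apply_eq, shift_comm, shift_adj hg hε, ← pow_apply_eq, trT_adj hg, hTT u w hu, mul_zero,
      neg_zero]
  have hflip : ∀ u w, β ((T ^ (e - 1)) u) w = -β ((T ^ (e - 1)) w) u := fun u w => by
    rw [pow_adj hg, ← hβ.neg_eq]
  set Z := pairSpan g (1 : F) x y with hZdef
  have hTk : ∀ (n : ℕ) (v : V), (T ^ n) v ∈ kspan T v := fun n v => by
    rw [pow_apply_eq]; exact aeval_mem_kspan T v _
  have hnd : ∀ z ∈ Z, (∀ w ∈ Z, β z w = 0) → z = 0 := by
    intro z hz horth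
    have key : ∀ i ≤ e, ∃ a b a' b' : F[X],
        z = (T ^ i) (aeval T a x + aeval T b x₁ + (aeval T a' y + aeval T b' y₁)) := by
      intro i
      induction i with
      | zero =>
        intro _
        obtain ⟨p, hp, r, hr, rfl⟩ := Submodule.mem_sup.mp hz
        obtain ⟨a, b, rfl⟩ := mem_pair.mp hp
        obtain ⟨a', b', rfl⟩ := mem_pair.mp hr
        exact ⟨a, b, a', b', by simp [x₁, y₁, T]⟩
      | succ i ih =>
        intro hi
        obtain ⟨a, b, a', b', hzi⟩ := ih (by omega)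
        set z' := aeval T a x + aeval T b x₁ + (aeval T a' y + aeval T b' y₁)
        have htop : ∀ (c : F[X]) (v : V), v ∈ U →
            (T ^ (e - 1)) (aeval T c v) = c.coeff 0 • (T ^ (e - 1)) v := fun c v hv => by
          rw [aeval_split, map_add, map_smul, ← Module.End.mul_apply, ← pow_succ,
            hge _ (hU.aeval_mem _ hv) _ (by omega), add_zero]
        have hz' : ∀ w, β ((T ^ (e - 1)) z') w =
            a.coeff 0 * β ((T ^ (e - 1)) x) w + b.coeff 0 * β ((T ^ (e - 1)) x₁) w +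
              (a'.coeff 0 * β ((T ^ (e - 1)) y) w + b'.coeff 0 * β ((T ^ (e - 1)) y₁) w) := fun w => by
          simp only [z', map_add, htop a x hx, htop b x₁ hx₁U, htop a' y hy, htop b' y₁ hy₁U,
            LinearMap.add_apply, map_smul, LinearMap.smul_apply, smul_eq_mul]
        have hpair : ∀ v : V, (T ^ (e - 1 - i)) v ∈ Z → β ((T ^ (e - 1)) z') v = 0 := fun v hv => by
          rw [show e - 1 = (e - 1 - i) + i by omega, pow_add_apply, pow_adj hg, ← hzi]
          exact horth _ hv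
        have h1 := hpair y₁ (Submodule.mem_sup_right (Submodule.mem_sup_right (hTk _ _)))
        have h2' := hpair x₁ (Submodule.mem_sup_left (Submodule.mem_sup_right (hTk _ _)))
        have h3 := hpair y (Submodule.mem_sup_right (Submodule.mem_sup_left (hTk _ _)))
        have h4 := hpair x (Submodule.mem_sup_left (Submodule.mem_sup_left (hTk _ _)))
        rw [hz'] at h1 h2' h3 h4
        have exy₁ : β ((T ^ (e - 1)) x) y₁ = Q := by simp [hy₁, hxy0, hQdef]
        have exx₁ : β ((T ^ (e - 1)) x) x₁ = 0 := by simp [hx₁, hself, hpol x hx]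
        have eyy₁ : β ((T ^ (e - 1)) y) y₁ = 0 := by simp [hy₁, hself, hpol y hy]
        have eyx₁ : β ((T ^ (e - 1)) y) x₁ = Q := by simp [hx₁, hyx0, hyx]
        rw [exy₁, eyy₁, hN x y hx, hN y y hy] at h1
        rw [exx₁, eyx₁, hN x x hx, hN y x hy] at h2'
        rw [hxy0, hself, hflip x₁ y, eyx₁, hflip y₁ y, eyy₁] at h3
        rw [hself, hyx0, hflip x₁ x, exx₁, hflip y₁ x, exy₁] at h4
        have ha : a.coeff 0 = 0 := by simpa [hQ] using h1
        have ha' : a'.coeff 0 = 0 := by simpa [hQ] using h2'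
        have hb : b.coeff 0 = 0 := by simpa [hQ] using h3
        have hb' : b'.coeff 0 = 0 := by simpa [hQ] using h4
        refine ⟨a.divX, b.divX, a'.divX, b'.divX, ?_⟩
        rw [hzi, pow_succ, Module.End.mul_apply]
        congr 1
        simp only [z', map_add]
        rw [aeval_split T a, aeval_split T b, aeval_split T a', aeval_split T b', ha, hb, ha', hb']
        simp
    obtain ⟨a, b, a', b', rfl⟩ := key e le_rfl
    exact hkill _ (U.add_mem (U.add_mem (hU.aeval_mem _ hx) (hU.aeval_mem _ hx₁U))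
      (U.add_mem (hU.aeval_mem _ hy) (hU.aeval_mem _ hy₁U)))
  have hgZ : ∀ z ∈ Z, g z ∈ Z := by
    intro z hz
    obtain ⟨p, hp, r, hr, rfl⟩ := Submodule.mem_sup.mp hz
    rw [map_add]
    exact Submodule.add_mem_sup (map_mem_cyclic hε x p hp) (map_mem_cyclic hε y r hr)
  have hTU : ∀ z ∈ U, T z ∈ U := fun z hz => by
    have := hU.aeval_mem (c := 2 * (1 : F)) (X : F[X]) hz; rwa [aeval_X] at this
  refine ⟨Z, sup_le (sup_le (kspan_le hTU hx) (kspan_le hTU hx₁U))
    (sup_le (kspan_le hTU hy) (kspan_le hTU hy₁U)), ?_, ⟨hgZ, hnd⟩,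
    Or.inl (gaussOn_of hβ (W := kspan T x ⊔ kspan T y) (W' := kspan T x₁ ⊔ kspan T y₁)
      (isotropic_kspan_sup hβ hg hxy) ?_ (sup_sup_sup_comm _ _ _ _) hnd fun w hw => ?_)⟩
  · intro hbot
    have : x ∈ Z := Submodule.mem_sup_left (Submodule.mem_sup_left (self_mem_kspan T x))
    rw [hbot, Submodule.mem_bot] at this
    exact hQ (by simp [hQdef, this])
  · refine isotropic_kspan_sup hβ hg fun a => ?_
    rw [shift_comm, hy₁, shift_adj hg hε, show trT g (2 * (1 : F)) (aeval T a x) = aeval T (X * a) x by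
      rw [← aeval_aeval, aeval_X], hxy, mul_zero, neg_zero]
  · obtain ⟨a, b, rfl⟩ := mem_pair.mp hw
    rw [map_add, smul_add, add_sub_add_comm, ← shift_comm, ← shift_comm]
    exact Submodule.add_mem_sup (aeval_mem_kspan T x₁ a) (aeval_mem_kspan T y₁ b)

theorem orbit_eq {ε : F} (hε : ε * ε = 1) (x : V) :
    Submodule.span F (Set.range fun i : ℕ => (g ^ i) x) =
      kspan (trT g (2 * ε)) x ⊔ kspan (trT g (2 * ε)) (g x - ε • x) := by
  set T := trT g (2 * ε)
  set O := Submodule.span F (Set.range fun i : ℕ => (g ^ i) x)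
  refine le_antisymm (Submodule.span_le.mpr ?_) ?_
  · rintro _ ⟨i, rfl⟩
    induction i with
    | zero => exact Submodule.mem_sup_left (self_mem_kspan T x)
    | succ i ih =>
      simp only [pow_succ', LinearEquiv.mul_apply]
      exact map_mem_cyclic hε x _ ih
  · have hgO : ∀ z ∈ O, g z ∈ O := by
      intro z hz
      induction hz using Submodule.span_induction with
      | mem w hw =>
        obtain ⟨i, rfl⟩ := hw
        exact Submodule.subset_span ⟨i + 1, by simp [pow_succ', LinearEquiv.mul_apply]⟩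
      | zero => simp
      | add u w _ _ hu hw => rw [map_add]; exact O.add_mem hu hw
      | smul r u _ hu => rw [map_smul]; exact O.smul_mem r hu
    have hsymm : ∀ z ∈ O, g.symm z ∈ O := fun z hz => by
      obtain ⟨w, hw, rfl⟩ := exists_preimage hgO hz
      rwa [g.symm_apply_apply]
    have hTO : ∀ z ∈ O, T z ∈ O := fun z hz => by
      simp only [T, trT_apply]
      exact O.sub_mem (O.add_mem (hgO z hz) (hsymm z hz)) (O.smul_mem _ hz)
    have hxO : x ∈ O := Submodule.subset_span ⟨0, by simp⟩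
    exact sup_le (kspan_le hTO hxO) (kspan_le hTO (O.sub_mem (hgO x hxO) (O.smul_mem _ hxO)))

/-- The odd pairs. -/
theorem piece_of_minus (hβ : β.IsAlt) (hg : Isom β g) {e : ℕ} (h : Layer β g (-1 : F) U e)
    (h2 : (2 : F) ≠ 0) {x y : V} (hx : x ∈ U) (hy : y ∈ U)
    (hφ : β ((trT g (2 * (-1 : F)) ^ (e - 1)) x) y ≠ 0) : HasPiece β g U := by
  set T := trT g (2 * (-1 : F))
  obtain ⟨x', hx', hφx, hox⟩ := h.exists_orbit_isotropic hβ hg h2 hx hy hφ
  obtain ⟨y', hy', hφy, hoy⟩ := h.exists_orbit_isotropic hβ hg h2 hy hx'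
    (by rw [pow_adj hg, ← hβ.neg_eq]; exact neg_ne_zero.mpr hφx)
  have hφ' : β ((T ^ (e - 1)) x') y' ≠ 0 := by
    rw [pow_adj hg, ← hβ.neg_eq]; exact neg_ne_zero.mpr hφy
  refine ⟨pairSpan g (-1) x' y', h.pairSpan_le hx' hy', ?_, h.good_pair hβ hg hx' hy' hφ',
    Or.inr ⟨2 * (e - 1) + 1, x', y', ⟨e - 1, rfl⟩, h2, hox, hoy, ?_⟩⟩
  · intro hbot
    have : x' ∈ pairSpan g (-1 : F) x' y' :=
      Submodule.mem_sup_left (Submodule.mem_sup_left (self_mem_kspan T x'))
    rw [hbot, Submodule.mem_bot] at this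
    exact hφ' (by simp [this])
  set N := (g : V →ₗ[F] V) + 1
  have hNz : ∀ z, N z = g z - (-1 : F) • z := fun z => by simp [N]
  have hpow : ∀ (j : ℕ) (z : V), (N ^ (2 * j)) z = (g ^ j) ((T ^ j) z) := by
    intro j
    induction j with
    | zero => simp
    | succ j ih =>
      intro z
      have hcomm : (T ^ j) (g (T z)) = g ((T ^ (j + 1)) z) := by
        rw [pow_apply_eq, aeval_comm, ← pow_apply_eq, pow_succ, Module.End.mul_apply]
      rw [show 2 * (j + 1) = 2 * j + (1 + 1) by ring, pow_add_apply, pow_add_apply, pow_one, hNz (N z),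
        hNz z, sq_apply h.sq, ih, hcomm, pow_succ g, LinearEquiv.mul_apply]
  have htop : ∀ z ∈ U, (N ^ (2 * (e - 1) + 1)) z = 0 := fun z hz => by
    rw [pow_succ, Module.End.mul_apply, hNz, hpow, h.kill' z hz, map_zero]
  have hfix : g ((T ^ (e - 1)) x') = (-1 : F) • (T ^ (e - 1)) x' := by
    have := h.kill' x' hx'
    rw [pow_apply_eq, shift_comm, ← pow_apply_eq, sub_eq_zero] at this
    exact this
  have hgp : ∀ j : ℕ, (g ^ j) ((T ^ (e - 1)) x') = (-1 : F) ^ j • (T ^ (e - 1)) x' := by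
    intro j
    induction j with
    | zero => simp
    | succ j ih => rw [pow_succ', LinearEquiv.mul_apply, ih, map_smul, hfix, smul_smul, ← pow_succ]
  refine ⟨htop x' hx', htop y' hy', ?_, ?_⟩
  · rw [Nat.add_sub_cancel, hpow, hgp, LinearMap.map_smul₂, smul_eq_mul]
    exact mul_ne_zero (pow_ne_zero _ (neg_ne_zero.mpr one_ne_zero)) hφ'
  · rw [Submodule.span_union, orbit_eq h.sq, orbit_eq h.sq]
    rfl

theorem trT_shift (c : F) : aeval (trT g (0 : F)) (X - C c : F[X]) = trT g c := by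
  ext v
  simp [Algebra.algebraMap_eq_smul_one]

/-- A non-zero good subspace has a piece. -/
theorem exists_piece (hβ : β.IsAlt) (hg : Isom β g) (hU : Good β g U) (hne : U ≠ ⊥) :
    HasPiece β g U := by
  obtain ⟨p, e, U₁, hpm, hp, he, hle, hU₁, hkill, hlow⟩ := exists_primary hg hU hne
  suffices HasPiece β g U₁ by
    obtain ⟨Z, hZ, h⟩ := this
    exact ⟨Z, hZ.trans hle, h⟩
  by_cases h1 : ∃ v ∈ U₁, ∃ a : F[X], β (aeval (trT g 0) (p ^ (e - 1) * a) v) (g v) ≠ 0
  · obtain ⟨v, hv, a, ha⟩ := h1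
    exact piece_of_free hβ hg hU₁ hp hkill hv ha
  push Not at h1
  set S := trT g (0 : F)
  set c := p ^ (e - 1) with hc
  have hsym : ∀ (f : F[X]) (z : V), aeval S f (g.symm z) = g.symm (aeval S f z) := fun f z => by
    rw [eq_comm, g.symm_apply_eq, ← aeval_comm, g.apply_symm_apply]
  have hDc : ∀ w ∈ U₁, aeval S c (g w - g.symm w) = 0 := by
    intro w hw
    refine hU₁.nondeg _ (hU₁.aeval_mem _ (U₁.sub_mem (hU₁.map_mem w hw) (hU₁.symm_mem hw)))
      fun v hv => ?_
    have hv1 := h1 v hv 1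
    have hw1 := h1 w hw 1
    have hvw := h1 (v + w) (U₁.add_mem hv hw) 1
    rw [mul_one] at hv1 hw1 hvw
    simp only [map_add, LinearMap.add_apply, hv1, hw1, add_zero, zero_add] at hvw
    rw [map_sub, hsym, LinearMap.map_sub₂, hg.symm_left, aeval_comm, ← hβ.neg_eq v (g (aeval S c w)),
      ← aeval_comm, ← aeval_adj hg]
    linear_combination -hvw
  have hD2 : p ∣ X ^ 2 - C (4 : F) := by
    have hkillq : ∀ w ∈ U₁, aeval S (c * (X ^ 2 - C (4 : F))) w = 0 := fun w hw => by
      rw [← aeval_aeval, show aeval S (X ^ 2 - C (4 : F)) w =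
        g (g w - g.symm w) - g.symm (g w - g.symm w) by
          simp [S, pow_two, Algebra.algebraMap_eq_smul_one]; module]
      exact hDc _ (U₁.sub_mem (hU₁.map_mem w hw) (hU₁.symm_mem hw))
    have hdvd : p ^ e ∣ c * (X ^ 2 - C (4 : F)) := by
      by_contra hd
      obtain ⟨b, w, hbw⟩ := exists_mul_eq_socle hp hd 1
      obtain ⟨z, hz, hzne⟩ := hlow
      refine hzne ?_
      have e1 : aeval S (b * (c * (X ^ 2 - C (4 : F)))) z = 0 := by
        rw [← aeval_aeval, hkillq z hz, map_zero]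
      rwa [hbw, mul_one, map_add, LinearMap.add_apply, ← aeval_aeval S w, hkill z hz, map_zero,
        add_zero] at e1
    rw [hc, show p ^ e = p ^ (e - 1) * p by rw [← pow_succ]; congr 1; omega] at hdvd
    exact (mul_dvd_mul_iff_left (pow_ne_zero _ hp.ne_zero)).mp hdvd
  obtain ⟨ε, hε, hpε⟩ : ∃ ε : F, (ε = 1 ∨ ε = -1) ∧ p = X - C (2 * ε) := by
    have e4 : X ^ 2 - C (4 : F) = (X - C (2 * 1)) * (X - C (2 * (-1))) := by
      rw [show (4 : F) = 2 * 2 by norm_num]
      simp only [map_mul, mul_one, mul_neg, map_neg]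
      ring
    rw [e4] at hD2
    rcases hp.prime.dvd_or_dvd hD2 with h | h
    · exact ⟨1, Or.inl rfl, eq_of_monic_of_associated hpm (monic_X_sub_C _)
        (hp.associated_of_dvd (irreducible_X_sub_C _) h)⟩
    · exact ⟨-1, Or.inr rfl, eq_of_monic_of_associated hpm (monic_X_sub_C _)
        (hp.associated_of_dvd (irreducible_X_sub_C _) h)⟩
  have hεε : ε * ε = 1 := by rcases hε with rfl | rfl <;> simp
  set T := trT g (2 * ε)
  have hpT : ∀ (n : ℕ) (z : V), aeval S (p ^ n) z = (T ^ n) z := fun n z => by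
    rw [map_pow, hpε, trT_shift]
  have hkT : ∀ z ∈ U₁, (T ^ e) z = 0 := fun z hz => by rw [← hpT]; exact hkill z hz
  have hDT : ∀ z ∈ U₁, (T ^ (e - 1)) (g z - g.symm z) = 0 := fun z hz => by
    rw [← hpT]; exact hDc z hz
  obtain ⟨z₀, hz₀, hz₀ne⟩ := hlow
  rw [hpT] at hz₀ne
  obtain ⟨x, hx, y, hy, hφ⟩ : ∃ x ∈ U₁, ∃ y ∈ U₁, β ((T ^ (e - 1)) x) y ≠ 0 := by
    by_contra hcon
    push Not at hcon
    exact hz₀ne (hU₁.nondeg _ (hU₁.pow_mem _ hz₀) fun y hy => hcon z₀ hz₀ y hy)
  by_cases h2 : (2 : F) = 0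
  · have hε1 : ε = 1 := by
      rcases hε with rfl | rfl
      · rfl
      · linear_combination -h2
    subst hε1
    by_cases h3 : ∀ z ∈ U₁, (T ^ (e - 1)) (g z - (1 : F) • z) = 0
    · have L : Layer β g (1 : F) U₁ e := ⟨hεε, hU₁, he, hkT, h3⟩
      exact ⟨pairSpan g 1 x y, L.pairSpan_le hx hy, fun hbot => hφ (by
        have : x ∈ pairSpan g (1 : F) x y :=
          Submodule.mem_sup_left (Submodule.mem_sup_left (self_mem_kspan T x))
        rw [hbot, Submodule.mem_bot] at this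
        simp [this]), L.good_pair hβ hg hx hy hφ, Or.inl (L.gauss_pair hβ hg hx hy hφ)⟩
    push Not at h3
    obtain ⟨w, hw, hwne⟩ := h3
    rw [one_smul] at hwne
    obtain ⟨x₀, hx₀, hne₀⟩ : ∃ x₀ ∈ U₁, β ((T ^ (e - 1)) x₀) (g w - w) ≠ 0 := by
      by_contra hcon
      push Not at hcon
      refine hwne (hU₁.nondeg _ (hU₁.pow_mem _ (U₁.sub_mem (hU₁.map_mem w hw) hw)) fun v hv => ?_)
      rw [← hβ.neg_eq, ← pow_adj hg, hcon v hv, neg_zero]
    refine piece_of_two hβ hg h2 hU₁ he hkT (fun z hz => ?_) hx₀ hw hne₀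
    have := h1 z hz 1
    rwa [mul_one, hpT] at this
  have h4 : (4 : F) * ε ≠ 0 := by
    refine mul_ne_zero ?_ (fun h => by simp [h] at hεε)
    rw [show (4 : F) = 2 * 2 by norm_num]; exact mul_ne_zero h2 h2
  have hkill' : ∀ z ∈ U₁, (T ^ (e - 1)) (g z - ε • z) = 0 := by
    intro z hz
    set w := (T ^ (e - 1)) (g z - ε • z) with hw
    have hgw : g w + ε • w = 0 := by
      have hcomm : ∀ v, (T ^ (e - 1)) (g v) = g ((T ^ (e - 1)) v) := fun v => by
        rw [pow_apply_eq, pow_apply_eq, aeval_comm]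
      rw [hw, ← hcomm, ← map_smul, ← map_add, show g (g z - ε • z) + ε • (g z - ε • z) =
        g (g z - g.symm z) by simp [map_sub, smul_sub, smul_smul, hεε], hcomm, hDT z hz, map_zero]
    have hgw' : g.symm w = -(ε • w) := by
      rw [g.symm_apply_eq, map_neg, map_smul, eq_neg_of_add_eq_zero_left hgw, smul_neg, neg_neg,
        smul_smul, hεε, one_smul]
    have hTw : T w = 0 := by
      rw [hw, ← Module.End.mul_apply, ← pow_succ', show e - 1 + 1 = e by omega]
      exact hkT _ (U₁.sub_mem (hU₁.map_mem z hz) (U₁.smul_mem _ hz))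
    simp only [T, trT_apply, hgw', eq_neg_of_add_eq_zero_left hgw] at hTw
    have h5 : ((4 : F) * ε) • w = 0 := by linear_combination (norm := module) (-1 : F) • hTw
    exact (smul_eq_zero.mp h5).resolve_left h4
  have L : Layer β g ε U₁ e := ⟨hεε, hU₁, he, hkT, hkill'⟩
  rcases hε with rfl | rfl
  · exact ⟨pairSpan g 1 x y, L.pairSpan_le hx hy, fun hbot => hφ (by
      have : x ∈ pairSpan g (1 : F) x y :=
        Submodule.mem_sup_left (Submodule.mem_sup_left (self_mem_kspan T x))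
      rw [hbot, Submodule.mem_bot] at this
      simp [this]), L.good_pair hβ hg hx hy hφ, Or.inl (L.gauss_pair hβ hg hx hy hφ)⟩
  · exact piece_of_minus hβ hg L h2 hx hy hφ

/-- A good subspace is Gauss for `1` or contains a good odd pair. -/
theorem gauss_or_exists_oddPair (hβ : β.IsAlt) (hg : Isom β g) {U : Submodule F V}
    (hU : Good β g U) :
    GaussOn β g 1 U ∨ ∃ Z ≤ U, OddPair β g Z ∧ Good β g Z ∧ Z ≠ ⊥ := by
  induction hn : Module.finrank F U using Nat.strong_induction_on generalizing U with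
  | _ n ih =>
    by_cases hne : U = ⊥
    · subst hne
      exact Or.inl ⟨⊥, ⊥, fun x hx y _ => by simp [(Submodule.mem_bot F).mp hx],
        fun x hx y _ => by simp [(Submodule.mem_bot F).mp hx], inf_idem ⊥, sup_idem ⊥,
        fun w hw => by simp [(Submodule.mem_bot F).mp hw]⟩
    obtain ⟨P, hPU, hP0, hP, hGP | hOP⟩ := exists_piece hβ hg hU hne
    swap
    · exact Or.inr ⟨P, hPU, hOP, hP, hP0⟩
    obtain ⟨hC, hdis, hsup⟩ := hU.compl_good hβ hg hP hPU
    have hlt : compl β U P < U := lt_of_le_of_ne inf_le_left fun heq => hP0 (by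
      rw [heq, inf_eq_left.mpr hPU] at hdis
      exact hdis)
    rcases ih _ (hn ▸ Submodule.finrank_lt_finrank_of_lt hlt) hC rfl with hG | ⟨Z, hZ, hO, hgood, h0⟩
    · refine Or.inl ?_
      rw [← hsup]
      exact hGP.sup hβ hG hdis fun x hx y hy => (mem_compl.mp hy).2 x hx
    · exact Or.inr ⟨Z, hZ.trans inf_le_left, hO, hgood, h0⟩

end CfsgLib.SpOre
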