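import Cfsg.Agent.Lib.SpOre.Basic

/-!
A product lower unipotent times `ε` times upper unipotent in the symplectic group is a commutator as
soon as the Levi factor has an element without fixed points on both Siegel radicals.
-/

set_option autoImplicit false
set_option linter.style.haveILetI false
set_option linter.unusedSectionVars false

namespace CfsgLib.SpOre

open Matrix Polynomial

variable {F : Type*} [Field F] {ι : Type*} [Fintype ι] [DecidableEq ι]

/-- An element `a` of the Levi factor without fixed points on both radicals, and `b` moving it to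
`ε • a`. -/
def Frame (F : Type*) [Field F] (ι : Type*) [Fintype ι] [DecidableEq ι] (ε : F) : Prop :=
  ∃ (a c b b' : Matrix ι ι F) (f : F[X]),
    a * c = 1 ∧ b * b' = 1 ∧ b * a = ε • (a * b) ∧ aeval a f = 0 ∧ IsUnit (aeval c f)

theorem aeval_intertwine {M N X : Matrix ι ι F} (h : M * X = X * N) (f : F[X]) :
    aeval M f * X = X * aeval N f := by
  induction f using Polynomial.induction_on' with
  | add p q hp hq => simp [add_mul, mul_add, hp, hq]
  | monomial k r =>
    have hk : M ^ k * X = X * N ^ k := by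
      induction k with
      | zero => simp
      | succ k ih => rw [pow_succ, mul_assoc, h, ← mul_assoc, ih, mul_assoc, ← pow_succ]
    simp only [aeval_monomial, Algebra.algebraMap_eq_smul_one, smul_mul_assoc, one_mul, mul_smul_comm,
      hk]

theorem aeval_transpose (M : Matrix ι ι F) (f : F[X]) : aeval Mᵀ f = (aeval M f)ᵀ := by
  induction f using Polynomial.induction_on' with
  | add p q hp hq => simp [hp, hq]
  | monomial k r =>
    simp [aeval_monomial, Algebra.algebraMap_eq_smul_one, transpose_pow, transpose_smul]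

/-- Every matrix `L * ε * U` is a commutator, given a frame. -/
theorem exists_comm_of_blocks [Finite F] {ε : F} (hε : ε * ε = 1) (hF : Frame F ι ε)
    (B C : Matrix ι ι F) (hB : Bᵀ = B) (hC : Cᵀ = C) :
    ∃ P Q : Matrix.symplecticGroup ι F,
      ((P * Q * P⁻¹ * Q⁻¹ : Matrix.symplecticGroup ι F) : Matrix (ι ⊕ ι) (ι ⊕ ι) F) =
        fromBlocks 1 0 C 1 * (ε • 1) * fromBlocks 1 B 0 1 := by
  classical
  obtain ⟨a, c, b, b', f, hac, hbb, hba, hfa, hfc⟩ := hF
  have hca : c * a = 1 := mul_eq_one_comm.mp hac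
  have hbb' : b' * b = 1 := mul_eq_one_comm.mp hbb
  have hcb : c * b' = ε • (b' * c) := by
    have h1 : b' * a = ε • (a * b') := by
      have h := congrArg (fun M => b' * M * b') hba
      simp only [Matrix.mul_smul, Matrix.smul_mul, ← mul_assoc, hbb', one_mul] at h
      rw [mul_assoc (b' * a), hbb, mul_one] at h
      rw [h, smul_smul, hε, one_smul]
    have h := congrArg (fun M => c * M * c) h1
    simp only [Matrix.mul_smul, Matrix.smul_mul, ← mul_assoc, hca, one_mul] at h
    rw [mul_assoc (c * b'), hac, mul_one] at h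
    exact h
  -- elements of the group
  have hlow : ∀ S : Matrix ι ι F, Sᵀ = S → fromBlocks 1 0 S 1 ∈ Matrix.symplecticGroup ι F := by
    intro S hS
    simp [SymplecticGroup.mem_iff, J, fromBlocks_transpose, fromBlocks_multiply, hS]
  have hup : ∀ S : Matrix ι ι F, Sᵀ = S → fromBlocks 1 S 0 1 ∈ Matrix.symplecticGroup ι F := by
    intro S hS
    simp [SymplecticGroup.mem_iff, J, fromBlocks_transpose, fromBlocks_multiply, hS]
  have hdia : ∀ x y : Matrix ι ι F, x * y = 1 → fromBlocks x 0 0 yᵀ ∈ Matrix.symplecticGroup ι F := by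
    intro x y h
    simp [SymplecticGroup.mem_iff, J, fromBlocks_transpose, fromBlocks_multiply, h, ← transpose_mul]
  -- surjectivity on symmetric matrices
  have surj : ∀ (u : Matrix ι ι F), (∀ X : Matrix ι ι F, uᵀ * X * u = X → X = 0) →
      ∀ S : Matrix ι ι F, Sᵀ = S → ∃ T : Matrix ι ι F, Tᵀ = T ∧ T - uᵀ * T * u = S := by
    intro u hu S hS
    have : Finite (Matrix ι ι F) := Matrix.instFinite F
    let φ : {T : Matrix ι ι F // Tᵀ = T} → {T : Matrix ι ι F // Tᵀ = T} := fun T =>
      ⟨T.1 - uᵀ * T.1 * u, by simp [transpose_sub, transpose_mul, T.2, mul_assoc]⟩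
    have hinj : Function.Injective φ := fun T T' h => by
      have h' := congrArg Subtype.val h
      apply Subtype.ext
      rw [← sub_eq_zero]
      apply hu
      rw [mul_sub, sub_mul]
      simp only [φ] at h'
      rw [sub_eq_sub_iff_sub_eq_sub] at h'
      exact h'.symm
    obtain ⟨T, hT⟩ := Finite.injective_iff_surjective.mp hinj ⟨S, hS⟩
    exact ⟨T.1, T.2, congrArg Subtype.val hT⟩
  have hu1 : ∀ X : Matrix ι ι F, cᵀ * X * c = X → X = 0 := by
    intro X hX
    have h : cᵀ * X = X * a := by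
      conv_rhs => rw [← hX]
      rw [mul_assoc _ c a, hca, mul_one]
    have h2 := aeval_intertwine h f
    rw [hfa, mul_zero, aeval_transpose] at h2
    exact (((Matrix.isUnit_transpose _).mpr hfc).mul_right_eq_zero).mp h2
  have hu2 : ∀ X : Matrix ι ι F, cᵀᵀ * X * cᵀ = X → X = 0 := by
    intro X hX
    rw [transpose_transpose] at hX
    have h : c * X = X * aᵀ := by
      conv_rhs => rw [← hX]
      rw [mul_assoc _ cᵀ aᵀ, ← transpose_mul, hac, transpose_one, mul_one]
    have h2 := aeval_intertwine h f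
    rw [aeval_transpose a, hfa, transpose_zero, mul_zero] at h2
    exact (hfc.mul_right_eq_zero).mp h2
  obtain ⟨S, hS, hSC⟩ := surj c hu1 C hC
  obtain ⟨R, hR, hRB⟩ := surj cᵀ hu2 B hB
  rw [transpose_transpose] at hRB
  have hεI : (ε • (1 : Matrix (ι ⊕ ι) (ι ⊕ ι) F)) ∈ Matrix.symplecticGroup ι F := by
    simp [SymplecticGroup.mem_iff, smul_smul, hε]
  let h : Matrix.symplecticGroup ι F := ⟨_, hdia a c hac⟩
  let hc : Matrix.symplecticGroup ι F := ⟨_, hdia c a hca⟩
  let z : Matrix.symplecticGroup ι F := ⟨_, hεI⟩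
  let s : Matrix.symplecticGroup ι F := ⟨_, hlow S hS⟩
  let r : Matrix.symplecticGroup ι F := ⟨_, hup R hR⟩
  let d : Matrix.symplecticGroup ι F := ⟨_, hdia b b' hbb⟩
  let l : Matrix.symplecticGroup ι F := ⟨_, hlow C hC⟩
  let u : Matrix.symplecticGroup ι F := ⟨_, hup B hB⟩
  have hh : h⁻¹ = hc := inv_eq_of_mul_eq_one_right (Subtype.ext (by
    simp [h, hc, fromBlocks_multiply, hac, hca, ← transpose_mul]))
  have e1 : l * (h * s) = s * h := Subtype.ext (by
    simp only [h, s, l, Submonoid.coe_mul, fromBlocks_multiply]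
    simp only [mul_one, one_mul, Matrix.mul_zero, Matrix.zero_mul, add_zero, zero_add]
    congr 1
    rw [← hSC, sub_mul, mul_assoc (cᵀ * S) c a, hca, mul_one, sub_add_cancel])
  have e2 : u * (hc * r) = r * hc := Subtype.ext (by
    simp only [hc, r, u, Submonoid.coe_mul, fromBlocks_multiply]
    simp only [mul_one, one_mul, Matrix.mul_zero, Matrix.zero_mul, add_zero, zero_add]
    congr 1
    rw [← hRB, sub_mul, mul_assoc (c * R) cᵀ aᵀ, ← transpose_mul, hac, transpose_one, mul_one,
      add_sub_cancel])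
  have e3 : d * h = z * (h * d) := Subtype.ext (by
    simp only [d, h, z, Submonoid.coe_mul, fromBlocks_multiply, smul_mul_assoc, one_mul,
      fromBlocks_smul, Matrix.mul_zero, Matrix.zero_mul, add_zero, zero_add, smul_zero, hba]
    congr 1
    rw [← transpose_mul, ← transpose_mul, hcb, transpose_smul])
  have hz : ∀ x : Matrix.symplecticGroup ι F, z * x = x * z := fun x => Subtype.ext (by
    simp [z])
  have hz2 : z * z = 1 := Subtype.ext (by simp [z, smul_smul, hε])
  have hzi : z⁻¹ = z := inv_eq_of_mul_eq_one_right hz2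
  have l_eq : l = s * h * s⁻¹ * h⁻¹ := by
    rw [← e1]; group
  have u_eq : u = r * h⁻¹ * r⁻¹ * h := by
    rw [← hh] at e2; rw [← e2]; group
  have d_eq : d * h⁻¹ * d⁻¹ = z * h⁻¹ := by
    calc d * h⁻¹ * d⁻¹ = (d * h * d⁻¹)⁻¹ := by group
      _ = (z * h)⁻¹ := by rw [e3]; group
      _ = z * h⁻¹ := by rw [_root_.mul_inv_rev, hzi, ← hz]
  refine ⟨s * h * s⁻¹, s * (s⁻¹ * h⁻¹ * r * d) * s⁻¹, ?_⟩
  have key : s * h * s⁻¹ * (s * (s⁻¹ * h⁻¹ * r * d) * s⁻¹) * (s * h * s⁻¹)⁻¹ *
      (s * (s⁻¹ * h⁻¹ * r * d) * s⁻¹)⁻¹ = l * z * u := by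
    calc s * h * s⁻¹ * (s * (s⁻¹ * h⁻¹ * r * d) * s⁻¹) * (s * h * s⁻¹)⁻¹ *
          (s * (s⁻¹ * h⁻¹ * r * d) * s⁻¹)⁻¹
        = (s * h * s⁻¹ * h⁻¹) * (r * (d * h⁻¹ * d⁻¹) * r⁻¹ * h) := by group
      _ = (s * h * s⁻¹ * h⁻¹) * (z * (r * h⁻¹ * r⁻¹ * h)) := by
          rw [d_eq, ← mul_assoc r z, ← hz r]; group
      _ = l * z * u := by rw [l_eq, u_eq, mul_assoc _ z]
  rw [key]
  rfl

end CfsgLib.SpOre
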