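import Cfsg.Agent.Lib.SpOre.Adjoint

/-!
An isometry with `(g - ε)` of odd nilpotency index on two cyclic subspaces pairing perfectly: a Gauss
product for `ε = 1`, and an odd pair for `ε = -1` in odd characteristic.
-/

set_option autoImplicit false
set_option linter.style.haveILetI false
set_option linter.unusedSectionVars false

namespace CfsgLib.SpOre

open Polynomial

variable {F V : Type*} [Field F] [AddCommGroup V] [Module F V] [FiniteDimensional F V]
variable {β : LinearMap.BilinForm F V} {g : V ≃ₗ[F] V} {U : Submodule F V} {e : ℕ}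

theorem sq_apply {ε : F} (hε : ε * ε = 1) (z : V) :
    g (g z - ε • z) - ε • (g z - ε • z) = g (trT g (2 * ε) z) := by
  simp only [trT_apply, map_sub, map_add, map_smul, smul_sub, smul_smul, hε, g.apply_symm_apply]
  match_scalars <;> ring

theorem shift_adj (hg : Isom β g) {ε : F} (hε : ε * ε = 1) (u w : V) :
    β (g u - ε • u) (g w - ε • w) = -(ε * β (trT g (2 * ε) u) w) := by
  simp only [trT_apply, map_sub, map_add, map_smul, LinearMap.sub_apply, LinearMap.add_apply,
    LinearMap.smul_apply, hg.symm_left, hg u w, smul_eq_mul]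
  linear_combination (-β u w) * hε

theorem shift_comm {c ε : F} (a : F[X]) (z : V) :
    aeval (trT g c) a (g z - ε • z) = g (aeval (trT g c) a z) - ε • aeval (trT g c) a z := by
  rw [map_sub, map_smul, aeval_comm]

/-- The hypotheses common to both cases. -/
structure Layer (β : LinearMap.BilinForm F V) (g : V ≃ₗ[F] V) (ε : F) (U : Submodule F V) (e : ℕ) :
    Prop where
  sq : ε * ε = 1
  good : Good β g U
  one_le : 1 ≤ e
  kill : ∀ x ∈ U, (trT g (2 * ε) ^ e) x = 0
  kill' : ∀ x ∈ U, (trT g (2 * ε) ^ (e - 1)) (g x - ε • x) = 0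

variable {ε : F}

theorem Layer.kill_ge (h : Layer β g ε U e) {x : V} (hx : x ∈ U) {i : ℕ} (hi : e ≤ i) :
    (trT g (2 * ε) ^ i) x = 0 := by
  rw [← Nat.sub_add_cancel hi, pow_add_apply, h.kill x hx, map_zero]

theorem Layer.shift_mem (h : Layer β g ε U e) {x : V} (hx : x ∈ U) : g x - ε • x ∈ U :=
  U.sub_mem (h.good.map_mem x hx) (U.smul_mem _ hx)

theorem Layer.top (h : Layer β g ε U e) {x : V} (hx : x ∈ U) (a : F[X]) :
    (trT g (2 * ε) ^ (e - 1)) (aeval (trT g (2 * ε)) a x) =
      a.coeff 0 • (trT g (2 * ε) ^ (e - 1)) x := by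
  rw [aeval_split, map_add, map_smul, ← Module.End.mul_apply, ← pow_succ,
    h.kill_ge (h.good.aeval_mem _ hx) (by omega), add_zero]

theorem Layer.top_shift (h : Layer β g ε U e) {x : V} (hx : x ∈ U) (a : F[X]) :
    (trT g (2 * ε) ^ (e - 1)) (aeval (trT g (2 * ε)) a (g x - ε • x)) = 0 := by
  rw [shift_comm]
  exact h.kill' _ (h.good.aeval_mem _ hx)

/-- The span of `x`, `y` and their images, over the polynomials in `g + g⁻¹`. -/
noncomputable def pairSpan (g : V ≃ₗ[F] V) (ε : F) (x y : V) : Submodule F V :=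
  (kspan (trT g (2 * ε)) x ⊔ kspan (trT g (2 * ε)) (g x - ε • x)) ⊔
    (kspan (trT g (2 * ε)) y ⊔ kspan (trT g (2 * ε)) (g y - ε • y))

theorem Layer.pairSpan_le (h : Layer β g ε U e) {x y : V} (hx : x ∈ U) (hy : y ∈ U) :
    pairSpan g ε x y ≤ U := by
  have hT : ∀ z ∈ U, trT g (2 * ε) z ∈ U := fun z hz => by
    simpa using h.good.aeval_mem (c := 2 * ε) (X : F[X]) hz
  exact sup_le (sup_le (kspan_le hT hx) (kspan_le hT (h.shift_mem hx)))
    (sup_le (kspan_le hT hy) (kspan_le hT (h.shift_mem hy)))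

theorem mem_pair {R : Module.End F V} {v w z : V} :
    z ∈ kspan R v ⊔ kspan R w ↔ ∃ a b : F[X], aeval R a v + aeval R b w = z := by
  constructor
  · intro hz
    obtain ⟨p, hp, q, hq, rfl⟩ := Submodule.mem_sup.mp hz
    obtain ⟨a, rfl⟩ := mem_kspan.mp hp
    obtain ⟨b, rfl⟩ := mem_kspan.mp hq
    exact ⟨a, b, rfl⟩
  · rintro ⟨a, b, rfl⟩
    exact Submodule.add_mem_sup (aeval_mem_kspan R v a) (aeval_mem_kspan R w b)

theorem map_mem_cyclic (hε : ε * ε = 1) (v : V) :
    ∀ z ∈ kspan (trT g (2 * ε)) v ⊔ kspan (trT g (2 * ε)) (g v - ε • v),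
      g z ∈ kspan (trT g (2 * ε)) v ⊔ kspan (trT g (2 * ε)) (g v - ε • v) := by
  set T := trT g (2 * ε)
  have h1 : ∀ a : F[X], g (aeval T a v) ∈ kspan T v ⊔ kspan T (g v - ε • v) := fun a => by
    rw [show g (aeval T a v) = ε • aeval T a v + aeval T a (g v - ε • v) by
      rw [shift_comm]; abel]
    exact Submodule.add_mem_sup (Submodule.smul_mem _ _ (aeval_mem_kspan T v a))
      (aeval_mem_kspan T _ a)
  intro z hz
  obtain ⟨a, b, rfl⟩ := mem_pair.mp hz
  rw [map_add]
  refine Submodule.add_mem _ (h1 a) ?_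
  rw [← aeval_comm, show g (g v - ε • v) = ε • (g v - ε • v) + g (T v) by rw [← sq_apply hε]; abel,
    map_add, map_smul, aeval_comm b (T v), show aeval T b (T v) = aeval T (b * X) v by
      rw [← aeval_aeval, aeval_X]]
  exact Submodule.add_mem _ (Submodule.mem_sup_right (Submodule.smul_mem _ _ (aeval_mem_kspan T _ b)))
    (h1 _)

/-- Two vectors pairing on the socle span a good subspace. -/
theorem Layer.good_pair (hβ : β.IsAlt) (hg : Isom β g) (h : Layer β g ε U e) {x y : V} (hx : x ∈ U)
    (hy : y ∈ U) (hφ : β ((trT g (2 * ε) ^ (e - 1)) x) y ≠ 0) : Good β g (pairSpan g ε x y) := by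
  refine ⟨fun z hz => ?_, fun z hz horth => ?_⟩
  · obtain ⟨p, hp, q, hq, rfl⟩ := Submodule.mem_sup.mp hz
    rw [map_add]
    exact Submodule.add_mem_sup (map_mem_cyclic h.sq x p hp) (map_mem_cyclic h.sq y q hq)
  set T := trT g (2 * ε)
  set x₁ := g x - ε • x
  set y₁ := g y - ε • y
  have hε0 : ε ≠ 0 := fun e0 => by simpa [e0] using h.sq
  have hφ' : β ((T ^ (e - 1)) y) x ≠ 0 := by
    rw [pow_adj hg, ← hβ.neg_eq]
    exact neg_ne_zero.mpr hφ
  have hself : ∀ v, β ((T ^ (e - 1)) v) v = 0 := fun v => by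
    rw [pow_apply_eq]; exact aeval_self hβ hg _ v
  have hmem : ∀ {v : V}, v ∈ kspan T x ∨ v ∈ kspan T x₁ ∨ v ∈ kspan T y ∨ v ∈ kspan T y₁ →
      v ∈ pairSpan g ε x y := by
    rintro v (hv | hv | hv | hv)
    exacts [Submodule.mem_sup_left (Submodule.mem_sup_left hv),
      Submodule.mem_sup_left (Submodule.mem_sup_right hv),
      Submodule.mem_sup_right (Submodule.mem_sup_left hv),
      Submodule.mem_sup_right (Submodule.mem_sup_right hv)]
  have key : ∀ i ≤ e, ∃ a b a' b' : F[X],
      z = (T ^ i) (aeval T a x + aeval T b x₁ + (aeval T a' y + aeval T b' y₁)) := by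
    intro i
    induction i with
    | zero =>
      intro _
      obtain ⟨p, hp, q, hq, rfl⟩ := Submodule.mem_sup.mp hz
      obtain ⟨a, b, rfl⟩ := mem_pair.mp hp
      obtain ⟨a', b', rfl⟩ := mem_pair.mp hq
      exact ⟨a, b, a', b', by simp [x₁, y₁, T]⟩
    | succ i ih =>
      intro hi
      obtain ⟨a, b, a', b', he⟩ := ih (by omega)
      set z' := aeval T a x + aeval T b x₁ + (aeval T a' y + aeval T b' y₁)
      have htop : (T ^ (e - 1)) z' =
          a.coeff 0 • (T ^ (e - 1)) x + a'.coeff 0 • (T ^ (e - 1)) y := by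
        simp only [z', map_add]
        rw [h.top hx, h.top hy, h.top_shift hx, h.top_shift hy, add_zero, add_zero]
      have hpair : ∀ v : V, (T ^ (e - 1 - i)) v ∈ pairSpan g ε x y → β ((T ^ (e - 1)) z') v = 0 :=
        fun v hv => by
          rw [show e - 1 = (e - 1 - i) + i by omega, pow_add_apply, pow_adj hg, ← he]
          exact horth _ hv
      have hTk : ∀ (n : ℕ) (v : V), (T ^ n) v ∈ kspan T v := fun n v => by
        rw [pow_apply_eq]; exact aeval_mem_kspan T v _
      have ha : a.coeff 0 = 0 := by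
        have h1 := hpair y (hmem (Or.inr (Or.inr (Or.inl (hTk _ y)))))
        rw [htop, map_add, map_smul, map_smul, LinearMap.add_apply, LinearMap.smul_apply,
          LinearMap.smul_apply, hself, smul_zero, add_zero] at h1
        exact (mul_eq_zero.mp h1).resolve_right hφ
      have ha' : a'.coeff 0 = 0 := by
        have h1 := hpair x (hmem (Or.inl (hTk _ x)))
        rw [htop, map_add, map_smul, map_smul, LinearMap.add_apply, LinearMap.smul_apply,
          LinearMap.smul_apply, hself, smul_zero, zero_add] at h1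
        exact (mul_eq_zero.mp h1).resolve_right hφ'
      have hdiv : ∀ (p : F[X]) (v : V), p.coeff 0 = 0 →
          aeval T p v = T (aeval T p.divX v) := fun p v hp => by
        rw [aeval_split, hp, zero_smul, zero_add]
      by_cases hlast : i + 1 = e
      · refine ⟨0, 0, 0, 0, ?_⟩
        rw [he, show i = e - 1 by omega, htop, ha, ha']
        simp
      have hb : b.coeff 0 = 0 ∧ b'.coeff 0 = 0 := by
        have hsh : ∀ (v : V) (p : F[X]) (w : V), v ∈ U →
            β ((T ^ (e - 2)) (aeval T p (g v - ε • v))) (g w - ε • w) =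
              -(ε * (p.coeff 0 * β ((T ^ (e - 1)) v) w)) := by
          intro v p w hv
          rw [pow_apply_eq T (e - 2), aeval_aeval, shift_comm, shift_adj hg h.sq, ← aeval_aeval,
            ← pow_apply_eq, ← Module.End.mul_apply, ← pow_succ', show e - 2 + 1 = e - 1 by omega,
            h.top hv, map_smul, LinearMap.smul_apply, smul_eq_mul]
        have hX : ∀ (v : V) (p : F[X]) (w : V), v ∈ U → w ∈ U → p.coeff 0 = 0 →
            β ((T ^ (e - 2)) (aeval T p v)) (g w - ε • w) = 0 := by
          intro v p w hv hw hp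
          rw [hdiv p v hp, ← Module.End.mul_apply, ← pow_succ, show e - 2 + 1 = e - 1 by omega,
            pow_adj hg, h.kill' w hw, map_zero]
        have hpair2 : ∀ v : V, (T ^ (e - 2 - i)) v ∈ pairSpan g ε x y →
            β ((T ^ (e - 2)) z') v = 0 := fun v hv => by
          rw [show e - 2 = (e - 2 - i) + i by omega, pow_add_apply, pow_adj hg, ← he]
          exact horth _ hv
        constructor
        · have h1 := hpair2 y₁ (hmem (Or.inr (Or.inr (Or.inr (hTk _ _)))))
          simp only [z', map_add, LinearMap.add_apply] at h1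
          rw [hX x a y hx hy ha, hX y a' y hy hy ha', hsh x b y hx, hsh y b' y hy, hself] at h1
          simpa [hε0, hφ] using h1
        · have h1 := hpair2 x₁ (hmem (Or.inr (Or.inl (hTk _ _))))
          simp only [z', map_add, LinearMap.add_apply] at h1
          rw [hX x a x hx hx ha, hX y a' x hy hx ha', hsh x b x hx, hsh y b' x hy, hself] at h1
          simpa [hε0, hφ'] using h1
      refine ⟨a.divX, b.divX, a'.divX, b'.divX, ?_⟩
      rw [he, pow_succ, Module.End.mul_apply]
      congr 1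
      simp only [z', map_add, ← hdiv a x ha, ← hdiv b x₁ hb.1, ← hdiv a' y ha', ← hdiv b' y₁ hb.2]
  obtain ⟨a, b, a', b', rfl⟩ := key e le_rfl
  refine h.kill _ (U.add_mem (U.add_mem ?_ ?_) (U.add_mem ?_ ?_))
  exacts [h.good.aeval_mem _ hx, h.good.aeval_mem _ (h.shift_mem hx), h.good.aeval_mem _ hy,
    h.good.aeval_mem _ (h.shift_mem hy)]

/-- For `ε = 1` the pair is a Gauss product. -/
theorem Layer.gauss_pair (hβ : β.IsAlt) (hg : Isom β g) (h : Layer β g (1 : F) U e) {x y : V}
    (hx : x ∈ U) (hy : y ∈ U) (hφ : β ((trT g (2 * 1) ^ (e - 1)) x) y ≠ 0) :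
    GaussOn β g 1 (pairSpan g 1 x y) := by
  set T := trT g (2 * (1 : F))
  have he1 := h.one_le
  set x₁ := g x - (1 : F) • x with hx₁
  set y₁ := g y - (1 : F) • y with hy₁
  obtain ⟨u, hu⟩ := exists_coeff hg (z := y₁) (fun i hi => h.kill_ge hx hi) hφ
  have hu0 : u.coeff 0 = 0 := by
    have h1 := hu (X ^ (e - 1))
    rw [← pow_apply_eq, pow_adj hg, pow_adj hg, h.kill' y hy, h.top hy, map_zero, map_smul,
      smul_eq_mul, ← pow_adj hg] at h1
    exact (mul_eq_zero.mp h1.symm).resolve_right hφ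
  set w := u.divX
  have huw : u = X * w := by
    conv_lhs => rw [← X_mul_divX_add u, hu0, C_0, add_zero]
  set y₂ := y₁ - aeval T u y
  set d := β x₁ (g y - aeval T w y₁) / β ((T ^ (e - 1)) x) y
  set y₃ := g y - aeval T w y₁ + d • (T ^ (e - 2)) y₁
  have hTy₃ : T y₃ = g y₂ - (1 : F) • y₂ := by
    have h2 : T ((T ^ (e - 2)) y₁) = 0 := by
      rw [← Module.End.mul_apply, ← pow_succ']
      by_cases he : e = 1
      · subst he
        exact h.kill y₁ (h.shift_mem hy)
      · rw [show e - 2 + 1 = e - 1 by omega]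
        exact h.kill' y hy
    have h3 : T (g y) = g (T y) := by simp [T, map_add, map_sub, map_smul]
    simp only [y₃, map_add, map_sub, map_smul, h2, h3, smul_zero, add_zero]
    rw [show g y₂ - (1 : F) • y₂ = (g y₁ - (1 : F) • y₁) -
      (g (aeval T u y) - (1 : F) • aeval T u y) by simp only [y₂, map_sub, smul_sub]; abel,
      sq_apply h.sq, ← shift_comm, huw, ← aeval_aeval, aeval_X]
  have hsh : ∀ (a : F[X]) (v : V), aeval T a (g v - (1 : F) • v) =
      g (aeval T a v) - (1 : F) • aeval T a v := fun a v => shift_comm a v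
  have hW' : Isotropic β (kspan T x₁ ⊔ kspan T y₃) := by
    refine isotropic_kspan_sup hβ hg fun a => ?_
    change β (aeval T a x₁) y₃ = 0
    have h0 : β x₁ y₃ = 0 := by
      by_cases he : e = 1
      · subst he
        rw [show x₁ = 0 from by simpa [hx₁] using h.kill' x hx]
        simp
      have h1 : β x₁ ((T ^ (e - 2)) y₁) = -β ((T ^ (e - 1)) x) y := by
        rw [hy₁, pow_apply_eq, hsh, hx₁, shift_adj hg h.sq, ← pow_apply_eq, ← pow_adj hg,
          ← Module.End.mul_apply, ← pow_succ, show e - 2 + 1 = e - 1 by omega, one_mul]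
      simp only [y₃, map_add, map_smul, h1, smul_eq_mul, d]
      field_simp
      ring
    rw [aeval_split, LinearMap.map_add₂, LinearMap.map_smul₂, h0, smul_zero,
      zero_add, trT_adj hg, hTy₃, hx₁, hsh, shift_adj hg h.sq, one_mul, neg_eq_zero,
      show T (aeval T a.divX x) = aeval T (X * a.divX) x by rw [← aeval_aeval, aeval_X]]
    simp only [y₂, map_sub]
    exact sub_eq_zero.mpr (hu _)
  have hW : Isotropic β (kspan T x ⊔ kspan T y₂) :=
    isotropic_kspan_sup hβ hg fun a => by simp only [y₂, map_sub]; rw [hu, sub_self]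
  have hxX : ∀ v : V, ∀ a : F[X], aeval T a v ∈ kspan T v := fun v a => aeval_mem_kspan T v a
  have hy₂mem : y₂ ∈ kspan T y ⊔ kspan T y₁ :=
    Submodule.sub_mem _ (Submodule.mem_sup_right (self_mem_kspan T y₁))
      (Submodule.mem_sup_left (hxX _ _))
  set v : F[X] := 1 - w + C d * X ^ (e - 2)
  have hy₃ : y₃ = y + aeval T v y₁ := by
    simp only [y₃, v, hy₁, map_add, map_sub, map_one, map_mul, aeval_C, LinearMap.add_apply,
      LinearMap.sub_apply, Module.End.one_apply, Module.End.mul_apply, ← pow_apply_eq,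
      Algebra.algebraMap_eq_smul_one, LinearMap.smul_apply, one_smul]
    module
  have hinv : ∀ p : V, ∀ z ∈ kspan T x ⊔ kspan T y₂ ⊔ (kspan T x₁ ⊔ kspan T p),
      T z ∈ kspan T x ⊔ kspan T y₂ ⊔ (kspan T x₁ ⊔ kspan T p) := fun p =>
    sup_invariant (sup_invariant (kspan_invariant T x) (kspan_invariant T y₂))
      (sup_invariant (kspan_invariant T x₁) (kspan_invariant T p))
  have hsum : kspan T x ⊔ kspan T y₂ ⊔ (kspan T x₁ ⊔ kspan T y₃) = pairSpan g 1 x y := by
    set S := kspan T x ⊔ kspan T y₂ ⊔ (kspan T x₁ ⊔ kspan T y₃)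
    have hPI : ∀ z ∈ pairSpan g 1 x y, T z ∈ pairSpan g 1 x y :=
      sup_invariant (sup_invariant (kspan_invariant T x) (kspan_invariant T x₁))
        (sup_invariant (kspan_invariant T y) (kspan_invariant T y₁))
    refine le_antisymm ?_ ?_
    · refine sup_le (sup_le ?_ ?_) (sup_le ?_ ?_)
      · exact le_sup_of_le_left le_sup_left
      · exact kspan_le hPI (Submodule.mem_sup_right hy₂mem)
      · exact le_sup_of_le_left le_sup_right
      · refine kspan_le hPI (hy₃ ▸ Submodule.mem_sup_right ?_)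
        exact Submodule.add_mem_sup (self_mem_kspan T y) (hxX _ _)
    have hy₂S : y₂ ∈ S := Submodule.mem_sup_left (Submodule.mem_sup_right (self_mem_kspan T y₂))
    have hy₃S : y₃ ∈ S := Submodule.mem_sup_right (Submodule.mem_sup_right (self_mem_kspan T y₃))
    have hyS : y ∈ S := by
      have h1 : aeval T (1 + X * (w * v)) y ∈ S := by
        have : aeval T (1 + X * (w * v)) y = y₃ - aeval T v y₂ := by
          rw [hy₃, show (1 : F[X]) + X * (w * v) = 1 + v * u by rw [huw]; ring]
          simp only [y₂, map_add, map_one, LinearMap.add_apply, Module.End.one_apply, map_sub,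
            aeval_aeval]
          abel
        rw [this]
        exact S.sub_mem hy₃S (aeval_mem_of_invariant T (hinv y₃) v hy₂S)
      obtain ⟨p, r, hpr⟩ : IsCoprime (X ^ e : F[X]) (1 + X * (w * v)) :=
        (IsCoprime.pow_left ⟨-(w * v), 1, by ring⟩)
      have h2 : y = aeval T r (aeval T (1 + X * (w * v)) y) := by
        conv_lhs => rw [show y = aeval T (1 : F[X]) y by simp, ← hpr]
        rw [map_add, LinearMap.add_apply, ← aeval_aeval, ← aeval_aeval, ← pow_apply_eq,
          h.kill y hy, map_zero, zero_add]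
      rw [h2]
      exact aeval_mem_of_invariant T (hinv y₃) r h1
    have hy₁S : y₁ ∈ S := by
      rw [show y₁ = y₂ + aeval T u y by simp only [y₂]; abel]
      exact S.add_mem hy₂S (aeval_mem_of_invariant T (hinv y₃) u hyS)
    exact sup_le (sup_le (le_sup_of_le_left le_sup_left) (le_sup_of_le_right le_sup_left))
      (sup_le (kspan_le (hinv y₃) hyS) (kspan_le (hinv y₃) hy₁S))
  refine gaussOn_of hβ hW hW' hsum (h.good_pair hβ hg hx hy hφ).nondeg fun z hz => ?_
  obtain ⟨a, b, rfl⟩ := mem_pair.mp hz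
  rw [map_add, smul_add, add_sub_add_comm, ← hsh a x, ← hsh b y₂, ← hTy₃,
    show aeval T b (T y₃) = aeval T (b * X) y₃ by rw [← aeval_aeval, aeval_X]]
  exact Submodule.add_mem_sup (hxX _ _) (hxX _ _)

end CfsgLib.SpOre
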