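import Cfsg.Agent.Lib.SpOre.Odd

/-!
For `ε = -1` in odd characteristic the two cyclic subspaces can be made isotropic: an odd pair.
-/

set_option autoImplicit false
set_option linter.style.haveILetI false
set_option linter.unusedSectionVars false

namespace CfsgLib.SpOre

open Polynomial

variable {F V : Type*} [Field F] [AddCommGroup V] [Module F V] [FiniteDimensional F V]
variable {β : LinearMap.BilinForm F V} {g : V ≃ₗ[F] V} {U : Submodule F V} {e : ℕ}

local notation "T₋" => trT g (2 * (-1))

theorem Layer.kill_diff (h : Layer β g (-1 : F) U e) {z : V} (hz : z ∈ U) {i : ℕ} (hi : e - 1 ≤ i) :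
    (T₋ ^ i) (g z - g.symm z) = 0 := by
  obtain ⟨j, rfl⟩ : ∃ j, i = j + (e - 1) := ⟨i - (e - 1), by omega⟩
  have h2 := h.kill' _ (h.good.symm_mem hz)
  rw [g.apply_symm_apply] at h2
  rw [pow_add_apply, show g z - g.symm z = (g z - (-1 : F) • z) - (z - (-1 : F) • g.symm z) by module,
    map_sub, h.kill' z hz, h2, sub_zero, map_zero]

/-- Replace `x` so that its whole orbit is perpendicular to it, keeping the pairing with `y`. -/
theorem Layer.exists_orbit_isotropic (hβ : β.IsAlt) (hg : Isom β g) (h : Layer β g (-1 : F) U e)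
    (h2 : (2 : F) ≠ 0) {x y : V} (hx : x ∈ U) (hy : y ∈ U)
    (hφ : β ((T₋ ^ (e - 1)) x) y ≠ 0) :
    ∃ x' ∈ U, β ((T₋ ^ (e - 1)) x') y ≠ 0 ∧ ∀ i : ℕ, β ((g ^ i) x') x' = 0 := by
  set T := T₋
  have he1 := h.one_le
  have hDD : ∀ z : V, g (g z - g.symm z) - g.symm (g z - g.symm z) = T (T z - (4 : F) • z) := by
    intro z
    simp [T]
    module
  have hDadj : ∀ u w, β (g u - g.symm u) w = -β u (g w - g.symm w) := fun u w => by
    simp only [map_sub, LinearMap.sub_apply, hg.symm_left, hg.symm_right]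
    ring
  have hcomm : ∀ (n : ℕ) (z : V), (T ^ n) (g z - g.symm z) = g ((T ^ n) z) - g.symm ((T ^ n) z) := by
    intro n z
    have h1 : ∀ v, (T ^ n) (g v) = g ((T ^ n) v) := fun v => by
      rw [pow_apply_eq, pow_apply_eq, aeval_comm]
    rw [map_sub, h1, eq_comm, sub_right_inj, g.symm_apply_eq, ← h1, g.apply_symm_apply]
  have hself : ∀ (n : ℕ) (v : V), β ((T ^ n) v) v = 0 := fun n v => by
    rw [pow_apply_eq]; exact aeval_self hβ hg _ v
  have step : ∀ n : ℕ, ∃ x' ∈ U, β ((T ^ (e - 1)) x') y ≠ 0 ∧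
      ∀ i, e - 1 ≤ i + n → β ((T ^ i) (g x' - g.symm x')) x' = 0 := by
    intro n
    induction n with
    | zero =>
      exact ⟨x, hx, hφ, fun i hi => by rw [h.kill_diff hx (by simpa using hi)]; simp⟩
    | succ n ih =>
      obtain ⟨x₀, hx₀, hφ₀, hA⟩ := ih
      by_cases hn : e - 1 ≤ n
      · exact ⟨x₀, hx₀, hφ₀, fun i _ => hA i (by omega)⟩
      set z := (T ^ n) y
      set w := g z - g.symm z
      have hz : z ∈ U := h.good.pow_mem n hy
      have hw : w ∈ U := U.sub_mem (h.good.map_mem _ hz) (h.good.symm_mem hz)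
      set φ := β ((T ^ (e - 1)) x₀) y with hφdef
      set m := e - 2 - n
      set d := -β ((T ^ m) (g x₀ - g.symm x₀)) x₀ / (2 * 4 * φ)
      have htop : (T ^ (e - 1)) w = 0 := h.kill_diff hz le_rfl
      refine ⟨x₀ + d • w, U.add_mem hx₀ (U.smul_mem _ hw), by
        rwa [map_add, map_smul, htop, smul_zero, add_zero], fun i hi => ?_⟩
      have hTw : (T ^ i) (g w - g.symm w) = (-4 : F) • (T ^ (i + 1 + n)) y := by
        rw [hDD, ← Module.End.mul_apply, ← pow_succ, map_sub, map_smul]
        have h0 : (T ^ (i + 1)) (T z) = 0 := by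
          simp only [z]
          rw [← Module.End.mul_apply T, ← pow_succ', ← pow_add_apply]
          exact h.kill_ge hy (by omega)
        rw [h0, show (T ^ (i + 1)) z = (T ^ (i + 1 + n)) y by simp only [z, pow_add_apply]]
        module
      have hcross : β ((T ^ i) (g x₀ - g.symm x₀)) w = β ((T ^ i) (g w - g.symm w)) x₀ := by
        rw [pow_adj hg, hDadj, ← hcomm, ← hβ.neg_eq ((T ^ i) (g w - g.symm w)) x₀, neg_neg]
      have hquad : β ((T ^ i) (g w - g.symm w)) w = 0 := by
        rw [hTw, LinearMap.map_smul₂, pow_adj hg]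
        simp only [w, z]
        rw [← hcomm, ← pow_add_apply, h.kill_diff hy (by omega), map_zero, smul_zero]
      have hexp : β ((T ^ i) (g (x₀ + d • w) - g.symm (x₀ + d • w))) (x₀ + d • w) =
          β ((T ^ i) (g x₀ - g.symm x₀)) x₀ + 2 * d * β ((T ^ i) (g w - g.symm w)) x₀ := by
        rw [show g (x₀ + d • w) - g.symm (x₀ + d • w) =
          (g x₀ - g.symm x₀) + d • (g w - g.symm w) by rw [map_add, map_add, map_smul, map_smul]; module]
        simp only [map_add, map_smul, LinearMap.add_apply, LinearMap.smul_apply, smul_eq_mul, hcross,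
          hquad]
        ring
      rw [hexp]
      by_cases him : i = m
      · subst him
        have h4 : β ((T ^ (e - 1)) y) x₀ = -φ := by
          rw [hφdef, pow_adj hg, ← hβ.neg_eq]
        rw [hTw, LinearMap.map_smul₂, show m + 1 + n = e - 1 by omega, h4]
        simp only [d, smul_eq_mul]
        have h44 : (4 : F) ≠ 0 := by rw [show (4 : F) = 2 * 2 by norm_num]; exact mul_ne_zero h2 h2
        field_simp
        ring
      · rw [hA i (by omega), hTw, h.kill_ge hy (by omega)]
        simp
  obtain ⟨x', hx', hφ', hA⟩ := step e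
  refine ⟨x', hx', hφ', ?_⟩
  set D := g x' - g.symm x'
  have hhalf : ∀ v : V, g v = (2⁻¹ : F) • ((T v - (2 : F) • v) + (g v - g.symm v)) := fun v => by
    rw [show (T v - (2 : F) • v) + (g v - g.symm v) = (2 : F) • g v by simp [T]; module,
      inv_smul_smul₀ h2]
  have hinvT : ∀ v ∈ kspan T x' ⊔ kspan T D, T v ∈ kspan T x' ⊔ kspan T D :=
    sup_invariant (kspan_invariant T x') (kspan_invariant T D)
  have hgx : g x' ∈ kspan T x' ⊔ kspan T D := by
    rw [hhalf]
    exact Submodule.smul_mem _ _ (Submodule.add_mem _ (Submodule.sub_mem _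
      (hinvT _ (Submodule.mem_sup_left (self_mem_kspan T x')))
      (Submodule.smul_mem _ _ (Submodule.mem_sup_left (self_mem_kspan T x'))))
      (Submodule.mem_sup_right (self_mem_kspan T D)))
  have hgD : g D ∈ kspan T x' ⊔ kspan T D := by
    rw [hhalf, hDD x']
    exact Submodule.smul_mem _ _ (Submodule.add_mem _ (Submodule.sub_mem _
      (hinvT _ (Submodule.mem_sup_right (self_mem_kspan T D)))
      (Submodule.smul_mem _ _ (Submodule.mem_sup_right (self_mem_kspan T D))))
      (hinvT _ (Submodule.sub_mem _ (hinvT _ (Submodule.mem_sup_left (self_mem_kspan T x')))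
        (Submodule.smul_mem _ _ (Submodule.mem_sup_left (self_mem_kspan T x'))))))
  have hinvg : ∀ v ∈ kspan T x' ⊔ kspan T D, g v ∈ kspan T x' ⊔ kspan T D := by
    intro v hv
    obtain ⟨a, b, rfl⟩ := mem_pair.mp hv
    rw [map_add, ← aeval_comm, ← aeval_comm]
    exact Submodule.add_mem _ (aeval_mem_of_invariant T hinvT a hgx)
      (aeval_mem_of_invariant T hinvT b hgD)
  intro i
  have hmem : (g ^ i) x' ∈ kspan T x' ⊔ kspan T D := by
    induction i with
    | zero => exact Submodule.mem_sup_left (self_mem_kspan T x')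
    | succ i ih => rw [pow_succ', LinearEquiv.mul_apply]; exact hinvg _ ih
  obtain ⟨a, b, hab⟩ := mem_pair.mp hmem
  rw [← hab, map_add, LinearMap.add_apply, aeval_self hβ hg, zero_add]
  clear hab
  induction b using Polynomial.induction_on' with
  | add p r hp hr => simp [hp, hr]
  | monomial n r => simp [aeval_monomial, Algebra.algebraMap_eq_smul_one, hA n (by omega)]

end CfsgLib.SpOre
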