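import Cfsg.Agent.Lib.SpOre.Basic

/-!
Orthogonal sums for commutators in symplectic groups.
-/

set_option autoImplicit false
set_option linter.style.haveILetI false
set_option linter.unusedSectionVars false

namespace CfsgLib.SpOre

variable {F V : Type*} [Field F] [AddCommGroup V] [Module F V]
variable {β : LinearMap.BilinForm F V} {g : V ≃ₗ[F] V}

/-- The orthogonal complement of `P` inside `U`. -/
def compl (β : LinearMap.BilinForm F V) (U P : Submodule F V) : Submodule F V := U ⊓ β.orthogonal P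

theorem mem_compl {U P : Submodule F V} {x : V} :
    x ∈ compl β U P ↔ x ∈ U ∧ ∀ y ∈ P, β y x = 0 := Iff.rfl

theorem isotropic_sup (hβ : β.IsAlt) {A B : Submodule F V} (hA : Isotropic β A) (hB : Isotropic β B)
    (hAB : ∀ a ∈ A, ∀ b ∈ B, β a b = 0) : Isotropic β (A ⊔ B) := by
  intro x hx y hy
  obtain ⟨a, ha, b, hb, rfl⟩ := Submodule.mem_sup.mp hx
  obtain ⟨c, hc, d, hd, rfl⟩ := Submodule.mem_sup.mp hy
  simp [hA a ha c hc, hB b hb d hd, hAB a ha d hd, hβ.isRefl c b (hAB c hc b hb)]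

/-- An isometry preserving a finite-dimensional subspace preserves it backwards too. -/
theorem exists_preimage [FiniteDimensional F V] {P : Submodule F V} (hP : ∀ x ∈ P, g x ∈ P)
    {y : V} (hy : y ∈ P) : ∃ x ∈ P, g x = y := by
  have h : P.map (g : V →ₗ[F] V) = P := by
    refine Submodule.eq_of_le_of_finrank_eq (Submodule.map_le_iff_le_comap.mpr hP) ?_
    exact LinearEquiv.finrank_map_eq g P
  rw [← h] at hy
  obtain ⟨x, hx, rfl⟩ := hy
  exact ⟨x, hx, rfl⟩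

/-- A good subspace splits off, and its complement is good. -/
theorem Good.compl_good [FiniteDimensional F V] (hβ : β.IsAlt) (hg : Isom β g) {U P : Submodule F V}
    (hU : Good β g U) (hP : Good β g P) (hPU : P ≤ U) :
    Good β g (compl β U P) ∧ P ⊓ compl β U P = ⊥ ∧ P ⊔ compl β U P = U := by
  have hdis : P ⊓ compl β U P = ⊥ := by
    rw [eq_bot_iff]
    rintro x ⟨hx, hx'⟩
    exact hP.nondeg x hx fun y hy => hβ.isRefl y x ((mem_compl.mp hx').2 y hy)
  have hres : (β.restrict P).Nondegenerate := by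
    have hl : (β.restrict P).SeparatingLeft := fun x hx => Subtype.ext
      (hP.nondeg x x.2 fun y hy => hx ⟨y, hy⟩)
    exact ⟨hl, fun x hx => Subtype.ext
      (hP.nondeg x x.2 fun y hy => hβ.isRefl y x (hx ⟨y, hy⟩))⟩
  have htop : P ⊔ β.orthogonal P = ⊤ :=
    (LinearMap.BilinForm.isCompl_orthogonal_of_restrict_nondegenerate hβ.isRefl hres).sup_eq_top
  have hsup : P ⊔ compl β U P = U := by
    rw [compl, inf_comm, ← sup_inf_assoc_of_le _ hPU, htop, top_inf_eq]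
  refine ⟨⟨fun x hx => ⟨hU.map_mem x hx.1, fun y hy => ?_⟩, fun x hx h => ?_⟩, hdis, hsup⟩
  · obtain ⟨z, hz, rfl⟩ := exists_preimage hP.map_mem hy
    show β (g z) (g x) = 0
    rw [hg]; exact (mem_compl.mp hx).2 z hz
  · refine hU.nondeg x hx.1 fun y hy => ?_
    rw [← hsup] at hy
    obtain ⟨a, ha, b, hb, rfl⟩ := Submodule.mem_sup.mp hy
    rw [map_add, h b hb, add_zero]
    exact hβ.isRefl a x ((mem_compl.mp hx).2 a ha)

theorem GaussOn.sup (hβ : β.IsAlt) {ε : F} {P Q : Submodule F V} (hP : GaussOn β g ε P)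
    (hQ : GaussOn β g ε Q) (hPQ : P ⊓ Q = ⊥) (hor : ∀ x ∈ P, ∀ y ∈ Q, β x y = 0) :
    GaussOn β g ε (P ⊔ Q) := by
  obtain ⟨A, A', hA, hA', hd, hs, hAg⟩ := hP
  obtain ⟨B, B', hB, hB', hd', hs', hBg⟩ := hQ
  have hAP : A ≤ P := hs ▸ le_sup_left
  have hA'P : A' ≤ P := hs ▸ le_sup_right
  have hBQ : B ≤ Q := hs' ▸ le_sup_left
  have hB'Q : B' ≤ Q := hs' ▸ le_sup_right
  refine ⟨A ⊔ B, A' ⊔ B', isotropic_sup hβ hA hB fun a ha b hb => hor a (hAP ha) b (hBQ hb),
    isotropic_sup hβ hA' hB' fun a ha b hb => hor a (hA'P ha) b (hB'Q hb), ?_,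
    by rw [sup_sup_sup_comm, hs, hs'], fun w hw => ?_⟩
  · rw [eq_bot_iff]
    rintro x ⟨hx, hx'⟩
    obtain ⟨a, ha, b, hb, rfl⟩ := Submodule.mem_sup.mp hx
    obtain ⟨a', ha', b', hb', he⟩ := Submodule.mem_sup.mp hx'
    have h1 : a - a' = b' - b := by
      rw [sub_eq_sub_iff_add_eq_add, he.symm]; abel
    have h2 : a - a' ∈ P ⊓ Q := ⟨P.sub_mem (hAP ha) (hA'P ha'), h1 ▸ Q.sub_mem (hB'Q hb') (hBQ hb)⟩
    rw [hPQ, Submodule.mem_bot, sub_eq_zero] at h2
    subst h2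
    have h3 : b' = b := by simpa [sub_eq_zero, eq_comm] using h1
    subst h3
    have ha0 : a ∈ A ⊓ A' := ⟨ha, ha'⟩
    have hb0 : b' ∈ B ⊓ B' := ⟨hb, hb'⟩
    rw [hd, Submodule.mem_bot] at ha0
    rw [hd', Submodule.mem_bot] at hb0
    simp [ha0, hb0]
  · obtain ⟨a, ha, b, hb, rfl⟩ := Submodule.mem_sup.mp hw
    have : g (a + b) - ε • (a + b) = (g a - ε • a) + (g b - ε • b) := by
      rw [map_add, smul_add]; abel
    rw [this]
    exact Submodule.add_mem_sup (hAg a ha) (hBg b hb)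

theorem CommOn.sup [FiniteDimensional F V] (hβ : β.IsAlt) {P Q : Submodule F V} (hP : CommOn β g P) (hQ : CommOn β g Q)
    (hor : ∀ x ∈ P, ∀ y ∈ Q, β x y = 0) : CommOn β g (P ⊔ Q) := by
  obtain ⟨a, b, ha, hb, haP, hbP, hfix, hab⟩ := hP
  obtain ⟨c, d, hc, hd, hcQ, hdQ, hfix', hcd⟩ := hQ
  have habQ : ∀ x ∈ Q, a x = x ∧ b x = x := fun x hx => hfix x fun u hu => hor u hu x hx
  have hcdP : ∀ x ∈ P, c x = x ∧ d x = x := fun x hx =>
    hfix' x fun u hu => hβ.isRefl x u (hor x hx u hu)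
  have hinv : ∀ (e : V ≃ₗ[F] V) (x : V), e x = x → e⁻¹ x = x := fun e x h => by
    rw [show e⁻¹ x = e.symm x from rfl, LinearEquiv.symm_apply_eq, h]
  refine ⟨a * c, b * d, fun x y => by simp [LinearEquiv.mul_apply, ha _, hc _],
    fun x y => by simp [LinearEquiv.mul_apply, hb _, hd _], ?_, ?_, fun x hx => ?_, fun x hx => ?_⟩
  · intro x hx
    obtain ⟨p, hp, q, hq, rfl⟩ := Submodule.mem_sup.mp hx
    simp only [LinearEquiv.mul_apply, map_add, (hcdP p hp).1, (habQ _ (hcQ q hq)).1]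
    exact Submodule.add_mem_sup (haP p hp) (hcQ q hq)
  · intro x hx
    obtain ⟨p, hp, q, hq, rfl⟩ := Submodule.mem_sup.mp hx
    simp only [LinearEquiv.mul_apply, map_add, (hcdP p hp).2, (habQ _ (hdQ q hq)).2]
    exact Submodule.add_mem_sup (hbP p hp) (hdQ q hq)
  · obtain ⟨h1, h2⟩ := hfix x fun u hu => hx u (Submodule.mem_sup_left hu)
    obtain ⟨h3, h4⟩ := hfix' x fun u hu => hx u (Submodule.mem_sup_right hu)
    simp [LinearEquiv.mul_apply, h1, h2, h3, h4]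
  · obtain ⟨p, hp, q, hq, rfl⟩ := Submodule.mem_sup.mp hx
    have key : ∀ (e : V ≃ₗ[F] V) (U : Submodule F V), (∀ z ∈ U, e z ∈ U) →
        ∀ z ∈ U, e⁻¹ z ∈ U := by
      intro e U h z hz
      obtain ⟨w, hw, rfl⟩ := exists_preimage (g := e) h hz
      rwa [show e⁻¹ (e w) = e.symm (e w) from rfl, LinearEquiv.symm_apply_apply]
    have e1 := key b P hbP p hp
    have e2 := key a P haP _ e1
    have e3 := key d Q hdQ q hq
    have e4 := key c Q hcQ _ e3
    have hp' := hab p hp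
    have hq' := hcd q hq
    simp only [LinearEquiv.mul_apply] at hp' hq'
    simp only [map_add, mul_inv_rev, LinearEquiv.mul_apply, hinv d _ (hcdP _ e1).2,
      hinv c _ (hcdP _ e2).1, (hcdP _ e2).2, hinv b _ (habQ q hq).2, hinv a _ (habQ _ e3).1,
      (hcdP _ (hbP _ e2)).1, (habQ _ (hdQ _ e4)).2, hp', hq',
      (habQ _ (hq' ▸ hcQ _ (hdQ _ e4) : g q ∈ Q)).1]

end CfsgLib.SpOre
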